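import Cfsg.Agent.AutPSU.Field
import Cfsg.Agent.LocalBalance.Small
import Cfsg.Agent.LocalBalance.Fix
import Cfsg.Agent.UGeom.Center
import Cfsg.Agent.S0282
set_option autoImplicit false

/-!
Local balance for the automorphisms of `PSU_n(q)` outside the inner-diagonal group.
-/

namespace CfsgLib.AutPSU

open Matrix
open CfsgLib.UGeom CfsgLib.Rigid

variable {F : Type*} [Field F] [Fintype F] {q n : ℕ}

local notation "H" => Cfsg.hermForm n F q
local notation "Vn" => (Fin n → F)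
local notation "SU" => Cfsg.SU n F q
local notation "GU" => Cfsg.GU n F q
local notation "PSU'" => Cfsg.PSU n F q
local notation "mg" A:max => (((A : GU) : GL (Fin n) F) : Matrix (Fin n) (Fin n) F)
local notation "mat" A:max => (((A : SU) : Matrix.SpecialLinearGroup (Fin n) F) : Matrix (Fin n) (Fin n) F)

/-- Commutation with a conjugation gives a semilinear relation. -/
theorem semi_of_commute (C : Conj F q) (hn : 3 ≤ n) {a X : GU} {σ : RingAut F}
    (h : conjPSU a * fieldPSU σ * conjPSU X = conjPSU X * (conjPSU a * fieldPSU σ)) :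
    ∃ c : F, mg a * (mg X).map σ = c • (mg X * mg a) := by
  rw [mul_assoc, fieldPSU_mul_conjPSU, ← mul_assoc, ← map_mul, ← mul_assoc, ← map_mul] at h
  obtain ⟨u, hu⟩ := (conjPSU_eq_iff C hn).1 (mul_right_cancel h)
  refine ⟨(u.1 : F), ?_⟩
  have h1 : mg (a * fieldGU σ X) = mg (scalarGU C n u * (X * a)) := congrArg (fun g : GU => mg g) hu
  rw [GU_coe_mul, GU_coe_mul, fieldGU_val, scalarGU_val, Matrix.smul_mul, Matrix.one_mul] at h1
  exact h1

/-- `PSU_3(2)` is not simple. -/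
theorem not_three_two (C : Conj F q) (hK : IsSimpleGroup (Cfsg.PSU n F q)) : ¬ (n = 3 ∧ q = 2) := by
  rintro ⟨rfl, rfl⟩
  haveI := hK
  have hF : Fintype.card F = 4 := by rw [C.card]; norm_num
  obtain ⟨hcard, hsol⟩ := Cfsg.Agent.S0282.result hF
  haveI := hsol
  have hcomm : ∀ a b : Cfsg.PSU 3 F 2, a * b = b * a := IsSimpleGroup.comm_iff_isSolvable.2 hsol
  letI : CommGroup (Cfsg.PSU 3 F 2) := { (inferInstance : Group (Cfsg.PSU 3 F 2)) with mul_comm := hcomm }
  haveI : IsSimpleGroup (Cfsg.PSU 3 F 2) := hK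
  have hp := IsSimpleGroup.prime_card (α := Cfsg.PSU 3 F 2)
  rw [hcard] at hp
  norm_num at hp

/-- A matrix of norm one and determinant one gives an element of `SU`. -/
theorem exists_SU (C : Conj F q) {M : Matrix (Fin n) (Fin n) F} (hd : M.det = 1)
    (h : CfsgLib.Unitary.adj C.σ M * M = 1) : ∃ x : SU, mat x = M := by
  have hg : GeneralLinearGroup.mkOfDetNeZero M (by rw [hd]; exact one_ne_zero) ∈ GU := (mem_GU_iff' C _).2 h
  exact ⟨⟨⟨M, hd⟩, hg⟩, rfl⟩

theorem toGU_val (x : SU) : mg (toGU n F q x) = mat x := rfl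

/-! ### Automorphisms of field type -/

section FieldType

variable {F₀ : Type*} [Field F₀] [Fintype F₀] {q₀ : ℕ} {C₀ : Conj F₀ q₀} {C : Conj F q}
  {τ : RingAut F} {ι : F₀ →+* F}

/-- `SU_n(q₀)` inside the automorphism group. -/
noncomputable def subU (S : Sub C C₀ τ ι) (n : ℕ) : Cfsg.SU n F₀ q₀ →* MulAut (Cfsg.PSU n F q) :=
  conjPSU.comp ((mapGU S n).comp (toGU n F₀ q₀))

theorem subU_apply (S : Sub C C₀ τ ι) (s : Cfsg.SU n F₀ q₀) :
    subU S n s = conjPSU (mapGU S n (toGU n F₀ q₀ s)) := rfl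

theorem subU_inn (S : Sub C C₀ τ ι) (s : Cfsg.SU n F₀ q₀) :
    ∃ k : PSU', MulAut.conj k = subU S n s := by
  obtain ⟨x, hx⟩ := exists_SU C (M := ι.mapMatrix s.1.1) (by rw [← RingHom.map_det, s.1.2, map_one])
    ((mem_GU_iff' C _).1 (mapGU S n (toGU n F₀ q₀ s)).2)
  refine ⟨proj x, ?_⟩
  rw [← conjPSU_toGU, subU_apply]
  exact congrArg conjPSU (Subtype.ext (Units.ext hx))

theorem subU_commute (S : Sub C C₀ τ ι) (hn : 3 ≤ n) (s : Cfsg.SU n F₀ q₀) :
    subU S n s * fieldPSU τ = fieldPSU τ * subU S n s :=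
  (commute_fieldPSU_iff C hn _ τ).2 ⟨1, by rw [map_one, one_mul]; exact fieldGU_mapGU S _⟩

theorem subU_eq_one_iff (S : Sub C C₀ τ ι) (hn : 3 ≤ n) (s : Cfsg.SU n F₀ q₀) :
    subU S n s = 1 ↔ s ∈ Subgroup.center (Cfsg.SU n F₀ q₀) := by
  constructor
  · intro h
    rw [subU_apply, conjPSU_eq_one_iff C hn] at h
    obtain ⟨a, ha⟩ := h
    have he : ∀ i k, ι (s.1.1 i k) = (a • (1 : Matrix (Fin n) (Fin n) F)) i k :=
      fun i k => congrFun (congrFun ha i) k
    let i₀ : Fin n := ⟨0, by omega⟩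
    refine mem_center_of_scalar (c := s.1.1 i₀ i₀) (Matrix.ext fun i k => ι.injective ?_)
    rw [he, Matrix.smul_apply, Matrix.smul_apply, smul_eq_mul, smul_eq_mul, map_mul, he]
    simp only [Matrix.one_apply, Matrix.smul_apply, smul_eq_mul]
    split_ifs <;> simp
  · intro h
    obtain ⟨c, hc⟩ := CfsgLib.Unitary.scalar_of_commute q₀ C₀.card hn s.1.1 fun g =>
      congrArg (fun y : Cfsg.SU n F₀ q₀ => y.1.1) (Subgroup.mem_center_iff.1 h g)
    rw [subU_apply]
    refine conjPSU_eq_one_of_scalar (a := ι c) ?_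
    change ι.mapMatrix s.1.1 = _
    rw [hc]
    ext i k
    simp [Matrix.one_apply]
    try split_ifs <;> simp

theorem subU_ker (S : Sub C C₀ τ ι) (hn : 3 ≤ n) :
    (subU S n).ker = (proj (F := F₀) (n := n) (q := q₀)).ker :=
  Subgroup.ext fun s => by rw [MonoidHom.mem_ker, subU_eq_one_iff S hn, MonoidHom.mem_ker, proj_eq_one_iff]

/-- The centraliser of `SU_n(q₀)` in the automorphism group. -/
theorem centraliser_subU (S : Sub C C₀ τ ι) (hn : 3 ≤ n) {r : ℕ} [Fact r.Prime] [CharP F r] {a : GU}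
    {σ : RingAut F}
    (h : ∀ s, conjPSU a * fieldPSU σ * subU S n s = subU S n s * (conjPSU a * fieldPSU σ)) :
    σ ∈ Subgroup.zpowers τ ∧ conjPSU a = (1 : MulAut PSU') := by
  haveI : NeZero n := ⟨by omega⟩
  haveI : CharP F₀ r := (RingHom.charP_iff ι ι.injective r).2 inferInstance
  have hsemi : ∀ s : Cfsg.SU n F₀ q₀, Semi ((σ : F →+* F).comp ι) ι (mg a) s.1.1 s.1.1 := fun s => by
    obtain ⟨c, hc⟩ := semi_of_commute C hn (a := a) (σ := σ) (X := mapGU S n (toGU n F₀ q₀ s)) (by rw [← subU_apply]; exact h s)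
    exact ⟨c, hc⟩
  obtain ⟨⟨l, hl⟩, hρ⟩ := scalar_of_isotropic (ρ := (σ : F →+* F).comp ι) (ι := ι) (b := mg a) C₀ hn
    a.1.det_ne_zero fun v hv hvv => by
      obtain ⟨c, hc0, hc⟩ := exists_trace_zero C₀
      have hd : (C₀.σ ∘ v) ⬝ᵥ (c • v) = 0 := by
        rw [dotProduct_smul, dotProduct_comm]
        change c • (∑ i, v i * C₀.σ (v i)) = 0
        rw [← form_eq C₀, hvv, smul_zero]
      have hmat : ((utv C₀ v c hvv hc).1.1 : Matrix (Fin n) (Fin n) F₀) = 1 + vecMulVec (c • v) (C₀.σ ∘ v) :=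
        Matrix.ext_iff_mulVec.2 fun x => by
          rw [utv_mulVec, Matrix.add_mulVec, Matrix.one_mulVec, Matrix.vecMulVec_mulVec, form_eq C₀]
          funext i
          simp only [Pi.add_apply, Pi.smul_apply, smul_eq_mul, op_smul_eq_smul, dotProduct, Function.comp_apply]
          rw [Finset.sum_congr rfl fun j _ => mul_comm (C₀.σ (v j)) (x j)]
          ring
      have hp := transvection_pow (r := r) (v := c • v) (φ := C₀.σ ∘ v) hd
      rw [← hmat] at hp
      have hk : ((utv C₀ v c hvv hc).1.1 - 1) ^ 1 = vecMulVec (c • v) (C₀.σ ∘ v) := by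
        rw [pow_one, hmat, add_sub_cancel_left]
      obtain ⟨b', hb'⟩ := map_line (b := mg a) a.1.det_ne_zero hp hp (hsemi (utv C₀ v c hvv hc)) hk hk
        (fun h0 => hv (funext fun i => C₀.σ.injective ((congrFun h0 i).trans (map_zero _).symm)))
      rw [semi_smul, show (ι ∘ (c • v)) = ι c • (ι ∘ v) from funext fun i => map_mul ι _ _, smul_smul] at hb'
      refine ⟨b' * ι c / ((σ : F →+* F).comp ι) c, ?_⟩
      rw [div_eq_inv_mul, ← smul_smul, ← hb', inv_smul_smul₀ ((map_ne_zero _).2 hc0)]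
  exact ⟨CfsgLib.AutPSp.mem_zpowers_of_fix S.fix fun c => RingHom.congr_fun hρ c, conjPSU_eq_one_of_scalar hl⟩

theorem card_iso_odd (C₀ : Conj F₀ q₀) (h2 : q₀ = 2) : ¬ 2 ∣ Nat.card (Iso 3 F₀ q₀) := by
  classical
  intro hd
  have hcard := card_isotropic C₀ 3
  rw [if_neg (by decide), h2] at hcard
  simp only [show (3 : ℕ) - 1 = 2 from rfl] at hcard
  norm_num at hcard
  let S' := {v : Fin 3 → F₀ // Cfsg.hermForm 3 F₀ q₀ v v = 0}
  let z : S' := ⟨0, form_zero_left 0⟩
  let T := {v : S' // v ≠ z}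
  have hT : Nat.card T + 1 = Nat.card S' := by
    have h1 := Fintype.card_subtype_compl fun v : S' => v = z
    rw [Fintype.card_subtype_eq] at h1
    have hpos : 0 < Fintype.card S' := Fintype.card_pos_iff.2 ⟨z⟩
    rw [Nat.card_eq_fintype_card, Nat.card_eq_fintype_card]
    change Fintype.card T = _ at h1
    omega
  haveI : Fintype (Iso 3 F₀ q₀) := @Fintype.ofFinite _ (Subtype.finite)
  let g : Iso 3 F₀ q₀ × F₀ˣ → T := fun pa => ⟨⟨(pa.2 : F₀) • pa.1.1.rep, by
      rw [form_smul_left, form_smul_right C₀, pa.1.2, mul_zero, mul_zero]⟩, fun h => by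
      have h1 : (pa.2 : F₀) • pa.1.1.rep = 0 := congrArg Subtype.val h
      exact (smul_ne_zero pa.2.ne_zero pa.1.1.rep_nonzero) h1⟩
  have hg : Function.Bijective g := by
    constructor
    · rintro ⟨p, a⟩ ⟨p', a'⟩ e
      have e' : (a : F₀) • p.1.rep = (a' : F₀) • p'.1.rep := congrArg (fun t : T => t.1.1) e
      have hp : p = p' := Subtype.ext (by
        rw [← Projectivization.mk_rep p.1, ← Projectivization.mk_rep p'.1,
          Projectivization.mk_eq_mk_iff' F₀ _ _ p.1.rep_nonzero p'.1.rep_nonzero]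
        exact ⟨(a : F₀)⁻¹ * a', by rw [← smul_smul, ← e', inv_smul_smul₀ a.ne_zero]⟩)
      subst hp
      exact Prod.ext rfl (Units.ext (smul_left_injective F₀ p.1.rep_nonzero e'))
    · rintro ⟨⟨v, hv⟩, hne⟩
      have hv0 : v ≠ 0 := fun h0 => hne (Subtype.ext h0)
      obtain ⟨a, ha⟩ := Projectivization.exists_smul_eq_mk_rep F₀ v hv0
      refine ⟨(⟨Projectivization.mk F₀ v hv0, iso_of_mk C₀ hv0 hv⟩, a⁻¹), Subtype.ext (Subtype.ext ?_)⟩
      change ((a⁻¹ : F₀ˣ) : F₀) • (Projectivization.mk F₀ v hv0).rep = v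
      rw [← ha, Units.smul_def, smul_smul, Units.inv_mul, one_smul]
  have hprod := Nat.card_congr (Equiv.ofBijective g hg)
  rw [Nat.card_prod] at hprod
  have h27 : Nat.card T = 27 := by
    have h0 : Nat.card S' = 28 := by
      change normCard 3 q₀ F₀ 0 = 28
      rw [h2]; exact hcard
    omega
  rw [h27] at hprod
  exact absurd (hd.trans ⟨_, hprod.symm⟩) (by decide)

theorem dvd_card_subU (S : Sub C C₀ τ ι) (hn : 3 ≤ n) {p : ℕ} [Fact p.Prime] (hp2 : p ≠ 2)
    (hd : p ∣ Nat.card ↥(MonoidHom.eqLocus (fieldPSU (n := n) (q := q) τ).toMonoidHom (MonoidHom.id PSU'))) :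
    p ∣ Nat.card (subU S n).range := by
  classical
  have hn1 : 1 ≤ n := by omega
  set Hc := (conjPSU (F := F) (n := n) (q := q)).range ⊓ Subgroup.centralizer {fieldPSU (n := n) τ} with hHc
  have hH : Nat.card Hc ∣ Nat.card (Cfsg.GU n F₀ q₀) := by
    have hle : Hc ≤ (conjPSU.comp (mapGU S n)).range := by
      rintro _ ⟨⟨g, rfl⟩, hg⟩
      obtain ⟨g₀, e⟩ := exists_descend_of_commute S hn (Subgroup.mem_centralizer_singleton_iff.mp hg)
      exact ⟨g₀, e.symm⟩
    exact (Subgroup.card_dvd_of_le hle).trans (Subgroup.card_range_dvd _)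
  have h1 : p ∣ (q₀ + 1) * Nat.card (Cfsg.SU n F₀ q₀) := by
    rw [card_SU_mul C₀ hn1]
    exact (hd.trans (CfsgLib.LocalBalance.fix_dvd_card (conj_injective C hn) _ _ fun k => inn_le_range ⟨k, rfl⟩)).trans hH
  by_cases hq1 : p ∣ q₀ + 1
  · haveI : Finite (N1 F₀ q₀) := inferInstance
    obtain ⟨ω, hω⟩ := exists_prime_orderOf_dvd_card' (G := N1 F₀ q₀) p (by rw [card_N1 C₀]; exact hq1)
    have hω1 : (ω.1 : F₀) ≠ 1 := fun e => by
      have : ω = 1 := Subtype.ext (Units.ext e)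
      rw [this, orderOf_one] at hω
      exact (Fact.out : p.Prime).ne_one hω.symm
    have hωp : (ω.1 : F₀) ^ p = 1 := by
      have := congrArg (fun x : N1 F₀ q₀ => (x.1 : F₀)) (hω ▸ pow_orderOf_eq_one ω)
      simpa using this
    let i₀ : Fin n := ⟨0, by omega⟩
    let i₁ : Fin n := ⟨1, by omega⟩
    let i₂ : Fin n := ⟨2, by omega⟩
    have h01 : i₀ ≠ i₁ := fun e => by simpa [i₀, i₁] using congrArg Fin.val e
    have h02 : i₀ ≠ i₂ := fun e => by simpa [i₀, i₂] using congrArg Fin.val e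
    have h12 : i₁ ≠ i₂ := fun e => by simpa [i₁, i₂] using congrArg Fin.val e
    let d : Fin n → F₀ := fun i => if i = i₀ then (ω.1 : F₀) else if i = i₁ then (ω.1 : F₀)⁻¹ else 1
    have hdn : ∀ i, C₀.σ (d i) * d i = 1 := fun i => by
      have hw : C₀.σ (ω.1 : F₀) * (ω.1 : F₀) = 1 := by rw [C₀.pow, mul_comm]; exact mem_N1.1 ω.2
      simp only [d]
      split_ifs
      · exact hw
      · rw [map_inv₀, ← mul_inv, hw, inv_one]
      · rw [map_one, one_mul]
    have hdet : (Matrix.diagonal d).det = 1 := by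
      rw [Matrix.det_diagonal, Fintype.prod_eq_mul i₀ i₁ h01 fun i hi => by simp [d, hi.1, hi.2]]
      simp [d, h01.symm]
    obtain ⟨s, hs⟩ := exists_SU C₀ hdet (by
      rw [CfsgLib.Unitary.adj, Matrix.diagonal_map (map_zero _), Matrix.diagonal_transpose, Matrix.diagonal_mul_diagonal]
      simp only [Function.comp_apply, hdn, Matrix.diagonal_one])
    have hs1 : subU S n s ≠ 1 := fun h => by
      obtain ⟨c, hc⟩ := CfsgLib.Unitary.scalar_of_commute q₀ C₀.card hn s.1.1 fun g =>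
        congrArg (fun y : Cfsg.SU n F₀ q₀ => y.1.1) (Subgroup.mem_center_iff.1 ((subU_eq_one_iff S hn s).1 h) g)
      rw [hs] at hc
      have e0 := congrFun (congrFun hc i₀) i₀
      have e2 := congrFun (congrFun hc i₂) i₂
      simp [d, h02.symm, h12.symm] at e0 e2
      exact hω1 (e0.trans e2.symm)
    have hsp : s ^ p = 1 := by
      refine mat_injective ?_
      change s.1.1 ^ p = 1
      rw [hs, Matrix.diagonal_pow, ← Matrix.diagonal_one]
      congr 1
      funext i
      simp only [Pi.pow_apply, d]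
      split_ifs
      · exact hωp
      · rw [inv_pow, hωp, inv_one]
      · exact one_pow _
    have hord := Subgroup.orderOf_dvd_natCard (subU S n).range ⟨s, rfl⟩
    rwa [orderOf_eq_prime (p := p) (show subU S n s ^ p = 1 by rw [← map_pow, hsp, map_one]) hs1] at hord
  · have h2 := ((Fact.out : p.Prime).dvd_mul.1 h1).resolve_left hq1
    have hsp := Subgroup.card_eq_card_quotient_mul_card_subgroup (subU S n).ker
    rw [Nat.card_congr (QuotientGroup.quotientKerEquivRange (subU S n)).toEquiv] at hsp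
    rw [hsp] at h2
    refine ((Fact.out : p.Prime).dvd_mul.1 h2).resolve_right fun h3 => hq1 (h3.trans ?_)
    rw [subU_ker S hn, show (proj (F := F₀) (n := n) (q := q₀)).ker = Subgroup.center _ from QuotientGroup.ker_mk' _,
      card_center_SU C₀ (by omega)]
    exact Nat.gcd_dvd_right _ _

theorem exists_subU_ne_one (S : Sub C C₀ τ ι) (hn : 3 ≤ n) : ∃ s, subU S n s ≠ 1 := by
  by_contra hno
  push Not at hno
  have hcen : Subgroup.center (Cfsg.SU n F₀ q₀) = ⊤ :=
    eq_top_iff.2 fun s _ => (subU_eq_one_iff S hn s).1 (hno s)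
  obtain ⟨u, w, hu, hw, hwu⟩ := exists_iso_pair C₀ hn
  have hu0 : u ≠ 0 := fun e => by simp [e, form_zero_right C₀] at hwu
  obtain ⟨c, hc0, hc⟩ := exists_trace_zero C₀
  have hmem : utv C₀ u c hu hc ∈ Subgroup.center (Cfsg.SU n F₀ q₀) := by rw [hcen]; trivial
  obtain ⟨k, hk⟩ := CfsgLib.Unitary.scalar_of_commute q₀ C₀.card hn _ fun g =>
    congrArg (fun y : Cfsg.SU n F₀ q₀ => y.1.1) (Subgroup.mem_center_iff.1 hmem g)
  have h1 := congrArg (fun M => M *ᵥ w) hk
  simp only [utv_mulVec, hwu, mul_one, Matrix.smul_mulVec, Matrix.one_mulVec] at h1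
  have h2 := congrArg (fun x => Cfsg.hermForm n F₀ q₀ x w) h1
  have huw : Cfsg.hermForm n F₀ q₀ u w = 1 := by rw [← form_conj C₀, hwu, map_one]
  simp only [form_add_left, form_smul_left, hw, huw, mul_one, mul_zero, zero_add] at h2
  exact hc0 h2

/-- Local balance for a standard field automorphism. -/
theorem core_field_iff (S : Sub C C₀ τ ι) (hn : 3 ≤ n) (h32 : ¬ (n = 3 ∧ q = 2)) {p r : ℕ} [Fact p.Prime]
    [Fact r.Prime] [CharP F r] (hpr : p ≠ r) (hp2 : p ≠ 2) (hτ : τ ^ p = 1)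
    (A : Subgroup (MulAut PSU')) (hinn : ∀ k : PSU', MulAut.conj k ∈ A) :
    Cfsg.pPrimeCore p ↥(A ⊓ Subgroup.centralizer {fieldPSU τ}) ≠ ⊥ ↔
      Nat.Coprime p (Nat.card ↥(MonoidHom.eqLocus (fieldPSU (n := n) (q := q) τ).toMonoidHom (MonoidHom.id PSU'))) := by
  classical
  constructor
  · intro h
    rw [(Fact.out : p.Prime).coprime_iff_not_dvd]
    intro hd
    have hR := dvd_card_subU S hn hp2 hd
    refine h (CfsgLib.LocalBalance.core_eq_bot p A _ (conjPSU (F := F) (n := n) (q := q)).range (subU S n).range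
      (range_conjPSU_normal C hn h32) ?_ ?_ ?_ ?_ ?_)
    · rintro _ ⟨s, rfl⟩
      exact ⟨_, rfl⟩
    · rintro _ ⟨s, rfl⟩
      obtain ⟨k, hk⟩ := subU_inn S s
      exact ⟨hk ▸ hinn k, Subgroup.mem_centralizer_singleton_iff.2 (subU_commute S hn s)⟩
    · intro x hx
      obtain ⟨a, σ, rfl⟩ := exists_decomposition C hn h32 x
      obtain ⟨hσ, ha⟩ := centraliser_subU S hn (r := r) (a := a) (σ := σ) fun s => hx _ ⟨s, rfl⟩
      rw [ha, one_mul, ← map_pow]
      obtain ⟨k, rfl⟩ := Subgroup.mem_zpowers_iff.1 hσ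
      rw [← zpow_natCast, ← _root_.zpow_mul, mul_comm, _root_.zpow_mul, zpow_natCast, hτ, _root_.one_zpow, map_one]
    · rintro _ ⟨g, rfl⟩ hg _ ⟨s, rfl⟩
      obtain ⟨g₀, hg₀⟩ := exists_descend_of_commute S hn hg
      refine ⟨conjSU g₀ s, ?_⟩
      rw [hg₀, subU_apply, subU_apply, ← map_inv, ← map_mul, ← map_mul, ← map_inv (mapGU S n),
        ← map_mul (mapGU S n), ← map_mul (mapGU S n)]
      exact congrArg (fun x => conjPSU (mapGU S n x)) (Subtype.ext (Units.ext rfl))
    · intro M hM hMR hMp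
      haveI : CharP F₀ r := (RingHom.charP_iff ι ι.injective r).2 inferInstance
      by_cases h32' : n = 3 ∧ q₀ = 2
      · obtain ⟨rfl, rfl⟩ := h32'
        have hF4 : Fintype.card F₀ = 4 := by rw [C₀.card]; norm_num
        have hr2 : r = 2 := by
          obtain ⟨e, -, he⟩ := FiniteField.card F₀ r
          rw [hF4] at he
          have : r ∣ 2 ^ 2 := ⟨r ^ ((e : ℕ) - 1), by
            rw [← pow_succ', Nat.sub_add_cancel e.pos, ← he]; norm_num⟩
          exact (Nat.prime_dvd_prime_iff_eq Fact.out Nat.prime_two).1 ((Fact.out : r.Prime).dvd_of_dvd_pow this)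
        subst hr2
        haveI : Fact (Nonempty (Conj F₀ 2)) := ⟨⟨C₀⟩⟩
        haveI : MulAction.IsPretransitive (Cfsg.SU 3 F₀ 2) (Iso 3 F₀ 2) :=
          (isPreprimitive_iso (n := 3) C₀).toIsPretransitive
        haveI : Finite (Iso 3 F₀ 2) := Subtype.finite
        have h72 : Nat.card (subU S 3).range = 72 := by
          rw [← (Cfsg.Agent.S0282.result hF4).1, ← Nat.card_congr (QuotientGroup.quotientKerEquivRange _).toEquiv]
          exact Nat.card_congr (QuotientGroup.quotientMulEquivOfEq ((subU_ker S le_rfl).trans (QuotientGroup.ker_mk' _))).toEquiv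
        have hp3 : p = 3 := by
          have h1 : p ∣ 2 ^ 3 * 3 ^ 2 := by rw [h72] at hR; exact hR
          rcases (Fact.out : p.Prime).dvd_mul.1 h1 with h | h
          · exact absurd ((Nat.prime_dvd_prime_iff_eq Fact.out Nat.prime_two).1 ((Fact.out : p.Prime).dvd_of_dvd_pow h)) hpr
          · exact (Nat.prime_dvd_prime_iff_eq Fact.out Nat.prime_three).1 ((Fact.out : p.Prime).dvd_of_dvd_pow h)
        subst hp3
        have hM8 : Nat.card M ∣ 2 ^ 3 := by
          have h1 : Nat.card M ∣ 2 ^ 3 * 3 ^ 2 := by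
            have := Subgroup.card_dvd_of_le hM; rwa [h72] at this
          exact (Nat.Coprime.pow_right 2 ((Nat.prime_three.coprime_iff_not_dvd.2 hMp).symm)).dvd_of_dvd_mul_right h1
        obtain ⟨j, -, hj⟩ := (Nat.dvd_prime_pow Nat.prime_two).1 hM8
        exact CfsgLib.LocalBalance.eq_bot_of_transitive (r := 2) (Ω := Iso 3 F₀ 2) (subU S 3)
          (fun x => by
            rw [subU_eq_one_iff S le_rfl]
            exact ⟨fun hx w => fix_of_mem_center C₀ le_rfl x hx w, mem_center_of_fix C₀ le_rfl x⟩)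
          (card_iso_odd C₀ rfl) M hM hMR (IsPGroup.of_card hj)
      · haveI := isSimpleGroup_PSU C₀ hn h32'
        exact CfsgLib.LocalBalance.eq_bot_of_simple (subU S n) proj proj_surjective (subU_ker S hn) hR M hM hMR hMp
  · intro h
    obtain ⟨s, hs⟩ := exists_subU_ne_one S hn
    exact CfsgLib.LocalBalance.core_ne_bot_of_coprime p (conj_injective C hn) A hinn _
      (CfsgLib.LocalBalance.exists_fixed (conj_injective C hn) _ hs (subU_inn S s) (subU_commute S hn s)) h

end FieldType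

/-! ### Automorphisms of order two -/

/-- An involution outside the inner-diagonal group. -/
theorem core_invol (C : Conj F q) (hn : 3 ≤ n) (h32 : ¬ (n = 3 ∧ q = 2)) {r : ℕ} [Fact r.Prime] [CharP F r]
    (hr : r ≠ 2) (g : GU) (τ : RingAut F) (hτ : τ ≠ 1) (hsq : (conjPSU g * fieldPSU τ) ^ 2 = 1)
    (A : Subgroup (MulAut PSU')) (hinn : ∀ k : PSU', MulAut.conj k ∈ A) :
    Cfsg.pPrimeCore 2 ↥(A ⊓ Subgroup.centralizer {conjPSU g * fieldPSU τ}) = ⊥ ∧
      2 ∣ Nat.card ↥(MonoidHom.eqLocus (conjPSU g * fieldPSU τ : MulAut PSU').toMonoidHom (MonoidHom.id PSU')) := by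
  classical
  haveI : Fact (Nat.Prime 2) := ⟨Nat.prime_two⟩
  haveI : NeZero n := ⟨by omega⟩
  have hone : conjPSU (g * fieldGU τ g) * fieldPSU (τ * τ) = (1 : MulAut PSU') := by
    rw [← hsq, pow_two, map_mul, map_mul, mul_assoc (conjPSU g) (fieldPSU τ), ← mul_assoc (fieldPSU τ),
      fieldPSU_mul_conjPSU]
    simp only [mul_assoc]
  obtain ⟨hτ2, hgg⟩ := decomposition_unique C hn (g' := 1) (τ' := 1) (hone.trans (by rw [map_one, map_one, one_mul]))
  rw [map_one] at hgg
  -- the field part is the conjugation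
  obtain ⟨σC, hσC⟩ : ∃ σC : RingAut F, ∀ x, σC x = C.σ x :=
    ⟨RingEquiv.ofBijective C.σ ⟨C.σ.injective, fun x => ⟨C.σ x, C.invol x⟩⟩, fun _ => rfl⟩
  have hτC : ∀ x, τ x = C.σ x := fun x => by
    rw [← hσC, CfsgLib.AutPSL.involution_unique hτ hτ2
      (show σC ≠ 1 from fun e => C.ne_id (RingHom.ext fun y => by rw [← hσC, e]; rfl))
      (RingEquiv.ext fun y => by rw [RingAut.mul_apply, hσC, hσC, C.invol]; rfl)]
  have hττ : ∀ x, τ (τ x) = x := fun x => RingEquiv.congr_fun hτ2 x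
  obtain ⟨u, hu⟩ := (conjPSU_eq_iff C hn).1 (hgg.trans (map_one _).symm)
  rw [mul_one] at hu
  set uF : F := (u.1 : F) with huF
  have hu' : mg g * (mg g).map τ = uF • (1 : Matrix (Fin n) (Fin n) F) := by
    rw [← scalarGU_val C u, ← hu]; rfl
  have hu0 : uF ≠ 0 := u.1.ne_zero
  have hgU : (mg g).map τ = ((g.1⁻¹ : GL (Fin n) F) : Matrix (Fin n) (Fin n) F)ᵀ := by
    have h1 := (mem_GU_iff' C g.1).1 g.2
    have h2 : ((mg g).map τ)ᵀ = ((g.1⁻¹ : GL (Fin n) F) : Matrix (Fin n) (Fin n) F) := by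
      have h3 : CfsgLib.Unitary.adj C.σ (mg g) = ((mg g).map τ)ᵀ := Matrix.ext fun i j => (hτC _).symm
      rw [← h3, ← Matrix.mul_one (CfsgLib.Unitary.adj C.σ (mg g)), ← Units.val_one, ← mul_inv_cancel g.1,
        Units.val_mul, ← Matrix.mul_assoc, h1, Matrix.one_mul]
    rw [← h2, Matrix.transpose_transpose]
  have hgt : mg g = uF • (mg g)ᵀ := by
    conv_lhs => rw [← Matrix.mul_one (mg g), ← Matrix.transpose_one, ← Units.val_one, ← mul_inv_cancel g.1,
      Units.val_mul, Matrix.transpose_mul, ← hgU, ← Matrix.mul_assoc, hu']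
    rw [Matrix.smul_mul, Matrix.one_mul]
  have huu : uF * uF = 1 := by
    have h1 : mg g = (uF * uF) • mg g := by
      conv_lhs => rw [hgt]
      rw [← smul_smul]
      congr 1
      conv_lhs => rw [hgt, Matrix.transpose_smul, Matrix.transpose_transpose]
    have h2 : (1 - uF * uF) • mg g = 0 := by rw [sub_smul, one_smul, ← h1, sub_self]
    rcases smul_eq_zero.1 h2 with h3 | h3
    · linear_combination -h3
    · exact absurd (by rw [h3]; exact Matrix.det_zero) g.1.det_ne_zero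
  have hu1 : uF = 1 ∨ uF = -1 := mul_self_eq_one_iff.1 huu
  have hτu : τ uF = uF := by rcases hu1 with e | e <;> rw [e] <;> simp
  have hCu : C.σ uF = uF := by rw [← hτC, hτu]
  -- descent
  obtain ⟨μ, hμ0, hμ⟩ := CfsgLib.Hermitian.exists_norm C.ne_id C.invol hu0 hCu
  have hμ' : C.σ μ * μ = uF := hμ
  set g' : GL (Fin n) F := GeneralLinearGroup.scalar (Fin n) (Units.mk0 μ hμ0) * g.1 with hg'
  have hg'val : g'.1 = μ • mg g := by
    rw [hg', Units.val_mul]
    ext i j
    simp [GeneralLinearGroup.scalar, Matrix.diagonal_mul]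
  have hordτ : orderOf τ = 2 := orderOf_eq_prime (by rw [pow_two]; exact hτ2) hτ
  obtain ⟨h, hh⟩ := CfsgLib.AutPSL.exists_coboundary τ g' (by
    rw [hordτ]
    refine Units.ext ?_
    change (g' * CfsgLib.AutPSL.fieldGL τ (g' * CfsgLib.AutPSL.fieldGL τ 1)).1 = 1
    rw [map_one, mul_one, Units.val_mul]
    change g'.1 * g'.1.map τ = 1
    rw [hg'val, show (μ • mg g).map τ = τ μ • (mg g).map τ from Matrix.ext fun i j => map_mul τ μ _,
      Matrix.smul_mul, Matrix.mul_smul, smul_smul, hu', smul_smul]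
    have e : μ * τ μ * uF = 1 := by
      rw [hτC, mul_comm μ, hμ', huu]
    rw [e, one_smul])
  have hgh : g'.1 * h.1.map τ = h.1 := by
    have e : g' * CfsgLib.AutPSL.fieldGL τ h = h := by rw [hh, inv_mul_cancel_right]
    exact congrArg Units.val e
  set G := CfsgLib.Unitary.adj C.σ h.1 * h.1 with hG
  have hadjg : CfsgLib.Unitary.adj C.σ g'.1 * g'.1 = uF • (1 : Matrix (Fin n) (Fin n) F) := by
    rw [hg'val, CfsgLib.Unitary.adj_smul, Matrix.smul_mul, Matrix.mul_smul, smul_smul, hμ',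
      (mem_GU_iff' C g.1).1 g.2]
  have hτG : G.map τ = uF • G := by
    have e1 : G = uF • G.map τ := by
      conv_lhs => rw [hG, ← hgh, CfsgLib.Unitary.adj_mul, Matrix.mul_assoc,
        ← Matrix.mul_assoc (CfsgLib.Unitary.adj C.σ g'.1), hadjg, Matrix.smul_mul, Matrix.one_mul, Matrix.mul_smul]
      congr 1
      rw [hG]
      change _ = (τ : F →+* F).mapMatrix (CfsgLib.Unitary.adj C.σ h.1 * h.1)
      rw [map_mul]
      congr 1
      exact Matrix.ext fun i j => by
        change C.σ (τ (h.1 j i)) = τ (C.σ (h.1 j i))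
        rw [hτC, hτC]
    conv_rhs => rw [e1, smul_smul, huu, one_smul]
  have hGh : (G.map τ)ᵀ = G := by
    have e1 : (G.map τ)ᵀ = CfsgLib.Unitary.adj C.σ G := Matrix.ext fun i j => hτC _
    rw [e1, hG, CfsgLib.Unitary.adj_mul, CfsgLib.Unitary.adj_adj C.σ C.invol]
  have hGt : Gᵀ = uF • G := by
    conv_rhs => rw [← hGh, hτG, Matrix.transpose_smul, smul_smul, huu, one_smul]
  obtain ⟨ε, hε0, hε⟩ : ∃ ε : F, ε ≠ 0 ∧ τ ε = uF * ε := by
    rcases hu1 with e | e
    · exact ⟨1, one_ne_zero, by rw [e, map_one, one_mul]⟩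
    · obtain ⟨c, hc0, hc⟩ := exists_trace_zero C
      exact ⟨c, hc0, by rw [e, hτC]; linear_combination hc⟩
  let F₀ := (τ : F →+* F).eqLocusField (RingHom.id F)
  haveI : Fintype F₀ := Fintype.ofFinite _
  let ι : F₀ →+* F := F₀.subtype
  have hι : ∀ c, τ c = c ↔ c ∈ Set.range ι := fun c =>
    ⟨fun h => ⟨⟨c, h⟩, rfl⟩, by rintro ⟨d, rfl⟩; exact d.2⟩
  haveI : CharP F₀ r := (RingHom.charP_iff ι ι.injective r).2 inferInstance
  have h20 : (2 : F₀) ≠ 0 := fun h => hr ((Nat.prime_dvd_prime_iff_eq (Fact.out : r.Prime) Nat.prime_two).1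
    ((CharP.cast_eq_zero_iff F₀ r 2).1 (by exact_mod_cast h)))
  have hfix : ∀ i j, ∃ d, ι d = (ε • G) i j := fun i j => (hι _).1 (by
    rw [Matrix.smul_apply, smul_eq_mul, map_mul, hε, show τ (G i j) = (G.map τ) i j from rfl, hτG,
      Matrix.smul_apply, smul_eq_mul]
    linear_combination (ε * G i j) * huu)
  choose d hd using hfix
  set G₀ : Matrix (Fin n) (Fin n) F₀ := Matrix.of d with hG₀
  have hG₀ι : ι.mapMatrix G₀ = ε • G := Matrix.ext hd
  have hG₀d : G₀.det ≠ 0 := fun h0 => by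
    have h1 : (ε • G).det = 0 := by rw [← hG₀ι, ← RingHom.map_det, h0, map_zero]
    rw [Matrix.det_smul, hG, Matrix.det_mul, CfsgLib.Unitary.adj, Matrix.det_transpose,
      ← RingHom.mapMatrix_apply, ← RingHom.map_det] at h1
    exact mul_ne_zero (pow_ne_zero _ hε0) (mul_ne_zero ((map_ne_zero C.σ).2 h.det_ne_zero) h.det_ne_zero) h1
  have hιt : ∀ M : Matrix (Fin n) (Fin n) F₀, ι.mapMatrix Mᵀ = (ι.mapMatrix M)ᵀ := fun M => rfl
  have hG₀t : G₀ᵀ = G₀ ∨ G₀ᵀ = -G₀ := by
    have hm : ι.mapMatrix G₀ᵀ = uF • ι.mapMatrix G₀ := by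
      rw [hιt, hG₀ι, Matrix.transpose_smul, hGt, smul_comm]
    rcases hu1 with e | e
    · exact Or.inl (Matrix.map_injective ι.injective (hm.trans (by rw [e, one_smul]; rfl)))
    · refine Or.inr (Matrix.map_injective ι.injective (hm.trans ?_))
      rw [e, neg_one_smul]
      exact (map_neg ι.mapMatrix G₀).symm
  -- the fixed subgroup
  let Z : Subgroup SU :=
    { carrier := {x | mg g * (mat x).map τ = mat x * mg g}
      one_mem' := by
        change mg g * (1 : Matrix (Fin n) (Fin n) F).map τ = 1 * mg g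
        rw [Matrix.map_one _ (map_zero τ) (map_one τ), Matrix.mul_one, Matrix.one_mul]
      mul_mem' := fun {x y} hx hy => by
        change mg g * (mat (x * y)).map τ = mat (x * y) * mg g
        rw [SU_coe_mul, show (mat x * mat y).map τ = (mat x).map τ * (mat y).map τ from
          map_mul (τ : F →+* F).mapMatrix _ _, ← Matrix.mul_assoc, hx, Matrix.mul_assoc, hy, Matrix.mul_assoc]
      inv_mem' := fun {x} hx => by
        have hx1 : mat x * mat x⁻¹ = 1 := by rw [← SU_coe_mul, mul_inv_cancel]; rfl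
        have hx2 : mat x⁻¹ * mat x = 1 := by rw [← SU_coe_mul, inv_mul_cancel]; rfl
        have e : mat x⁻¹ * (mg g * (mat x).map τ) * (mat x⁻¹).map τ = mat x⁻¹ * (mat x * mg g) * (mat x⁻¹).map τ :=
          congrArg (fun M => mat x⁻¹ * M * (mat x⁻¹).map τ) hx
        rw [Matrix.mul_assoc (mat x⁻¹) (mg g * _), Matrix.mul_assoc (mg g),
          show (mat x).map τ * (mat x⁻¹).map τ = 1 by
            change (τ : F →+* F).mapMatrix _ * (τ : F →+* F).mapMatrix _ = 1
            rw [← map_mul, hx1, map_one], Matrix.mul_one, ← Matrix.mul_assoc (mat x⁻¹), hx2, Matrix.one_mul] at e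
        exact e.symm }
  have hinv1 : h.1 * (h⁻¹ : GL (Fin n) F).1 = 1 := by rw [← Units.val_mul, mul_inv_cancel, Units.val_one]
  have hinv2 : (h⁻¹ : GL (Fin n) F).1 * h.1 = 1 := by rw [← Units.val_mul, inv_mul_cancel, Units.val_one]
  let f : formSub G₀ → Matrix (Fin n) (Fin n) F := fun y => h.1 * ι.mapMatrix y.1.1 * (h⁻¹ : GL (Fin n) F).1
  have hfG : ∀ y : formSub G₀, (ι.mapMatrix y.1.1)ᵀ * G * ι.mapMatrix y.1.1 = G := fun y => by
    have := congrArg ι.mapMatrix (mem_formSub.1 y.2)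
    rw [map_mul, map_mul, hιt, hG₀ι, Matrix.mul_smul, Matrix.smul_mul] at this
    exact smul_right_injective _ hε0 this
  have hadjy : ∀ y : Matrix (Fin n) (Fin n) F₀, CfsgLib.Unitary.adj C.σ (ι.mapMatrix y) = (ι.mapMatrix y)ᵀ :=
    fun y => Matrix.ext fun i j => by
      change C.σ (ι (y j i)) = ι (y j i)
      rw [← hτC, (hι _).2 ⟨_, rfl⟩]
  have hfU : ∀ y, CfsgLib.Unitary.adj C.σ (f y) * f y = 1 := fun y => by
    simp only [f, CfsgLib.Unitary.adj_mul, hadjy]
    rw [show CfsgLib.Unitary.adj C.σ (h⁻¹ : GL (Fin n) F).1 * ((ι.mapMatrix y.1.1)ᵀ * CfsgLib.Unitary.adj C.σ h.1) *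
        (h.1 * ι.mapMatrix y.1.1 * (h⁻¹ : GL (Fin n) F).1) =
      CfsgLib.Unitary.adj C.σ (h⁻¹ : GL (Fin n) F).1 *
        ((ι.mapMatrix y.1.1)ᵀ * (CfsgLib.Unitary.adj C.σ h.1 * h.1) * ι.mapMatrix y.1.1) * (h⁻¹ : GL (Fin n) F).1 by
        simp only [Matrix.mul_assoc], ← hG, hfG, hG,
      show CfsgLib.Unitary.adj C.σ (h⁻¹ : GL (Fin n) F).1 * (CfsgLib.Unitary.adj C.σ h.1 * h.1) *
          (h⁻¹ : GL (Fin n) F).1 =
        CfsgLib.Unitary.adj C.σ (h.1 * (h⁻¹ : GL (Fin n) F).1) * (h.1 * (h⁻¹ : GL (Fin n) F).1) by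
        simp only [CfsgLib.Unitary.adj_mul, Matrix.mul_assoc], hinv1, CfsgLib.Unitary.adj_one, Matrix.one_mul]
  have hfd : ∀ y, (f y).det = 1 := fun y => by
    change (h.1 * ι.mapMatrix y.1.1 * (h⁻¹ : GL (Fin n) F).1).det = 1
    rw [Matrix.det_mul_right_comm, hinv1, Matrix.one_mul, ← RingHom.map_det, y.1.2, map_one]
  choose ψ hψ using fun y => exists_SU C (hfd y) (hfU y)
  have hψm : ∀ y y', ψ (y * y') = ψ y * ψ y' := fun y y' => mat_injective (by
    rw [SU_coe_mul, hψ, hψ, hψ]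
    simp only [f]
    rw [show (y * y').1.1 = y.1.1 * y'.1.1 from rfl, map_mul,
      show h.1 * ι.mapMatrix y.1.1 * (h⁻¹ : GL (Fin n) F).1 * (h.1 * ι.mapMatrix y'.1.1 * (h⁻¹ : GL (Fin n) F).1) =
        h.1 * (ι.mapMatrix y.1.1 * ((h⁻¹ : GL (Fin n) F).1 * h.1) * ι.mapMatrix y'.1.1) * (h⁻¹ : GL (Fin n) F).1 by
        simp only [Matrix.mul_assoc], hinv2, Matrix.mul_one])
  let φ : formSub G₀ →* MulAut PSU' := MonoidHom.mk' (fun y => conjPSU (toGU n F q (ψ y))) fun y y' => by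
    rw [hψm, map_mul, map_mul]
  have hφapp : ∀ y, φ y = conjPSU (toGU n F q (ψ y)) := fun y => rfl
  have hghi : mg g = μ⁻¹ • g'.1 := by rw [hg'val, smul_smul, inv_mul_cancel₀ hμ0, one_smul]
  have hghτ : g'.1 = h.1 * ((h⁻¹ : GL (Fin n) F).1).map τ := by
    conv_rhs => rw [← hgh]
    rw [Matrix.mul_assoc, show h.1.map τ * ((h⁻¹ : GL (Fin n) F).1).map τ =
      (τ : F →+* F).mapMatrix (h.1 * (h⁻¹ : GL (Fin n) F).1) from (map_mul (τ : F →+* F).mapMatrix _ _).symm,
      hinv1, map_one, Matrix.mul_one]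
  have hψZ : ∀ y, ψ y ∈ Z := fun y => by
    change mg g * (mat (ψ y)).map τ = mat (ψ y) * mg g
    rw [hψ, hghi, Matrix.smul_mul, Matrix.mul_smul]
    congr 1
    simp only [f]
    rw [show (h.1 * ι.mapMatrix y.1.1 * (h⁻¹ : GL (Fin n) F).1).map τ =
      h.1.map τ * (ι.mapMatrix y.1.1).map τ * ((h⁻¹ : GL (Fin n) F).1).map τ from by
        change (τ : F →+* F).mapMatrix _ = _
        rw [map_mul, map_mul]; rfl,
      show (ι.mapMatrix y.1.1).map τ = ι.mapMatrix y.1.1 from Matrix.ext fun i j => (hι _).2 ⟨_, rfl⟩,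
      ← Matrix.mul_assoc, ← Matrix.mul_assoc, hgh, hghτ]
    simp only [Matrix.mul_assoc]
    rw [← Matrix.mul_assoc (h⁻¹ : GL (Fin n) F).1 h.1, hinv2, Matrix.one_mul]
  have hZψ : ∀ z ∈ Z, ∃ y, ψ y = z := by
    intro z hz
    set Y := (h⁻¹ : GL (Fin n) F).1 * mat z * h.1 with hY
    have hYτ : Y.map τ = Y := by
      have h1 : g'.1 * (mat z).map τ = mat z * g'.1 := by
        rw [hg'val, Matrix.smul_mul, Matrix.mul_smul]
        exact congrArg (μ • ·) hz
      have h3 : g'.1 * (h.1.map τ * Y.map τ) = g'.1 * (h.1.map τ * Y) := by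
        have e : h.1.map τ * Y.map τ = (mat z).map τ * h.1.map τ := by
          change (τ : F →+* F).mapMatrix _ * (τ : F →+* F).mapMatrix _ = (τ : F →+* F).mapMatrix _ * (τ : F →+* F).mapMatrix _
          rw [← map_mul, ← map_mul, hY, ← Matrix.mul_assoc, ← Matrix.mul_assoc, hinv1, Matrix.one_mul]
        rw [e, ← Matrix.mul_assoc, h1, Matrix.mul_assoc, hgh, ← Matrix.mul_assoc, hgh, hY, ← Matrix.mul_assoc,
          ← Matrix.mul_assoc, hinv1, Matrix.one_mul]
      rw [← Matrix.mul_assoc, ← Matrix.mul_assoc g'.1 (h.1.map τ) Y, hgh] at h3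
      have := congrArg ((h⁻¹ : GL (Fin n) F).1 * ·) h3
      simpa only [← Matrix.mul_assoc, hinv2, Matrix.one_mul] using this
    have hfix : ∀ i j, ∃ d, ι d = Y i j := fun i j => (hι _).1 (congrFun (congrFun hYτ i) j)
    choose e he using hfix
    have hYι : ι.mapMatrix (Matrix.of e) = Y := Matrix.ext he
    have hYd : (Matrix.of e).det = 1 := ι.injective (by
      rw [RingHom.map_det, hYι, hY, Matrix.det_mul, Matrix.det_mul, z.1.2, mul_one, ← Matrix.det_mul, hinv2,
        Matrix.det_one, map_one])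
    have hYG : Yᵀ * G * Y = G := by
      have e1 : CfsgLib.Unitary.adj C.σ Y = Yᵀ := by rw [← hYι, hadjy]
      have h1 : CfsgLib.Unitary.adj C.σ (mat z) * mat z = 1 :=
        (mem_GU_iff' C (toGU n F q z).1).1 (toGU n F q z).2
      rw [← e1, hG, show CfsgLib.Unitary.adj C.σ Y * (CfsgLib.Unitary.adj C.σ h.1 * h.1) * Y =
        CfsgLib.Unitary.adj C.σ (h.1 * Y) * (h.1 * Y) by simp only [CfsgLib.Unitary.adj_mul, Matrix.mul_assoc],
        show h.1 * Y = mat z * h.1 by rw [hY, ← Matrix.mul_assoc, ← Matrix.mul_assoc, hinv1, Matrix.one_mul],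
        CfsgLib.Unitary.adj_mul, Matrix.mul_assoc,
        ← Matrix.mul_assoc (CfsgLib.Unitary.adj C.σ (mat z)), h1, Matrix.one_mul]
    have hmem : (⟨Matrix.of e, hYd⟩ : Matrix.SpecialLinearGroup (Fin n) F₀) ∈ formSub G₀ := by
      refine mem_formSub.2 (Matrix.map_injective ι.injective ?_)
      change ι.mapMatrix _ = ι.mapMatrix _
      rw [map_mul, map_mul, hιt, hYι, hG₀ι, Matrix.mul_smul, Matrix.smul_mul, hYG]
    refine ⟨⟨_, hmem⟩, mat_injective ?_⟩
    rw [hψ]
    simp only [f]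
    rw [hYι, hY, ← Matrix.mul_assoc, ← Matrix.mul_assoc, hinv1, Matrix.one_mul, Matrix.mul_assoc, hinv1, Matrix.mul_one]
  have hcommX : ∀ z ∈ Z, conjPSU (toGU n F q z) * (conjPSU g * fieldPSU τ) =
      conjPSU g * fieldPSU τ * conjPSU (toGU n F q z) := by
    intro z hz
    rw [mul_assoc, fieldPSU_mul_conjPSU, ← mul_assoc, ← map_mul, ← mul_assoc, ← map_mul]
    congr 2
    exact Subtype.ext (Units.ext (Eq.symm hz))
  have hsemi : ∀ (b : Matrix (Fin n) (Fin n) F) (y : formSub G₀), (∃ c : F, b * ι.mapMatrix y.1.1 = c • (ι.mapMatrix y.1.1 * b)) →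
      Semi ι ι b y.1.1 y.1.1 := fun b y hby => hby
  have hscal : ∀ (y : formSub G₀) (a : F), f y = a • (1 : Matrix (Fin n) (Fin n) F) →
      ι.mapMatrix y.1.1 = a • (1 : Matrix (Fin n) (Fin n) F) := fun y a ha => by
    have e : (h⁻¹ : GL (Fin n) F).1 * f y * h.1 = ι.mapMatrix y.1.1 := by
      change (h⁻¹ : GL (Fin n) F).1 * (h.1 * ι.mapMatrix y.1.1 * (h⁻¹ : GL (Fin n) F).1) * h.1 = _
      rw [← Matrix.mul_assoc, ← Matrix.mul_assoc, hinv2, Matrix.one_mul, Matrix.mul_assoc, hinv2, Matrix.mul_one]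
    rw [← e, ha, Matrix.mul_smul, Matrix.smul_mul, Matrix.mul_one, hinv2]
  -- some element acts non-trivially
  obtain ⟨y₀, hy₀⟩ : ∃ y, φ y ≠ 1 := by
    by_contra hno
    push Not at hno
    let i₀ : Fin n := ⟨0, by omega⟩
    let i₁ : Fin n := ⟨1, by omega⟩
    have h01 : i₀ ≠ i₁ := fun e => by simpa [i₀, i₁] using congrArg Fin.val e
    have hb : (Matrix.transvection i₀ i₁ (1 : F)).det = 1 := Matrix.det_transvection_of_ne _ _ h01 _
    obtain ⟨⟨l, hl⟩, -⟩ := scalar_of_formSub (ρ := ι) (ι := ι) (b := Matrix.transvection i₀ i₁ (1 : F)) hn h20 hG₀d hG₀t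
      (r := r) (by rw [hb]; exact one_ne_zero) fun y => hsemi _ y (by
        obtain ⟨a, ha⟩ := (conjPSU_eq_one_iff C hn).1 (hno y)
        rw [toGU_val, hψ] at ha
        refine ⟨1, ?_⟩
        have : ι.mapMatrix y.1.1 = a • (1 : Matrix (Fin n) (Fin n) F) := by
          exact hscal y a ha
        rw [this, one_smul, Matrix.mul_smul, Matrix.smul_mul, Matrix.mul_one, Matrix.one_mul])
    have e0 := congrFun (congrFun hl i₀) i₁
    simp [Matrix.transvection, h01] at e0
  -- the kernel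
  have hker : Nat.card φ.ker ∣ 2 := by
    let i₀ : Fin n := ⟨0, by omega⟩
    have hs : ∀ y : φ.ker, ∃ c : F₀, (c = 1 ∨ c = -1) ∧ y.1.1.1 = c • (1 : Matrix (Fin n) (Fin n) F₀) := by
      rintro ⟨y, hy⟩
      obtain ⟨a, ha⟩ := (conjPSU_eq_one_iff C hn).1 (MonoidHom.mem_ker.1 hy)
      rw [toGU_val, hψ] at ha
      have hya : ι.mapMatrix y.1.1 = a • (1 : Matrix (Fin n) (Fin n) F) := by
        exact hscal y a ha
      have hc : y.1.1 = y.1.1 i₀ i₀ • (1 : Matrix (Fin n) (Fin n) F₀) := by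
        refine Matrix.ext fun i k => ι.injective ?_
        rw [show ι (y.1.1 i k) = (ι.mapMatrix y.1.1) i k from rfl, hya, Matrix.smul_apply, Matrix.smul_apply, smul_eq_mul,
          smul_eq_mul, map_mul, show ι (y.1.1 i₀ i₀) = (ι.mapMatrix y.1.1) i₀ i₀ from rfl, hya]
        simp only [Matrix.one_apply, Matrix.smul_apply, smul_eq_mul]
        split_ifs <;> simp
      refine ⟨_, ?_, hc⟩
      have h1 := mem_formSub.1 y.2
      rw [hc, Matrix.transpose_smul, Matrix.transpose_one, Matrix.smul_mul, Matrix.one_mul, Matrix.smul_mul,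
        Matrix.mul_smul, Matrix.mul_one, smul_smul] at h1
      have h2' : (y.1.1 i₀ i₀ * y.1.1 i₀ i₀ - 1) • G₀ = 0 := by rw [sub_smul, one_smul, h1, sub_self]
      rcases smul_eq_zero.1 h2' with h3 | h3
      · exact mul_self_eq_one_iff.1 (sub_eq_zero.1 h3)
      · exact absurd (by rw [h3]; exact Matrix.det_zero) hG₀d
    choose c hc hc' using hs
    have hle : Nat.card φ.ker ≤ 2 := by
      have hinj : Function.Injective fun y : φ.ker => decide (c y = 1) := by
        intro y y' e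
        have hcc : c y = c y' := by
          rcases hc y with e1 | e1 <;> rcases hc y' with e2 | e2 <;> first
            | (rw [e1, e2]; done)
            | (exfalso
               have hne : (-1 : F₀) ≠ 1 := fun e3 => h20 (by linear_combination -e3)
               simp [e1, e2, hne] at e)
        exact Subtype.ext (Subtype.ext (Subtype.ext (by rw [hc', hc', hcc])))
      simpa using Nat.card_le_card_of_injective _ hinj
    have := Nat.card_pos (α := φ.ker)
    interval_cases (Nat.card φ.ker) <;> simp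
  have hsmall := CfsgLib.LocalBalance.eq_bot_of_odd_image φ hker
    (CfsgLib.LocalBalance.formSub_no_odd hn h20 hG₀d hG₀t)
  have hinnR : ∀ x ∈ φ.range, ∃ k : PSU', MulAut.conj k = x := by
    rintro _ ⟨y, rfl⟩
    exact ⟨proj (ψ y), (conjPSU_toGU _).symm⟩
  have hcR : ∀ x ∈ φ.range, x * (conjPSU g * fieldPSU τ) = conjPSU g * fieldPSU τ * x := by
    rintro _ ⟨y, rfl⟩
    exact hcommX _ (hψZ y)
  constructor
  · refine CfsgLib.LocalBalance.core_eq_bot 2 A _ (conjPSU (F := F) (n := n) (q := q)).range φ.range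
      (range_conjPSU_normal C hn h32) ?_ ?_ ?_ ?_ ?_
    · rintro _ ⟨y, rfl⟩
      exact ⟨_, rfl⟩
    · intro x hx
      obtain ⟨k, hk⟩ := hinnR x hx
      exact ⟨hk ▸ hinn k, Subgroup.mem_centralizer_singleton_iff.2 (hcR x hx)⟩
    · intro x hx
      obtain ⟨a, σ, rfl⟩ := exists_decomposition C hn h32 x
      set b := (h⁻¹ : GL (Fin n) F).1 * mg a * h.1.map σ with hb
      have hbdet : b.det ≠ 0 := by
        rw [hb, Matrix.det_mul, Matrix.det_mul, show h.1.map σ = (σ : F →+* F).mapMatrix h.1 from rfl, ← RingHom.map_det]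
        exact mul_ne_zero (mul_ne_zero (h⁻¹).det_ne_zero a.1.det_ne_zero) ((map_ne_zero _).2 h.det_ne_zero)
      obtain ⟨⟨l, hl⟩, hρ⟩ := scalar_of_formSub (ρ := (σ : F →+* F).comp ι) (ι := ι) (b := b) hn h20 hG₀d hG₀t
        (r := r) hbdet fun y => by
          obtain ⟨c, hc⟩ := semi_of_commute C hn (a := a) (σ := σ) (X := toGU n F q (ψ y)) (by rw [← hφapp]; exact hx _ ⟨y, rfl⟩)
          rw [toGU_val, hψ] at hc
          refine ⟨c, ?_⟩
          change b * (σ : F →+* F).mapMatrix (ι.mapMatrix y.1.1) = c • (ι.mapMatrix y.1.1 * b)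
          have e : (f y).map σ = (σ : F →+* F).mapMatrix h.1 * (σ : F →+* F).mapMatrix (ι.mapMatrix y.1.1) *
              (σ : F →+* F).mapMatrix (h⁻¹ : GL (Fin n) F).1 := by
            rw [← map_mul, ← map_mul]; rfl
          rw [e] at hc
          have h4 := congrArg (fun M => (h⁻¹ : GL (Fin n) F).1 * M * (σ : F →+* F).mapMatrix h.1) hc
          simp only [f, Matrix.mul_smul, Matrix.smul_mul] at h4
          have eσ : (σ : F →+* F).mapMatrix (h⁻¹ : GL (Fin n) F).1 * (σ : F →+* F).mapMatrix h.1 = 1 := by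
            rw [← map_mul, hinv2, map_one]
          simp only [Matrix.mul_assoc] at h4
          rw [eσ, Matrix.mul_one, ← Matrix.mul_assoc (h⁻¹ : GL (Fin n) F).1 h.1, hinv2, Matrix.one_mul] at h4
          rw [hb]
          simp only [Matrix.mul_assoc]
          exact h4
      have hσ2 : σ * σ = 1 := by
        obtain ⟨k, rfl⟩ := Subgroup.mem_zpowers_iff.1
          (CfsgLib.AutPSp.mem_zpowers_of_fix hι fun c => RingHom.congr_fun hρ c)
        rw [← (Commute.refl τ).mul_zpow k, hτ2, _root_.one_zpow]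
      have hha : mg a * h.1.map σ = l • h.1 := by
        have := congrArg (h.1 * ·) hl
        simp only [hb] at this
        rwa [← Matrix.mul_assoc, ← Matrix.mul_assoc, hinv1, Matrix.one_mul, Matrix.mul_smul, Matrix.mul_one] at this
      have haa : mg (a * fieldGU σ a) = (σ l * l) • (1 : Matrix (Fin n) (Fin n) F) := by
        have e1 : (mg a).map σ * h.1 = σ l • h.1.map σ := by
          have := congrArg (fun M : Matrix (Fin n) (Fin n) F => (σ : F →+* F).mapMatrix M) hha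
          simp only [map_mul] at this
          rw [show (σ : F →+* F).mapMatrix (h.1.map σ) = h.1 from
            Matrix.ext fun i j => RingEquiv.congr_fun hσ2 (h.1 i j)] at this
          rw [show (σ : F →+* F).mapMatrix (mg a) = (mg a).map σ from rfl] at this
          rw [this]
          ext i j
          simp [map_mul]
        have e2 : mg a * (mg a).map σ * h.1 = (σ l * l) • h.1 := by
          rw [Matrix.mul_assoc, e1, Matrix.mul_smul, hha, smul_smul]
        rw [GU_coe_mul, fieldGU_val]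
        have := congrArg (· * (h⁻¹ : GL (Fin n) F).1) e2
        simpa only [Matrix.mul_assoc, hinv1, Matrix.mul_one, Matrix.smul_mul] using this
      have h1 : conjPSU (a * fieldGU σ a) = (1 : MulAut PSU') := conjPSU_eq_one_of_scalar haa
      rw [pow_two, mul_assoc, ← mul_assoc (fieldPSU σ), fieldPSU_mul_conjPSU, ← mul_assoc, ← mul_assoc, ← map_mul,
        h1, one_mul, ← map_mul, hσ2, map_one]
    · rintro _ ⟨a, rfl⟩ ha _ ⟨y, rfl⟩
      rw [mul_assoc, fieldPSU_mul_conjPSU, ← mul_assoc, ← map_mul, ← mul_assoc, ← map_mul, mul_left_inj,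
        conjPSU_eq_iff C hn] at ha
      obtain ⟨w, hw⟩ := ha
      have hw' := congrArg (fun x : GU => mg x) hw
      simp only [GU_coe_mul, fieldGU_val, scalarGU_val, Matrix.smul_mul, Matrix.one_mul] at hw'
      -- `hw'` : a g = w • g a^τ
      set z := conjSU a (ψ y) with hz
      have hzZ : z ∈ Z := by
        change mg g * (mat z).map τ = mat z * mg g
        rw [hz, conjSU_val]
        have hgy : mg g * (mat (ψ y)).map τ = mat (ψ y) * mg g := hψZ y
        have hw0 : (w.1 : F) ≠ 0 := w.1.ne_zero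
        have e1 : mg g * (mg a).map τ = (w.1 : F)⁻¹ • (mg a * mg g) := by
          rw [hw', smul_smul, inv_mul_cancel₀ hw0, one_smul]
        have ea : mg a * mg a⁻¹ = 1 := by rw [← GU_coe_mul, mul_inv_cancel]; rfl
        have ea' : mg a⁻¹ * mg a = 1 := by rw [← GU_coe_mul, inv_mul_cancel]; rfl
        have e2 : mg g * (mg a⁻¹).map τ = (w.1 : F) • (mg a⁻¹ * mg g) := by
          have h3 := congrArg (fun M => mg a⁻¹ * M * (mg a⁻¹).map τ) hw'
          simp only [Matrix.mul_smul, Matrix.smul_mul] at h3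
          rw [← Matrix.mul_assoc (mg a⁻¹) (mg a), ea', Matrix.one_mul, Matrix.mul_assoc (mg a⁻¹), Matrix.mul_assoc (mg g),
            show (mg a).map τ * (mg a⁻¹).map τ = 1 by
              change (τ : F →+* F).mapMatrix _ * (τ : F →+* F).mapMatrix _ = 1
              rw [← map_mul, ea, map_one], Matrix.mul_one] at h3
          exact h3
        rw [show (mg a * mat (ψ y) * mg a⁻¹).map τ = (mg a).map τ * (mat (ψ y)).map τ * (mg a⁻¹).map τ from by
          change (τ : F →+* F).mapMatrix _ = _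
          rw [map_mul, map_mul]; rfl, ← Matrix.mul_assoc, ← Matrix.mul_assoc, e1, Matrix.smul_mul, Matrix.smul_mul,
          Matrix.mul_assoc (mg a) (mg g), hgy, Matrix.mul_assoc (mg a), Matrix.mul_assoc (mat (ψ y)), e2,
          Matrix.mul_smul, Matrix.mul_smul, smul_smul, inv_mul_cancel₀ hw0, one_smul]
        simp only [Matrix.mul_assoc]
      obtain ⟨y', hy'⟩ := hZψ z hzZ
      refine ⟨y', ?_⟩
      rw [hφapp, hφapp, hy', hz, ← map_inv, ← map_mul, ← map_mul]
      exact congrArg conjPSU (Subtype.ext (Units.ext rfl))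
    · intro M hM hMR hMp
      exact hsmall M hM hMR (Nat.not_even_iff_odd.1 fun he => hMp (even_iff_two_dvd.1 he))
  · have hd := CfsgLib.LocalBalance.card_dvd_fix (conj_injective C hn) _ φ.range hinnR hcR
    refine dvd_trans ?_ hd
    by_contra hodd
    have := hsmall φ.range le_rfl (fun r hr y hy => mul_mem (mul_mem hr hy) (inv_mem hr))
      (Nat.not_even_iff_odd.1 fun he => hodd (even_iff_two_dvd.1 he))
    exact hy₀ (by
      have h1 : φ y₀ ∈ φ.range := ⟨y₀, rfl⟩
      rwa [this, Subgroup.mem_bot] at h1)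

/-- Local balance for a non-inner-diagonal automorphism of prime order. -/
theorem balance (hF : Fintype.card F = q ^ 2) {r : ℕ} [Fact r.Prime] [CharP F r] (hn : 3 ≤ n)
    (hK : IsSimpleGroup PSU') (A : Subgroup (MulAut PSU')) (hinn : ∀ k : PSU', MulAut.conj k ∈ A)
    (p : ℕ) [Fact p.Prime] (hpr : p ≠ r) (β : MulAut PSU') (hord : orderOf β = p)
    (hnot : ¬ Cfsg.IsInnerDiagonalAutPSU β) :
    Cfsg.pPrimeCore p ↥(A ⊓ Subgroup.centralizer {β}) ≠ ⊥ ↔
      ((∃ γ φ : MulAut PSU', Cfsg.IsInnerDiagonalAutPSU γ ∧ (∃ σ : F ≃+* F, Cfsg.IsFieldAutPSUOf σ φ) ∧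
          β = φ.trans γ) ∧
        Nat.Coprime p (Nat.card ↥(MonoidHom.eqLocus β.toMonoidHom (MonoidHom.id PSU')))) := by
  classical
  obtain ⟨C⟩ := nonempty_conj hF
  have h32 := not_three_two C hK
  obtain ⟨g, τ, rfl⟩ := exists_decomposition C hn h32 β
  rw [and_iff_right (show ∃ γ φ : MulAut PSU', Cfsg.IsInnerDiagonalAutPSU γ ∧
      (∃ σ : F ≃+* F, Cfsg.IsFieldAutPSUOf σ φ) ∧ conjPSU g * fieldPSU τ = φ.trans γ from
    ⟨conjPSU g, fieldPSU τ, isInnerDiagonalAutPSU g, ⟨τ, isFieldAutPSUOf τ⟩, rfl⟩)]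
  have hpow : (conjPSU g * fieldPSU τ) ^ p = 1 := by rw [← hord]; exact pow_orderOf_eq_one _
  have hτ1 : τ ≠ 1 := fun h => hnot (by rw [h, map_one, mul_one]; exact isInnerDiagonalAutPSU g)
  rcases eq_or_ne p 2 with rfl | hp2
  · obtain ⟨h1, h2⟩ := core_invol C hn h32 (r := r) hpr.symm g τ hτ1 hpow A hinn
    refine iff_of_false (fun h => h h1) fun h => ?_
    exact Nat.prime_two.coprime_iff_not_dvd.1 h h2
  · have hτp : τ ^ p = 1 := by
      rw [pow_conj_mul_field] at hpow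
      exact (decomposition_unique C hn (g' := 1) (τ' := 1) (hpow.trans (by rw [map_one, map_one, one_mul]))).1
    have hτo : orderOf τ = p := orderOf_eq_prime hτp hτ1
    obtain ⟨j, hrp, hj⟩ := FiniteField.card F r
    obtain ⟨f, -, hqf⟩ := (Nat.dvd_prime_pow hrp).1
      (show q ∣ r ^ (j : ℕ) by rw [← hj, hF]; exact dvd_pow_self q two_ne_zero)
    have hodd : Odd (orderOf τ) := hτo ▸ (Fact.out : p.Prime).odd_of_ne_two hp2
    obtain ⟨hdvd, -⟩ := CfsgLib.AutPSL.fixed_field_facts.{_, 0} hrp (f := 2 * f) (by rw [hF, hqf, ← pow_mul, mul_comm]) τ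
    have hf : 0 < f := by
      have := C.two_le
      rcases Nat.eq_zero_or_pos f with h0 | h0
      · rw [hqf, h0, pow_zero] at this; omega
      · exact h0
    have hfp : 0 < f / p := Nat.div_pos (Nat.le_of_dvd hf (by
      rw [hτo] at hdvd
      exact ((Fact.out : p.Prime).dvd_mul.1 hdvd).resolve_left fun h =>
        hp2 ((Nat.prime_dvd_prime_iff_eq Fact.out Nat.prime_two).1 h))) (Fact.out : p.Prime).pos
    haveI : Fintype (GaloisField r (2 * (f / p))) := Fintype.ofFinite _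
    obtain ⟨-, C₀, ι, S⟩ := exists_sub (p := r) (f := f) C hqf τ hodd (F₀ := GaloisField r (2 * (f / p))) (by
      rw [hτo, ← Nat.card_eq_fintype_card, GaloisField.card]; omega)
    obtain ⟨k, hk⟩ := exists_conj_field S hn g (by rw [hτo]; exact hpow)
    have hA : ∀ x : PSU', MulAut.conj x ∈ A.map (MulAut.conj (conjPSU k)⁻¹).toMonoidHom := fun x =>
      ⟨MulAut.conj (conjPSU k x), hinn _, by
        change (conjPSU k)⁻¹ * MulAut.conj (conjPSU k x) * ((conjPSU k)⁻¹)⁻¹ = _
        exact MulEquiv.ext fun y => by simp⟩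
    have hx : (conjPSU k)⁻¹ * (conjPSU g * fieldPSU τ) * ((conjPSU k)⁻¹)⁻¹ = (fieldPSU τ : MulAut PSU') := by
      rw [hk]; group
    rw [← CfsgLib.LocalBalance.core_conj_iff p A (conjPSU k)⁻¹ (conjPSU g * fieldPSU τ),
      ← CfsgLib.LocalBalance.card_eqLocus_conj (conjPSU k)⁻¹ (conjPSU g * fieldPSU τ), hx]
    exact core_field_iff S hn h32 hpr hp2 hτp _ hA

end CfsgLib.AutPSU
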