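import Cfsg.Agent.AutPSU.Scalars
set_option autoImplicit false

/-!
Every automorphism of `PSU_n(q)` is a product of a unitary conjugation and a field automorphism.
-/

namespace CfsgLib.AutPSU

open Matrix
open CfsgLib.UGeom
open scoped Pointwise

variable {F : Type*} [Field F] [Fintype F] {q n : ℕ} {C : Conj F q}

local notation "H" => Cfsg.hermForm n F q
local notation "Vn" => (Fin n → F)
local notation "SU" => Cfsg.SU n F q
local notation "GU" => Cfsg.GU n F q
local notation "PSU'" => Cfsg.PSU n F q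
local notation "mg" A:max => (((A : GU) : GL (Fin n) F) : Matrix (Fin n) (Fin n) F)
local notation "mat" A:max => (((A : SU) : Matrix.SpecialLinearGroup (Fin n) F) : Matrix (Fin n) (Fin n) F)

theorem ringAut_conj (C : Conj F q) (τ : RingAut F) (x : F) : τ (C.σ x) = C.σ (τ x) := by
  rw [C.pow, C.pow, map_pow]

theorem eq_zero_of_fixed (C : Conj F q) {Y : F} (h : ∀ t : F, C.σ (t * Y) = t * Y) : Y = 0 := by
  have h1 := h 1
  rw [one_mul] at h1
  obtain ⟨t, ht⟩ : ∃ t : F, C.σ t ≠ t := by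
    by_contra hno
    push Not at hno
    exact C.ne_id (RingHom.ext hno)
  have h2 := h t
  rw [map_mul, h1] at h2
  by_contra hY
  exact ht (mul_right_cancel₀ hY h2)

theorem map_conj_tbar (C : Conj F q) (β : MulAut PSU') {A B : SU} (hB : β (proj A) = proj B) (v : Vn)
    (hv : Fixes C β v) : (tbar C (mat A *ᵥ v)).map β.toMonoidHom = tbar C (mat B *ᵥ v) := by
  rw [tbar_conj, map_conj_smul, hv, hB, tbar_conj]

/-- Every automorphism can be corrected by an inner one to fix both transvection groups of a frame. -/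
theorem exists_inner_normal (hn : 3 ≤ n) (X : Frame C n) (α : MulAut PSU') :
    ∃ A : SU, Fixes C (MulAut.conj (proj A) * α) X.e ∧ Fixes C (MulAut.conj (proj A) * α) X.f := by
  obtain ⟨w₁, hw₁0, hw₁, h₁⟩ := exists_image C hn α X.e_ne X.ee
  obtain ⟨w₂, hw₂0, hw₂, h₂⟩ := exists_image C hn α X.f_ne X.ff
  have hne : H w₂ w₁ ≠ 0 := by
    rw [Ne, ← comm_iff C hn hw₂0 hw₂ hw₁, ← comm_map h₂ h₁, comm_iff C hn X.f_ne X.ff X.ee, X.fe]
    exact one_ne_zero
  obtain ⟨A₁, a, ha, hA₁⟩ := exists_move C hw₁0 hw₁ X.e_ne X.ee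
  have hy : H (mat A₁ *ᵥ w₂) (mat A₁ *ᵥ w₂) = 0 := by rw [SU_form A₁, hw₂]
  have hye : H (mat A₁ *ᵥ w₂) X.e ≠ 0 := by
    intro h
    have h1 := SU_form A₁ w₂ w₁
    rw [hA₁, form_smul_right C, h, mul_zero] at h1
    exact hne h1.symm
  obtain ⟨A₂, b, hA₂e, hb, hA₂⟩ := exists_move_fix C X.ee hy X.ff hye (by rw [X.fe]; exact one_ne_zero)
  have key : ∀ (v w : Vn) (d : F), d ≠ 0 → (tbar C v).map α.toMonoidHom = tbar C w →
      mat (A₂ * A₁) *ᵥ w = d • v → Fixes C (MulAut.conj (proj (A₂ * A₁)) * α) v := by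
    intro v w d hd hvw hAw
    unfold Fixes
    rw [show (MulAut.conj (proj (A₂ * A₁)) * α).toMonoidHom =
      (MulAut.conj (proj (A₂ * A₁))).toMonoidHom.comp α.toMonoidHom from rfl, ← Subgroup.map_map, hvw]
    change MulAut.conj (proj (A₂ * A₁)) • tbar C w = _
    rw [← tbar_conj, hAw, tbar_smul C hd]
  refine ⟨A₂ * A₁, key _ _ a ha h₁ ?_, key _ _ b hb h₂ ?_⟩
  · rw [mul_mulVec', hA₁, Matrix.mulVec_smul, hA₂e]
  · rw [mul_mulVec', hA₂]

namespace Frame

theorem Qsub_proj_inj (hn : 3 ≤ n) (X : Frame C n) {A B : SU} (hA : A ∈ Qsub q X.e)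
    (hB : B ∈ Qsub q X.e) (h : proj A = proj B) : A = B := by
  obtain ⟨c, -, hc⟩ := exists_smul_of_proj_eq C.card hn h
  have h1 := hc X.e
  rw [hA.1, hB.1] at h1
  have hc1 : c = 1 := smul_left_injective F X.e_ne (by simpa using h1.symm)
  exact (SU_ext fun v => by rw [hc, hc1, one_smul]).symm

theorem projE_inj (hn : 3 ≤ n) (X : Frame C n) {z z' : Vn} {hz : z ∈ X.W} {hz' : z' ∈ X.W} {a a' : F}
    {ha : a + C.σ a + H z z = 0} {ha' : a' + C.σ a' + H z' z' = 0}
    (h : proj (X.E z hz a ha) = proj (X.E z' hz' a' ha')) : z = z' ∧ a = a' :=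
  X.E_inj (X.Qsub_proj_inj hn (X.E_mem_Qsub hz ha) (X.E_mem_Qsub hz' ha') h)

theorem exists_E_of_qbar (X : Frame C n) {x : PSU'} (hx : x ∈ X.qbar) :
    ∃ (z : Vn) (hz : z ∈ X.W) (a : F) (ha : a + C.σ a + H z z = 0), x = proj (X.E z hz a ha) := by
  obtain ⟨A, hA, rfl⟩ := hx
  obtain ⟨z, hz, a, ha, rfl⟩ := X.exists_E_of_mem hA
  exact ⟨z, hz, a, ha, rfl⟩

theorem mem_tbar_e (X : Frame C n) {x : PSU'} :
    x ∈ tbar C X.e ↔ ∃ (c : F) (hc : c + C.σ c = 0),
      x = proj (X.E 0 X.W.zero_mem c (utv_coord hc)) := by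
  constructor
  · rintro ⟨A, hA, rfl⟩
    obtain ⟨c, hc, rfl⟩ := (mem_tsub C X.ee).1 hA
    exact ⟨c, hc, by rw [X.E_zero hc]⟩
  · rintro ⟨c, hc, rfl⟩
    rw [X.E_zero hc]
    exact utv_mem_tbar C X.ee hc

/-- Two elements with the same complement parameter differ by a transvection. -/
theorem E_shift (X : Frame C n) {z : Vn} (hz : z ∈ X.W) {a a' : F} (ha : a + C.σ a + H z z = 0)
    (ha' : a' + C.σ a' + H z z = 0) :
    ∃ (hc : (a' - a) + C.σ (a' - a) = 0),
      X.E z hz a' ha' = X.E 0 X.W.zero_mem (a' - a) (utv_coord hc) * X.E z hz a ha := by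
  have hc : (a' - a) + C.σ (a' - a) = 0 := by rw [map_sub]; linear_combination ha' - ha
  refine ⟨hc, ?_⟩
  rw [X.E_mul]
  exact X.E_congr (zero_add z).symm (by rw [form_zero_right C]; ring)

/-- Eichler elements commute up to a transvection. -/
theorem E_swap (X : Frame C n) {z z' : Vn} (hz : z ∈ X.W) (hz' : z' ∈ X.W) {a a' : F}
    (ha : a + C.σ a + H z z = 0) (ha' : a' + C.σ a' + H z' z' = 0) :
    ∃ (hc : (H z z' - H z' z) + C.σ (H z z' - H z' z) = 0),
      X.E z hz a ha * X.E z' hz' a' ha' =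
        X.E 0 X.W.zero_mem (H z z' - H z' z) (utv_coord hc) * (X.E z' hz' a' ha' * X.E z hz a ha) := by
  have hc : (H z z' - H z' z) + C.σ (H z z' - H z' z) = 0 := by
    rw [map_sub, form_conj C, form_conj C]; ring
  refine ⟨hc, ?_⟩
  rw [X.E_mul, X.E_mul, X.E_mul]
  exact X.E_congr (by rw [zero_add, add_comm]) (by rw [form_zero_right C]; ring)

/-- `φ` describes the action of `β` on the radical modulo its centre. -/
def IsPhi (X : Frame C n) (β : MulAut PSU') (φ : X.W → X.W) : Prop :=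
  ∀ (z : X.W) (a : F) (ha : a + C.σ a + H (z : Vn) z = 0),
    ∃ (a' : F) (ha' : a' + C.σ a' + H (φ z : Vn) (φ z) = 0),
      β (proj (X.E z z.2 a ha)) = proj (X.E (φ z) (φ z).2 a' ha')

theorem exists_psi (X : Frame C n) {β : MulAut PSU'} (he : Fixes C β X.e) {c : F}
    (hc : c + C.σ c = 0) : ∃ (c' : F) (hc' : c' + C.σ c' = 0),
      β (proj (X.E 0 X.W.zero_mem c (utv_coord hc))) = proj (X.E 0 X.W.zero_mem c' (utv_coord hc')) := by
  have h : β (proj (X.E 0 X.W.zero_mem c (utv_coord hc))) ∈ tbar C X.e := by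
    rw [← he]
    exact ⟨_, X.mem_tbar_e.2 ⟨c, hc, rfl⟩, rfl⟩
  exact X.mem_tbar_e.1 h

theorem exists_phi (hn : 3 ≤ n) (h32 : ¬ (n = 3 ∧ q = 2)) (X : Frame C n) {β : MulAut PSU'}
    (he : Fixes C β X.e) : ∃ φ : X.W → X.W, X.IsPhi β φ := by
  have key : ∀ z : X.W, ∃ w : X.W, ∀ (a : F) (ha : a + C.σ a + H (z : Vn) z = 0),
      ∃ (a' : F) (ha' : a' + C.σ a' + H (w : Vn) w = 0),
        β (proj (X.E z z.2 a ha)) = proj (X.E w w.2 a' ha') := by
    intro z
    obtain ⟨a₀, ha₀⟩ := exists_eich_coord C (z : Vn)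
    obtain ⟨w, hw, b, hb, e⟩ := X.exists_E_of_qbar (X.map_qbar hn h32 he _ (X.E_mem_qbar z.2 ha₀))
    refine ⟨⟨w, hw⟩, fun a ha => ?_⟩
    obtain ⟨hc, e'⟩ := X.E_shift z.2 ha₀ ha
    obtain ⟨c', hc', e''⟩ := X.exists_psi he hc
    refine ⟨c' + b, by rw [map_add]; linear_combination hc' + hb, ?_⟩
    rw [e', map_mul, map_mul, e'', e, ← map_mul, X.E_mul]
    exact congrArg proj (X.E_congr (zero_add w) (by rw [form_zero_right C, sub_zero]))
  choose φ hφ using key
  exact ⟨φ, hφ⟩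

theorem IsPhi.map_add (hn : 3 ≤ n) {X : Frame C n} {β : MulAut PSU'} {φ : X.W → X.W}
    (h : X.IsPhi β φ) (z z' : X.W) : φ (z + z') = φ z + φ z' := by
  obtain ⟨a, ha⟩ := exists_eich_coord C (z : Vn)
  obtain ⟨a', ha'⟩ := exists_eich_coord C (z' : Vn)
  obtain ⟨b, hb, e⟩ := h z a ha
  obtain ⟨b', hb', e'⟩ := h z' a' ha'
  obtain ⟨b'', hb'', e''⟩ := h (z + z') _ (coord_add C ha ha')
  have h1 : β (proj (X.E z z.2 a ha * X.E z' z'.2 a' ha')) = proj (X.E (φ (z + z')) (φ (z + z')).2 b'' hb'') := by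
    rw [X.E_mul]; exact e''
  rw [_root_.map_mul, _root_.map_mul, e, e', ← _root_.map_mul, X.E_mul] at h1
  exact Subtype.ext (X.projE_inj hn h1).1.symm

theorem IsPhi.eq_zero (hn : 3 ≤ n) {X : Frame C n} {β : MulAut PSU'} (he : Fixes C β X.e)
    {φ : X.W → X.W} (h : X.IsPhi β φ) {z : X.W} (hz : φ z = 0) : z = 0 := by
  obtain ⟨a, ha⟩ := exists_eich_coord C (z : Vn)
  obtain ⟨b, hb, e⟩ := h z a ha
  have hb0 : b + C.σ b = 0 := by
    have := hb; rw [hz, Submodule.coe_zero, form_zero_left, add_zero] at this; exact this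
  have h1 : β (proj (X.E z z.2 a ha)) ∈ tbar C X.e :=
    X.mem_tbar_e.2 ⟨b, hb0, e.trans (congrArg proj (X.E_congr (congrArg Subtype.val hz) rfl))⟩
  rw [← he] at h1
  obtain ⟨y, hy, hy'⟩ := h1
  rw [show y = proj (X.E z z.2 a ha) from β.injective hy', SetLike.mem_coe, X.mem_tbar_e] at hy
  obtain ⟨c, hc, e'⟩ := hy
  exact Subtype.ext (X.projE_inj hn e').1

theorem exists_tor_image (hn : 3 ≤ n) (X : Frame C n) {β : MulAut PSU'} (he : Fixes C β X.e)
    (hf : Fixes C β X.f) {A : SU} {l : F} (hA : X.IsTor A l) :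
    ∃ (B : SU) (m : F), X.IsTor B m ∧ β (proj A) = proj B := by
  obtain ⟨hl, hAe, hAf⟩ := hA
  obtain ⟨B, hB⟩ := proj_surjective (β (proj A))
  have h1 := map_conj_tbar C β hB.symm X.e he
  rw [hAe, tbar_smul C hl, he] at h1
  have h2 := map_conj_tbar C β hB.symm X.f hf
  rw [hAf, tbar_smul C (inv_ne_zero ((map_ne_zero C.σ).2 hl)), hf] at h2
  obtain ⟨m, hm, hBe⟩ := tbar_eq_imp C hn (SU_mulVec_ne_zero B X.e_ne) (by rw [SU_form B, X.ee]) X.ee h1.symm
  obtain ⟨μ, hμ, hBf⟩ := tbar_eq_imp C hn (SU_mulVec_ne_zero B X.f_ne) (by rw [SU_form B, X.ff]) X.ff h2.symm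
  refine ⟨B, m, ⟨hm, hBe, ?_⟩, hB.symm⟩
  have h3 := SU_form B X.f X.e
  rw [hBe, hBf, form_smul_left, form_smul_right C, X.fe, mul_one] at h3
  rw [hBf, show μ = (C.σ m)⁻¹ from eq_inv_of_mul_eq_one_left h3]

theorem IsPhi.equivariant (hn : 3 ≤ n) {X : Frame C n} {β : MulAut PSU'} {φ : X.W → X.W}
    (h : X.IsPhi β φ) {A B : SU} {l m : F} (hA : X.IsTor A l) (hB : X.IsTor B m)
    (hAB : β (proj A) = proj B) (z : X.W) : φ (X.rho A l z) = X.rho B m (φ z) := by
  obtain ⟨a, ha⟩ := exists_eich_coord C (z : Vn)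
  obtain ⟨b, hb, e⟩ := h z a ha
  have ha2 : C.σ l * l * a + C.σ (C.σ l * l * a) + H (X.rho A l z : Vn) (X.rho A l z) = 0 := by
    rw [rho_val hA]; exact hA.coord ha
  obtain ⟨b', hb', e'⟩ := h (X.rho A l z) _ ha2
  have h1 : β (proj (A * X.E z z.2 a ha * A⁻¹)) = proj (X.E _ (φ (X.rho A l z)).2 b' hb') := by
    rw [hA.conj_E z.2 ha, ← e']
    exact congrArg (fun E => β (proj E)) (X.E_congr (rho_val hA z).symm rfl)
  rw [_root_.map_mul, _root_.map_mul, _root_.map_inv, _root_.map_mul, _root_.map_mul, _root_.map_inv,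
    hAB, e, ← _root_.map_inv, ← _root_.map_mul, ← _root_.map_mul, hB.conj_E (φ z).2 hb] at h1
  refine Subtype.ext ?_
  rw [rho_val hB]
  exact (X.projE_inj hn h1).1.symm

theorem IsPhi.semilinear (hn : 3 ≤ n) (h32 : ¬ (n = 3 ∧ q = 2)) {X : Frame C n} {β : MulAut PSU'}
    (he : Fixes C β X.e) (hf : Fixes C β X.f) {φ : X.W → X.W} (h : X.IsPhi β φ) :
    ∃ τ : RingAut F, Function.Bijective φ ∧ ∀ (c : F) (z : X.W), φ (c • z) = τ c • φ z := by
  classical
  let φh : X.W →+ X.W := AddMonoidHom.mk' φ (h.map_add hn)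
  have hinj : Function.Injective φh :=
    (injective_iff_map_eq_zero φh).2 fun z hz => h.eq_zero hn he hz
  have hbij : Function.Bijective φ := ⟨hinj, Finite.injective_iff_surjective.1 hinj⟩
  let R : Subring (Module.End F X.W) :=
    { carrier := {r | ∃ r' : Module.End F X.W, ∀ z, φ (r z) = r' (φ z)}
      mul_mem' := by
        rintro r s ⟨r', hr⟩ ⟨s', hs⟩
        exact ⟨r' * s', fun z => by rw [Module.End.mul_apply, Module.End.mul_apply, hr, hs]⟩
      one_mem' := ⟨1, fun z => rfl⟩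
      add_mem' := by
        rintro r s ⟨r', hr⟩ ⟨s', hs⟩
        exact ⟨r' + s', fun z => by rw [LinearMap.add_apply, LinearMap.add_apply, h.map_add hn, hr, hs]⟩
      zero_mem' := ⟨0, fun z => map_zero φh⟩
      neg_mem' := by
        rintro r ⟨r', hr⟩
        exact ⟨-r', fun z => by
          rw [LinearMap.neg_apply, LinearMap.neg_apply, ← hr]
          exact map_neg φh _⟩ }
  have hR : ∀ A l, X.IsTor A l → X.rho A l ∈ R := by
    intro A l hA
    obtain ⟨B, m, hB, hAB⟩ := X.exists_tor_image hn he hf hA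
    exact ⟨X.rho B m, h.equivariant hn hA hB hAB⟩
  have hex : ∀ c : F, ∃ k : F, ∀ z, φ (c • z) = k • φ z := by
    intro c
    obtain ⟨r', hr'⟩ := X.scalar_mem hn h32 R hR c
    obtain ⟨k, hk⟩ := X.scalar_of_commute_rho hn h32 r' fun B m hB => by
      obtain ⟨A, l, hA, hBA⟩ := X.exists_tor_image hn he.inv hf.inv hB
      have hAB : β (proj A) = proj B := by rw [← hBA]; exact β.apply_symm_apply _
      refine LinearMap.ext fun w => ?_
      obtain ⟨z, rfl⟩ := hbij.2 w
      rw [Module.End.mul_apply, Module.End.mul_apply, ← h.equivariant hn hA hB hAB, ← hr', ← hr',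
        ← h.equivariant hn hA hB hAB]
      congr 1
      simp
    refine ⟨k, fun z => ?_⟩
    have h1 := hr' z
    rw [hk] at h1
    exact h1
  choose t ht using hex
  obtain ⟨u, hu, hu0⟩ := exists_W_ne C hn X
  have hw : φ ⟨u, hu⟩ ≠ 0 := fun e => hu0 (congrArg Subtype.val (h.eq_zero hn he e))
  have huniq : ∀ {a b : F}, a • φ ⟨u, hu⟩ = b • φ ⟨u, hu⟩ → a = b := fun e =>
    smul_left_injective F hw e
  let τh : F →+* F :=
    { toFun := t
      map_one' := huniq (by rw [← ht, one_smul, one_smul])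
      map_mul' := fun a b => huniq (by rw [← ht, ← smul_smul, ht, ht, smul_smul])
      map_zero' := huniq (by rw [← ht, zero_smul, zero_smul]; exact map_zero φh)
      map_add' := fun a b => huniq (by rw [← ht, add_smul, add_smul, h.map_add hn, ht, ht]) }
  exact ⟨RingEquiv.ofBijective τh ⟨τh.injective, Finite.injective_iff_surjective.1 τh.injective⟩,
    hbij, fun c z => ht c z⟩

theorem exists_form_one (hn : 3 ≤ n) (X : Frame C n) : ∃ u v : X.W, H (u : Vn) v = 1 := by
  obtain ⟨u, hu, huu⟩ := exists_anisotropic C hn X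
  refine ⟨⟨u, hu⟩, (C.σ (H u u))⁻¹ • ⟨u, hu⟩, ?_⟩
  rw [Submodule.coe_smul, form_smul_right C, map_inv₀, C.invol, inv_mul_cancel₀ huu]

theorem IsPhi.commutator (hn : 3 ≤ n) {X : Frame C n} {β : MulAut PSU'} {φ : X.W → X.W}
    (h : X.IsPhi β φ) (z z' : X.W) :
    ∃ (hc : (H (z : Vn) z' - H (z' : Vn) z) + C.σ (H (z : Vn) z' - H (z' : Vn) z) = 0)
      (hc' : (H (φ z : Vn) (φ z') - H (φ z' : Vn) (φ z)) +
        C.σ (H (φ z : Vn) (φ z') - H (φ z' : Vn) (φ z)) = 0),
      β (proj (X.E 0 X.W.zero_mem _ (utv_coord hc))) = proj (X.E 0 X.W.zero_mem _ (utv_coord hc')) := by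
  obtain ⟨a, ha⟩ := exists_eich_coord C (z : Vn)
  obtain ⟨a', ha'⟩ := exists_eich_coord C (z' : Vn)
  obtain ⟨b, hb, e⟩ := h z a ha
  obtain ⟨b', hb', e'⟩ := h z' a' ha'
  obtain ⟨hc, eq1⟩ := X.E_swap z.2 z'.2 ha ha'
  obtain ⟨hc', eq2⟩ := X.E_swap (φ z).2 (φ z').2 hb hb'
  refine ⟨hc, hc', ?_⟩
  have h1 := congrArg (fun E => β (proj E)) eq1
  have h2 := congrArg (fun E => proj E) eq2
  simp only [_root_.map_mul, e, e'] at h1 h2
  exact mul_right_cancel (h1.symm.trans h2)

theorem IsPhi.similitude (hn : 3 ≤ n) {X : Frame C n} {β : MulAut PSU'} {φ : X.W → X.W}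
    (h : X.IsPhi β φ) {τ : RingAut F} (hbij : Function.Bijective φ)
    (hτ : ∀ (c : F) (z : X.W), φ (c • z) = τ c • φ z) :
    ∃ k : F, k ≠ 0 ∧ C.σ k = k ∧ ∀ z z' : X.W, H (φ z : Vn) (φ z') = k * τ (H (z : Vn) z') := by
  have key : ∀ z z' w w' : X.W, H (z : Vn) z' - H (z' : Vn) z = H (w : Vn) w' - H (w' : Vn) w →
      H (φ z : Vn) (φ z') - H (φ z' : Vn) (φ z) = H (φ w : Vn) (φ w') - H (φ w' : Vn) (φ w) := by
    intro z z' w w' e
    obtain ⟨hc, hc', e1⟩ := h.commutator hn z z'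
    obtain ⟨hd, hd', e2⟩ := h.commutator hn w w'
    refine (X.projE_inj hn (hz := X.W.zero_mem) (hz' := X.W.zero_mem) (ha := utv_coord hc') (ha' := utv_coord hd') ?_).2
    rw [← e1, ← e2]
    exact congrArg (fun E => β (proj E)) (X.E_congr rfl e)
  obtain ⟨u, v, huv⟩ := exists_form_one hn X
  set k := H (φ u : Vn) (φ v) with hk
  have hsmul : ∀ (z z' : X.W) (t : F), H (φ (t • z) : Vn) (φ z') - H (φ z' : Vn) (φ (t • z)) =
      τ t * H (φ z : Vn) (φ z') - C.σ (τ t * H (φ z : Vn) (φ z')) := by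
    intro z z' t
    rw [hτ, Submodule.coe_smul, form_smul_left, form_smul_right C, map_mul, form_conj C]
  have hall : ∀ z z' : X.W, H (φ z : Vn) (φ z') = τ (H (z : Vn) z') * k := by
    intro z z'
    refine sub_eq_zero.1 (eq_zero_of_fixed C fun s => ?_)
    obtain ⟨t, rfl⟩ := τ.surjective s
    have e := key (t • z) z' ((t * H (z : Vn) z') • u) v (by
      simp only [Submodule.coe_smul, form_smul_left, form_smul_right C, map_mul, huv,
        form_swap_one C huv, form_conj C]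
      ring)
    rw [hsmul, hsmul, map_mul, ← hk] at e
    rw [map_mul, map_sub, map_mul]
    simp only [map_mul] at e
    linear_combination -e
  have hk0 : k ≠ 0 := by
    intro hk0
    obtain ⟨w, hw, hww⟩ := exists_anisotropic C hn X
    obtain ⟨z, hz⟩ := hbij.2 ⟨w, hw⟩
    have h1 := hall z z
    rw [hz, hk0, mul_zero] at h1
    exact hww h1
  refine ⟨k, hk0, ?_, fun z z' => (hall z z').trans (mul_comm _ _)⟩
  have h1 := hall v u
  rw [form_swap_one C huv, map_one, one_mul, ← form_conj C, ← hk] at h1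
  exact h1

/-- An additive equivariant map from the complement to the trace-zero elements vanishes. -/
theorem eta_eq_zero (hn : 3 ≤ n) (h32 : ¬ (n = 3 ∧ q = 2)) (X : Frame C n) {η : X.W → F}
    (hη : ∀ z, η z + C.σ (η z) = 0) (hadd : ∀ z z', η (z + z') = η z + η z')
    (hequiv : ∀ A l, X.IsTor A l → ∀ z, η (X.rho A l z) = C.σ l * l * η z) : ∀ z, η z = 0 := by
  classical
  obtain ⟨t₁, ht₁⟩ := exists_trace_one C
  let ηh : X.W →+ F := AddMonoidHom.mk' η hadd
  let R : Subring (Module.End F X.W) :=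
    { carrier := {r | ∀ z, η z = 0 → η (r z) = 0}
      mul_mem' := fun {r s} hr hs z hz => by rw [Module.End.mul_apply]; exact hr _ (hs z hz)
      one_mem' := fun z hz => hz
      add_mem' := fun {r s} hr hs z hz => by
        rw [LinearMap.add_apply, hadd, hr z hz, hs z hz, add_zero]
      zero_mem' := fun z _ => map_zero ηh
      neg_mem' := fun {r} hr z hz => by
        rw [LinearMap.neg_apply]
        exact (map_neg ηh (r z)).trans (by rw [show ηh (r z) = 0 from hr z hz, neg_zero]) }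
  have hR : ∀ A l, X.IsTor A l → X.rho A l ∈ R := fun A l hA z hz => by
    rw [hequiv A l hA, hz, mul_zero]
  have hsc : ∀ (c : F) (z : X.W), η z = 0 → η (c • z) = 0 := fun c z hz =>
    X.scalar_mem hn h32 R hR c z hz
  let K : Submodule F X.W :=
    { carrier := {z | η z = 0}
      zero_mem' := map_zero ηh
      add_mem' := fun {a b} ha hb => by
        change η (a + b) = 0
        rw [hadd, show η a = 0 from ha, show η b = 0 from hb, add_zero]
      smul_mem' := fun c z hz => hsc c z hz }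
  by_cases hK : K = ⊥
  · exfalso
    obtain ⟨u, hu, hu0⟩ := exists_W_ne C hn X
    let g : F →+ F := ηh.comp (AddMonoidHom.mk' (fun c => c • (⟨u, hu⟩ : X.W)) (fun a b => add_smul a b _))
    have hg : Function.Injective g := (injective_iff_map_eq_zero g).2 fun c hc => by
      have h1 : c • (⟨u, hu⟩ : X.W) ∈ K := hc
      rw [hK, Submodule.mem_bot, smul_eq_zero] at h1
      exact h1.resolve_right fun e => hu0 (congrArg Subtype.val e)
    obtain ⟨c, hc⟩ := Finite.injective_iff_surjective.1 hg t₁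
    have h1 : g c + C.σ (g c) = 0 := hη _
    rw [hc, ht₁] at h1
    exact one_ne_zero h1
  · have hU : K.map X.W.subtype = X.W := by
      refine X.eq_W_of_invariant hn h32 ?_ ?_ ?_
      · rintro _ ⟨z, -, rfl⟩; exact z.2
      · intro e
        exact hK (Submodule.map_injective_of_injective X.W.injective_subtype
          (e.trans (Submodule.map_bot X.W.subtype).symm))
      · intro w c hw hww hc x hx
        obtain ⟨z, hz, rfl⟩ := hx
        have hT := X.isTor_utv hw hww hc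
        refine ⟨X.rho (utv C w c hww hc) 1 z, ?_, ?_⟩
        · change η _ = 0
          rw [hequiv _ _ hT, show η z = 0 from hz, mul_zero]
        · rw [Submodule.subtype_apply, rho_val hT, map_one, one_smul]; rfl
    intro z
    obtain ⟨z', hz', e⟩ := (hU.ge z.2 : (z : Vn) ∈ K.map X.W.subtype)
    rw [← show z' = z from Subtype.ext e]
    exact hz'

set_option maxHeartbeats 1000000 in
/-- An automorphism inducing the identity on the radical modulo its centre is trivial. -/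
theorem eq_one_of_phi_id (hn : 3 ≤ n) (h32 : ¬ (n = 3 ∧ q = 2)) (X : Frame C n) {β : MulAut PSU'}
    (he : Fixes C β X.e) (hf : Fixes C β X.f) (h : X.IsPhi β id) : β = 1 := by
  classical
  obtain ⟨t₁, ht₁⟩ := exists_trace_one C
  have hψ : ∀ (c : F) (hc : c + C.σ c = 0),
      β (proj (X.E 0 X.W.zero_mem c (utv_coord hc))) = proj (X.E 0 X.W.zero_mem c (utv_coord hc)) := by
    intro c hc
    obtain ⟨u, v, huv⟩ := exists_form_one hn X
    obtain ⟨hd, hd', e⟩ := h.commutator hn ((c * t₁) • u) v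
    have hcc : H (((c * t₁) • u : X.W) : Vn) v - H (v : Vn) ((c * t₁) • u : X.W) = c := by
      simp only [Submodule.coe_smul, form_smul_left, form_smul_right C, huv, form_swap_one C huv,
        map_mul]
      linear_combination c * ht₁ - C.σ t₁ * hc
    rw [show X.E 0 X.W.zero_mem c (utv_coord hc) = X.E 0 X.W.zero_mem _ (utv_coord hd) from
      X.E_congr rfl hcc.symm]
    exact e
  choose a ha using fun z : X.W => exists_eich_coord C (z : Vn)
  choose b hb eb using fun z : X.W => h z (a z) (ha z)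
  let η : X.W → F := fun z => b z - a z
  have hη : ∀ z, η z + C.σ (η z) = 0 := fun z => by
    have h1 : b z + C.σ (b z) + H (z : Vn) z = 0 := hb z
    simp only [η, map_sub]
    linear_combination h1 - ha z
  have hform : ∀ (z : X.W) (a' : F) (ha' : a' + C.σ a' + H (z : Vn) z = 0),
      β (proj (X.E z z.2 a' ha')) = proj (X.E z z.2 (a' + η z)
        (by rw [_root_.map_add]; linear_combination ha' + hη z)) := by
    intro z a' ha'
    obtain ⟨hc, e⟩ := X.E_shift z.2 (ha z) ha'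
    rw [e, _root_.map_mul, _root_.map_mul, hψ _ hc, eb z, ← _root_.map_mul, X.E_mul]
    exact congrArg proj (X.E_congr (zero_add _) (by simp only [η, id, form_zero_right C]; ring))
  have hadd : ∀ z z', η (z + z') = η z + η z' := by
    intro z z'
    have e := hform (z + z') _ (coord_add C (ha z) (ha z'))
    have h1 : β (proj (X.E z z.2 (a z) (ha z) * X.E z' z'.2 (a z') (ha z'))) =
        proj (X.E (z + z' : X.W) (z + z').2 (a z + a z' - H (z' : Vn) z + η (z + z')) (by
          rw [_root_.map_add, Submodule.coe_add]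
          linear_combination coord_add C (ha z) (ha z') + hη (z + z'))) := by
      rw [X.E_mul]; exact e
    rw [_root_.map_mul, _root_.map_mul, hform, hform, ← _root_.map_mul, X.E_mul] at h1
    linear_combination -(X.projE_inj hn h1).2
  have hequiv : ∀ A l, X.IsTor A l → ∀ z, η (X.rho A l z) = C.σ l * l * η z := by
    intro A l hA z
    obtain ⟨B, m, hB, hAB⟩ := X.exists_tor_image hn he hf hA
    have calcE : ∀ (w : X.W) (a' : F) (ha' : a' + C.σ a' + H (w : Vn) w = 0),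
        C.σ l * l * a' + η (X.rho A l w) = C.σ m * m * (a' + η w) := by
      intro w a' ha'
      have ha2 : C.σ l * l * a' + C.σ (C.σ l * l * a') + H (X.rho A l w : Vn) (X.rho A l w) = 0 := by
        rw [rho_val hA]; exact hA.coord ha'
      have h1 : β (proj (A * X.E w w.2 a' ha' * A⁻¹)) = proj (X.E _ (X.rho A l w).2
          (C.σ l * l * a' + η (X.rho A l w))
          (by rw [_root_.map_add]; linear_combination ha2 + hη (X.rho A l w))) := by
        rw [hA.conj_E w.2 ha', ← hform _ _ ha2]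
        exact congrArg (fun E => β (proj E)) (X.E_congr (rho_val hA w).symm rfl)
      rw [_root_.map_mul, _root_.map_mul, _root_.map_inv, _root_.map_mul, _root_.map_mul,
        _root_.map_inv, hAB, hform, ← _root_.map_inv, ← _root_.map_mul, ← _root_.map_mul,
        hB.conj_E w.2] at h1
      exact (X.projE_inj hn h1).2.symm
    obtain ⟨c, hc0, hc⟩ := exists_trace_zero C
    have h00 : η 0 = 0 := by have := hadd 0 0; rw [add_zero] at this; linear_combination -this
    have h0 := calcE 0 c (utv_coord hc)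
    rw [map_zero, h00, add_zero, add_zero] at h0
    have hN : C.σ l * l = C.σ m * m := mul_right_cancel₀ hc0 h0
    have h1 := calcE z (a z) (ha z)
    rw [← hN] at h1
    linear_combination h1
  have hη0 := X.eta_eq_zero hn h32 hη hadd hequiv
  refine X.eq_one_of_fixes_radical hn he hf fun x hx => ?_
  obtain ⟨z, hz, a', ha', rfl⟩ := X.exists_E_of_qbar hx
  rw [hform ⟨z, hz⟩ a' ha']
  exact congrArg proj (X.E_congr rfl (by rw [hη0, add_zero]))

/-- The semilinear isometry attached to `φ`. -/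
theorem exists_semilinear (X : Frame C n) {φ : X.W → X.W} {τ : RingAut F}
    (hadd : ∀ z z', φ (z + z') = φ z + φ z') (hτ : ∀ (c : F) (z : X.W), φ (c • z) = τ c • φ z)
    {κ : F} (hκ : κ ≠ 0)
    (hform : ∀ z z' : X.W, H (φ z : Vn) (φ z') = κ * C.σ κ * τ (H (z : Vn) z')) :
    ∃ g : GU, mg g *ᵥ (τ ∘ X.e) = C.σ κ • X.e ∧ mg g *ᵥ (τ ∘ X.f) = κ⁻¹ • X.f ∧
      ∀ z : X.W, mg g *ᵥ (τ ∘ (z : Vn)) = κ⁻¹ • (φ z : Vn) := by
  classical
  let P : Vn → X.W := fun x => ⟨X.prj x, X.prj_mem x⟩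
  have hPadd : ∀ a b, P (a + b) = P a + P b := fun a b => Subtype.ext (map_add X.prj a b)
  have hPsmul : ∀ (c : F) x, P (c • x) = c • P x := fun c x => Subtype.ext (map_smul X.prj c x)
  let G : Vn → Vn := fun x =>
    (τ (H x X.f) * C.σ κ) • X.e + (τ (H x X.e) * κ⁻¹) • X.f + κ⁻¹ • (φ (P x) : Vn)
  have hGsmul : ∀ (c : F) x, G (c • x) = τ c • G x := fun c x => by
    simp only [G, form_smul_left, map_mul, hPsmul, hτ, Submodule.coe_smul]
    module
  have hGadd : ∀ x y, G (x + y) = G x + G y := fun x y => by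
    simp only [G, form_add_left, map_add, hPadd, hadd, Submodule.coe_add]
    module
  have hGform : ∀ x y, H (G x) (G y) = τ (H x y) := by
    intro x y
    have hdec : H x y = H x X.f * C.σ (H y X.e) + H x X.e * C.σ (H y X.f) + H (P x : Vn) (P y) := by
      conv_lhs => rw [X.decomp x, X.decomp y]
      simp only [form_add_left, form_add_right C, form_smul_left, form_smul_right C, X.ee, X.ff,
        X.ef, X.fe, X.e_left (X.prj_mem y), X.f_left (X.prj_mem y), (X.prj_mem x).1, (X.prj_mem x).2, P]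
      ring
    have w1 := (φ (P x)).2
    have w2 := (φ (P y)).2
    rw [hdec, map_add, map_add, map_mul, map_mul, ringAut_conj C τ, ringAut_conj C τ]
    simp only [G, form_add_left, form_add_right C, form_smul_left, form_smul_right C, X.ee, X.ff,
      X.ef, X.fe, X.e_left w2, X.f_left w2, w1.1, w1.2, map_mul, map_inv₀, C.invol, hform]
    have hs : C.σ κ ≠ 0 := (map_ne_zero C.σ).2 hκ
    field_simp
    ring
  let L : Vn →ₗ[F] Vn :=
    { toFun := fun x => G (τ.symm ∘ x)
      map_add' := fun x y => by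
        rw [show τ.symm ∘ (x + y) = τ.symm ∘ x + τ.symm ∘ y from funext fun i => map_add τ.symm _ _]
        exact hGadd _ _
      map_smul' := fun c x => by
        rw [show τ.symm ∘ (c • x) = τ.symm c • (τ.symm ∘ x) from funext fun i => map_mul τ.symm _ _,
          hGsmul, τ.apply_symm_apply]
        rfl }
  let M := LinearMap.toMatrix' L
  have hM : ∀ x, M *ᵥ x = G (τ.symm ∘ x) := fun x => LinearMap.toMatrix'_mulVec L x
  have hMform : ∀ x y, H (M *ᵥ x) (M *ᵥ y) = H x y := fun x y => by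
    rw [hM, hM, hGform, ← form_map]
    congr 1 <;> funext i <;> simp
  have hMinj : Function.Injective M.mulVec := by
    intro x y hxy
    refine ext_form C fun w => ?_
    rw [← hMform x w, ← hMform y w]
    exact congrArg (fun v => H v (M *ᵥ w)) hxy
  have hMu : IsUnit M := Matrix.mulVec_injective_iff_isUnit.1 hMinj
  have hgG : ∀ x : Vn, M *ᵥ (τ ∘ x) = G x := fun x => by
    rw [hM]; congr 1; funext i; simp
  have hP0 : ∀ x, X.prj x = 0 → (φ (P x) : Vn) = 0 := fun x hx => by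
    rw [show P x = 0 from Subtype.ext hx, show (0 : X.W) = (0 : F) • (0 : X.W) from (zero_smul F _).symm,
      hτ, map_zero, zero_smul, Submodule.coe_zero]
  refine ⟨⟨hMu.unit, fun x y => hMform x y⟩, ?_, ?_, fun z => ?_⟩
  · change M *ᵥ _ = _
    rw [hgG]
    simp only [G, X.ef, X.ee, map_one, map_zero, hP0 _ X.prj_e]
    module
  · change M *ᵥ _ = _
    rw [hgG]
    simp only [G, X.ff, X.fe, map_one, map_zero, hP0 _ X.prj_f]
    module
  · change M *ᵥ _ = _
    rw [hgG]
    simp only [G, z.2.1, z.2.2, map_zero, show P (z : Vn) = z from Subtype.ext (X.prj_of_mem z.2)]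
    module

end Frame

theorem tbar_map_semilinear (C : Conj F q) (g : GU) (τ : RingAut F) {v : Vn} (hv : H v v = 0) :
    (tbar C v).map (conjPSU g * fieldPSU τ).toMonoidHom = tbar C (mg g *ᵥ (τ ∘ v)) := by
  have hGv : H (mg g *ᵥ (τ ∘ v)) (mg g *ᵥ (τ ∘ v)) = 0 := by rw [GU_form g, form_map, hv, map_zero]
  have htr : ∀ c : F, c + C.σ c = 0 → τ c + C.σ (τ c) = 0 := fun c hc => by
    rw [← ringAut_conj, ← map_add, hc, map_zero]
  have key : ∀ (c : F) (hc : c + C.σ c = 0),
      conjSU g (fieldSU τ (utv C v c hv hc)) = utv C (mg g *ᵥ (τ ∘ v)) (τ c) hGv (htr c hc) := by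
    intro c hc
    refine SU_ext fun y => ?_
    obtain ⟨x, rfl⟩ : ∃ x : Vn, mg g *ᵥ (τ ∘ x) = y := ⟨τ.symm ∘ (mg g⁻¹ *ᵥ y), by
      rw [show τ ∘ τ.symm ∘ (mg g⁻¹ *ᵥ y) = mg g⁻¹ *ᵥ y from funext fun i => τ.apply_symm_apply _,
        GU_mulVec_inv]⟩
    rw [conjSU_mulVec, fieldSU_val, map_mulVec, utv_mulVec, utv_mulVec, GU_form g, form_map,
      ← map_mul, ← Matrix.mulVec_smul, ← Matrix.mulVec_add]
    congr 1
    funext i
    simp
  refine le_antisymm ?_ ?_
  · rintro _ ⟨_, ⟨A, hA, rfl⟩, rfl⟩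
    obtain ⟨c, hc, rfl⟩ := (mem_tsub C hv).1 hA
    change conjPSU g (fieldPSU τ (proj _)) ∈ _
    rw [fieldPSU_proj, conjPSU_proj, key c hc]
    exact utv_mem_tbar C hGv _
  · rintro _ ⟨A, hA, rfl⟩
    obtain ⟨c, hc, rfl⟩ := (mem_tsub C hGv).1 hA
    obtain ⟨d, rfl⟩ := τ.surjective c
    have hd : d + C.σ d = 0 := τ.injective (by rw [map_add, ringAut_conj C, hc, map_zero])
    exact ⟨proj (utv C v d hv hd), utv_mem_tbar C hv hd, by
      change conjPSU g (fieldPSU τ (proj _)) = _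
      rw [fieldPSU_proj, conjPSU_proj, key d hd]⟩

/-- Every automorphism of `PSU_n(q)` is induced by a semilinear unitary map. -/
theorem exists_decomposition (C : Conj F q) (hn : 3 ≤ n) (h32 : ¬ (n = 3 ∧ q = 2)) (α : MulAut PSU') :
    ∃ (g : GU) (τ : RingAut F), α = conjPSU g * fieldPSU τ := by
  obtain ⟨X⟩ := exists_frame C hn
  obtain ⟨A, he, hf⟩ := exists_inner_normal hn X α
  set β := MulAut.conj (proj A) * α with hβ
  obtain ⟨φ, hφ⟩ := X.exists_phi hn h32 he
  obtain ⟨τ, hbij, hτ⟩ := hφ.semilinear hn h32 he hf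
  obtain ⟨k, hk0, hkσ, hk⟩ := hφ.similitude hn hbij hτ
  obtain ⟨κ, hκ, hκk⟩ := CfsgLib.Hermitian.exists_norm C.ne_id C.invol hk0 hkσ
  obtain ⟨g, hge, hgf, hgz⟩ := X.exists_semilinear (hφ.map_add hn) hτ hκ
    (fun z z' => by rw [hk, ← hκk, mul_comm (C.σ κ)])
  set Φ := conjPSU g * fieldPSU τ with hΦ
  have hΦe : Fixes C Φ X.e := by
    unfold Fixes
    rw [tbar_map_semilinear C g τ X.ee, hge, tbar_smul C ((map_ne_zero C.σ).2 hκ)]
  have hΦf : Fixes C Φ X.f := by
    unfold Fixes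
    rw [tbar_map_semilinear C g τ X.ff, hgf, tbar_smul C (inv_ne_zero hκ)]
  have hΦφ : X.IsPhi Φ φ := by
    intro z a ha
    set L := conjSU g (fieldSU τ (X.E z z.2 a ha)) with hL
    have hLx : ∀ x : Vn, mat L *ᵥ (mg g *ᵥ (τ ∘ x)) = mg g *ᵥ (τ ∘ (mat (X.E z z.2 a ha) *ᵥ x)) :=
      fun x => by rw [hL, conjSU_mulVec, fieldSU_val, map_mulVec]
    have hLe : mat L *ᵥ X.e = X.e := by
      have h := hLx X.e
      rw [X.E_e, hge, Matrix.mulVec_smul] at h
      exact smul_right_injective _ ((map_ne_zero C.σ).2 hκ) h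
    have hmem : L ∈ Qsub q X.e := by
      refine ⟨hLe, fun x hx => ?_⟩
      obtain ⟨x₀, rfl⟩ : ∃ x₀ : Vn, mg g *ᵥ (τ ∘ x₀) = x := ⟨τ.symm ∘ (mg g⁻¹ *ᵥ x), by
        rw [show τ ∘ τ.symm ∘ (mg g⁻¹ *ᵥ x) = mg g⁻¹ *ᵥ x from funext fun i => τ.apply_symm_apply _,
          GU_mulVec_inv]⟩
      have hx₀ : H x₀ X.e = 0 := by
        have h1 : H (mg g *ᵥ (τ ∘ x₀)) (mg g *ᵥ (τ ∘ X.e)) = τ (H x₀ X.e) := by rw [GU_form g, form_map]
        rw [hge, form_smul_right C, hx, mul_zero] at h1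
        exact τ.injective (by rw [← h1, map_zero])
      obtain ⟨k', hk'⟩ := (X.E_mem_Qsub z.2 ha).2 x₀ hx₀
      refine ⟨τ k' * C.σ κ, ?_⟩
      rw [hLx, hk', show τ ∘ (x₀ + k' • X.e) = τ ∘ x₀ + τ k' • (τ ∘ X.e) from funext fun i => by simp,
        Matrix.mulVec_add, Matrix.mulVec_smul, hge, smul_smul]
    obtain ⟨w, hw, b, hb, hLE⟩ := X.exists_E_of_mem hmem
    have hwz : w = φ z := by
      have h := hLx X.f
      rw [hLE, hgf, Matrix.mulVec_smul, X.E_f, X.E_f,
        show τ ∘ (X.f + (z : Vn) + a • X.e) = τ ∘ X.f + τ ∘ (z : Vn) + τ a • (τ ∘ X.e) from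
          funext fun i => by simp,
        Matrix.mulVec_add, Matrix.mulVec_add, Matrix.mulVec_smul, hgf, hgz, hge] at h
      have h2 := congrArg X.prj h
      simp only [map_add, map_smul, X.prj_f, X.prj_e, X.prj_of_mem hw, X.prj_of_mem (φ z).2,
        smul_zero, add_zero, zero_add] at h2
      exact smul_right_injective _ (inv_ne_zero hκ) h2
    subst hwz
    refine ⟨b, hb, ?_⟩
    change conjPSU g (fieldPSU τ (proj _)) = _
    rw [fieldPSU_proj, conjPSU_proj, ← hL, hLE]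
  have h1 : Φ⁻¹ * β = 1 := by
    refine X.eq_one_of_phi_id hn h32 (hΦe.inv.mul he) (hΦf.inv.mul hf) fun z a ha => ?_
    obtain ⟨b, hb, e⟩ := hφ z a ha
    obtain ⟨b', hb', e'⟩ := hΦφ z a ha
    obtain ⟨hc, e''⟩ := X.E_shift (φ z).2 hb' hb
    obtain ⟨c', hc', ec⟩ := X.exists_psi hΦe.inv hc
    refine ⟨c' + a, by rw [map_add]; simp only [id]; linear_combination hc' + ha, ?_⟩
    have hinv : Φ⁻¹ (proj (X.E (φ z) (φ z).2 b' hb')) = proj (X.E z z.2 a ha) := by
      rw [← e']; exact Φ.symm_apply_apply _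
    rw [MulAut.mul_apply, e, e'', map_mul, map_mul, ec, hinv, ← map_mul, X.E_mul]
    exact congrArg proj (X.E_congr (zero_add _) (by rw [form_zero_right C, sub_zero]))
  have h2 : β = Φ := (inv_mul_eq_one.1 h1).symm
  refine ⟨(toGU n F q A)⁻¹ * g, τ, ?_⟩
  rw [map_mul, map_inv, conjPSU_toGU, mul_assoc, ← hΦ, ← h2, hβ, inv_mul_cancel_left]

end CfsgLib.AutPSU
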