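import Cfsg.Agent.AutPSU.Unique
import Cfsg.Agent.AutPSL.FixedField
import Cfsg.Agent.AutPSL.Descent
import Cfsg.Agent.AutPSL.GraphField
set_option autoImplicit false

/-!
Field automorphisms of odd order of `PSU_n(q)`: descent, centralisers, class splitting.
-/

namespace CfsgLib.AutPSU

open Matrix
open CfsgLib.UGeom

variable {F : Type*} [Field F] [Fintype F] {q n : ℕ}

local notation "H" => Cfsg.hermForm n F q
local notation "Vn" => (Fin n → F)
local notation "SU" => Cfsg.SU n F q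
local notation "GU" => Cfsg.GU n F q
local notation "PSU'" => Cfsg.PSU n F q
local notation "mg" A:max => (((A : GU) : GL (Fin n) F) : Matrix (Fin n) (Fin n) F)
local notation "mat" A:max => (((A : SU) : Matrix.SpecialLinearGroup (Fin n) F) : Matrix (Fin n) (Fin n) F)

/-- The units of norm one. -/
def N1 (F : Type*) [Field F] (q : ℕ) : Subgroup Fˣ := (powMonoidHom (q + 1) : Fˣ →* Fˣ).ker

omit [Fintype F] in
theorem mem_N1 {u : Fˣ} : u ∈ N1 F q ↔ (u : F) * (u : F) ^ q = 1 := by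
  rw [N1, MonoidHom.mem_ker, powMonoidHom_apply, Units.ext_iff, Units.val_pow_eq_pow_val, pow_succ',
    Units.val_one]

theorem card_N1 (C : Conj F q) : Nat.card (N1 F q) = q + 1 := by
  refine Eq.trans ?_ (card_norm_one C)
  exact Nat.card_congr (Equiv.subtypeEquivRight fun u => by simp [N1, MonoidHom.mem_ker])

/-- The scalar matrices in `GU_n`. -/
def scalarGU (C : Conj F q) (n : ℕ) : N1 F q →* Cfsg.GU n F q where
  toFun u := ⟨GeneralLinearGroup.scalar (Fin n) u.1, fun x y => by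
    have hu : (u.1 : F) * C.σ (u.1 : F) = 1 := by rw [C.pow]; exact mem_N1.1 u.2
    change Cfsg.hermForm n F q ((GeneralLinearGroup.scalar (Fin n) u.1).1 *ᵥ x)
      ((GeneralLinearGroup.scalar (Fin n) u.1).1 *ᵥ y) = _
    have e : (GeneralLinearGroup.scalar (Fin n) u.1).1 = (u.1 : F) • (1 : Matrix (Fin n) (Fin n) F) := by
      simp [GeneralLinearGroup.scalar, smul_one_eq_diagonal]
    rw [e, Matrix.smul_mulVec, Matrix.smul_mulVec, Matrix.one_mulVec, Matrix.one_mulVec,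
      form_smul_left, form_smul_right C, ← mul_assoc, hu, one_mul]⟩
  map_one' := Subtype.ext (map_one _)
  map_mul' a b := Subtype.ext (map_mul _ _ _)

theorem scalarGU_val (C : Conj F q) (u : N1 F q) :
    mg (scalarGU C n u) = (u.1 : F) • (1 : Matrix (Fin n) (Fin n) F) := by
  simp [scalarGU, GeneralLinearGroup.scalar, smul_one_eq_diagonal]

theorem scalarGU_coe (C : Conj F q) (u : N1 F q) :
    (scalarGU C n u).1 = GeneralLinearGroup.scalar (Fin n) u.1 := rfl

theorem scalar_mem_N1 (C : Conj F q) (hn : 1 ≤ n) {g : GU} {a : F}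
    (h : mg g = a • (1 : Matrix (Fin n) (Fin n) F)) : ∃ u : N1 F q, (u.1 : F) = a := by
  let i₀ : Fin n := ⟨0, hn⟩
  have h1 := GU_form g (Pi.single i₀ 1 : Vn) (Pi.single i₀ 1)
  rw [h, Matrix.smul_mulVec, Matrix.one_mulVec, form_smul_left, form_smul_right C, form_single_right C,
    Pi.single_eq_same, mul_one, C.pow] at h1
  have ha : a ≠ 0 := by rintro rfl; rw [zero_mul] at h1; exact zero_ne_one h1
  exact ⟨⟨Units.mk0 a ha, mem_N1.2 h1⟩, rfl⟩

theorem conjPSU_scalarGU (C : Conj F q) (u : N1 F q) : conjPSU (scalarGU C n u) = 1 :=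
  conjPSU_eq_one_of_scalar (scalarGU_val C u)

theorem conjPSU_eq_iff (C : Conj F q) (hn : 3 ≤ n) {g h : GU} :
    conjPSU g = conjPSU h ↔ ∃ u : N1 F q, g = scalarGU C n u * h := by
  constructor
  · intro e
    obtain ⟨a, ha⟩ := (conjPSU_eq_one_iff C hn).1
      (show conjPSU (g * h⁻¹) = 1 by rw [map_mul, map_inv, e, mul_inv_cancel])
    obtain ⟨u, hu⟩ := scalar_mem_N1 C (by omega : 1 ≤ n) ha
    refine ⟨u, ?_⟩
    rw [← hu] at ha
    rw [← scalarGU_val C u] at ha
    have : g * h⁻¹ = scalarGU C n u := Subtype.ext (Units.ext ha)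
    rw [← this, inv_mul_cancel_right]
  · rintro ⟨u, rfl⟩
    rw [map_mul, conjPSU_scalarGU, one_mul]

/-- The twisted power. -/
def normSeqU (g : GU) (τ : RingAut F) : ℕ → GU
  | 0 => 1
  | k + 1 => g * fieldGU τ (normSeqU g τ k)

theorem normSeqU_coe (g : GU) (τ : RingAut F) :
    ∀ k, (normSeqU g τ k).1 = CfsgLib.AutPSL.normSeq g.1 τ k
  | 0 => rfl
  | k + 1 => by
    change g.1 * CfsgLib.AutPSL.fieldGL τ (normSeqU g τ k).1 = _
    rw [normSeqU_coe g τ k]
    rfl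

theorem pow_conj_mul_field (g : GU) (τ : RingAut F) :
    ∀ k : ℕ, (conjPSU g * fieldPSU τ) ^ k = conjPSU (normSeqU g τ k) * fieldPSU (τ ^ k)
  | 0 => by simp [normSeqU]
  | k + 1 => by
    rw [pow_succ', pow_conj_mul_field g τ k, mul_assoc, ← mul_assoc (fieldPSU τ), fieldPSU_mul_conjPSU,
      normSeqU, map_mul, pow_succ' τ, map_mul]
    simp only [mul_assoc]

theorem fieldPSU_injective (C : Conj F q) (hn : 3 ≤ n) :
    Function.Injective (fieldPSU (F := F) (n := n) (q := q)) := by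
  rw [injective_iff_map_eq_one]
  intro τ hτ
  exact (eq_one_of_conjPSU_eq_fieldPSU C hn (g := 1) (by rw [hτ, map_one])).1

/-! ### The fixed field -/

/-- The data of a field automorphism of odd order and its fixed field. -/
structure Sub (C : Conj F q) {F₀ : Type*} [Field F₀] [Fintype F₀] {q₀ : ℕ} (C₀ : Conj F₀ q₀)
    (τ : RingAut F) (ι : F₀ →+* F) : Prop where
  fix : ∀ c, τ c = c ↔ c ∈ Set.range ι
  conj : ∀ y, C.σ (ι y) = ι (C₀.σ y)

theorem exists_sub {p f : ℕ} [Fact p.Prime] (C : Conj F q) (hq : q = p ^ f) (τ : RingAut F)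
    (hodd : Odd (orderOf τ)) {F₀ : Type*} [Field F₀] [Fintype F₀]
    (hF₀ : Fintype.card F₀ = p ^ (2 * (f / orderOf τ))) :
    orderOf τ ∣ f ∧ ∃ (C₀ : Conj F₀ (p ^ (f / orderOf τ))) (ι : F₀ →+* F), Sub C C₀ τ ι := by
  have hF : Fintype.card F = p ^ (2 * f) := by rw [C.card, hq, ← pow_mul, mul_comm]
  obtain ⟨hdvd, hfield⟩ := CfsgLib.AutPSL.fixed_field_facts (Fact.out : p.Prime) hF τ
  set r := orderOf τ with hr
  have hrf : r ∣ f := (Nat.coprime_two_right.2 hodd).dvd_of_dvd_mul_left hdvd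
  obtain ⟨ι, hι⟩ := hfield F₀ (by rw [hF₀, Nat.mul_div_assoc 2 hrf])
  have hF₀' : Fintype.card F₀ = (p ^ (f / r)) ^ 2 := by rw [hF₀, ← pow_mul, mul_comm]
  obtain ⟨C₀⟩ := nonempty_conj hF₀'
  refine ⟨hrf, C₀, ι, hι, fun y => ?_⟩
  rw [C.pow, C₀.pow, ← map_pow]
  congr 1
  obtain ⟨k, hk⟩ := hodd
  have hqq : q = (p ^ (f / r)) ^ (2 * k + 1) := by rw [hq, ← pow_mul, ← hk, Nat.div_mul_cancel hrf]
  rw [hqq, pow_succ, pow_mul (p ^ (f / r)), ← hF₀', pow_mul, FiniteField.pow_card_pow]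

variable {F₀ : Type*} [Field F₀] [Fintype F₀] {q₀ : ℕ} {C₀ : Conj F₀ q₀} {C : Conj F q}
  {τ : RingAut F} {ι : F₀ →+* F}

theorem form_mapι (S : Sub C C₀ τ ι) (u v : Fin n → F₀) :
    H (ι ∘ u) (ι ∘ v) = ι (Cfsg.hermForm n F₀ q₀ u v) := by
  rw [form_eq C, form_eq C₀, map_sum]
  exact Finset.sum_congr rfl fun i _ => by rw [map_mul, ← S.conj]; rfl

theorem mem_GU_iff' (C : Conj F q) (g : GL (Fin n) F) :
    g ∈ GU ↔ CfsgLib.Unitary.adj C.σ g.1 * g.1 = 1 :=
  CfsgLib.AutPSL.mem_GU_iff C.σ q C.pow C.invol g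

theorem adj_map (S : Sub C C₀ τ ι) (M : Matrix (Fin n) (Fin n) F₀) :
    CfsgLib.Unitary.adj C.σ (ι.mapMatrix M) = ι.mapMatrix (CfsgLib.Unitary.adj C₀.σ M) :=
  Matrix.ext fun i j => S.conj (M j i)

/-- Extension of scalars `GU_n(q₀) → GU_n(q)`. -/
def mapGU (S : Sub C C₀ τ ι) (n : ℕ) : Cfsg.GU n F₀ q₀ →* Cfsg.GU n F q where
  toFun g := ⟨CfsgLib.AutPSL.mapGL ι g.1, (mem_GU_iff' C _).2 (by
    change CfsgLib.Unitary.adj C.σ (ι.mapMatrix g.1.1) * ι.mapMatrix g.1.1 = 1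
    rw [adj_map S, ← map_mul, (mem_GU_iff' C₀ g.1).1 g.2, map_one])⟩
  map_one' := Subtype.ext (map_one _)
  map_mul' a b := Subtype.ext (map_mul _ _ _)

theorem fieldGU_mapGU (S : Sub C C₀ τ ι) (g : Cfsg.GU n F₀ q₀) :
    fieldGU τ (mapGU S n g) = mapGU S n g :=
  Subtype.ext (CfsgLib.AutPSL.fieldGL_mapGL S.fix g.1)

/-- A `τ`-fixed unitary matrix comes from the fixed field. -/
theorem exists_mapGU_eq (S : Sub C C₀ τ ι) {g : GU} (h : fieldGU τ g = g) :
    ∃ g₀ : Cfsg.GU n F₀ q₀, mapGU S n g₀ = g := by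
  have he : ∀ i j, ∃ d, ι d = (mg g) i j := fun i j =>
    (S.fix _).1 (congrFun (congrFun (congrArg (fun x : GU => mg x) h) i) j)
  choose d hd using he
  have hM : ι.mapMatrix (Matrix.of d) = mg g := Matrix.ext hd
  have hdet : (Matrix.of d).det ≠ 0 := fun h0 => g.1.det_ne_zero (by
    change (mg g).det = 0
    rw [← hM, ← RingHom.map_det, h0, map_zero])
  refine ⟨⟨GeneralLinearGroup.mkOfDetNeZero _ hdet, (mem_GU_iff' C₀ _).2 ?_⟩, Subtype.ext (Units.ext hM)⟩
  change CfsgLib.Unitary.adj C₀.σ (Matrix.of d) * Matrix.of d = 1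
  apply Matrix.map_injective ι.injective
  change ι.mapMatrix _ = ι.mapMatrix 1
  rw [map_mul, map_one, ← adj_map S, hM]
  exact (mem_GU_iff' C g.1).1 g.2

/-- Descent: a unitary cocycle of a field automorphism of odd order is a unitary coboundary. -/
theorem exists_unitary_coboundary (S : Sub C C₀ τ ι) (g : GU)
    (hN : normSeqU g τ (orderOf τ) = 1) : ∃ h : GU, g = h * (fieldGU τ h)⁻¹ := by
  obtain ⟨h, hh⟩ := CfsgLib.AutPSL.exists_coboundary τ g.1 (by rw [← normSeqU_coe, hN]; rfl)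
  have hgh : g.1 * CfsgLib.AutPSL.fieldGL τ h = h := by rw [hh, inv_mul_cancel_right]
  set G := CfsgLib.Unitary.adj C.σ h.1 * h.1 with hG
  have hadjτ : CfsgLib.Unitary.adj C.σ ((τ : F →+* F).mapMatrix h.1) =
      (τ : F →+* F).mapMatrix (CfsgLib.Unitary.adj C.σ h.1) :=
    Matrix.ext fun i j => (ringAut_conj C τ (h.1 j i)).symm
  have hfix : (τ : F →+* F).mapMatrix G = G := by
    have e : h.1 = mg g * (τ : F →+* F).mapMatrix h.1 := (congrArg Units.val hgh).symm
    conv_rhs => rw [hG, e, CfsgLib.Unitary.adj_mul, Matrix.mul_assoc,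
      ← Matrix.mul_assoc (CfsgLib.Unitary.adj C.σ (mg g)), (mem_GU_iff' C g.1).1 g.2, Matrix.one_mul, hadjτ]
    rw [hG, map_mul]
  have he : ∀ i j, ∃ d, ι d = G i j := fun i j => (S.fix _).1 (congrFun (congrFun hfix i) j)
  choose d hd using he
  have hM : ι.mapMatrix (Matrix.of d) = G := Matrix.ext hd
  have hherm : CfsgLib.Unitary.adj C₀.σ (Matrix.of d) = Matrix.of d := by
    apply Matrix.map_injective ι.injective
    change ι.mapMatrix _ = ι.mapMatrix _
    rw [← adj_map S, hM, hG, CfsgLib.Unitary.adj_mul, CfsgLib.Unitary.adj_adj C.σ C.invol]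
  have hGdet : G.det ≠ 0 := by
    rw [hG, Matrix.det_mul, CfsgLib.Unitary.adj, Matrix.det_transpose, ← RingHom.mapMatrix_apply,
      ← RingHom.map_det]
    exact mul_ne_zero ((map_ne_zero C.σ).2 h.det_ne_zero) h.det_ne_zero
  have hdet : (Matrix.of d).det ≠ 0 := fun h0 => hGdet (by rw [← hM, ← RingHom.map_det, h0, map_zero])
  obtain ⟨P, hP⟩ := CfsgLib.Unitary.exists_congr C₀.σ C₀.invol C₀.ne_id n _ hherm hdet
  have hPdet : P.det ≠ 0 := fun h0 => hdet (by rw [← hP, Matrix.det_mul, h0, mul_zero])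
  let P' : GL (Fin n) F := CfsgLib.AutPSL.mapGL ι (GeneralLinearGroup.mkOfDetNeZero P hPdet)
  have hP' : CfsgLib.Unitary.adj C.σ P'.1 * P'.1 = G := by
    change CfsgLib.Unitary.adj C.σ (ι.mapMatrix P) * ι.mapMatrix P = G
    rw [adj_map S, ← map_mul, hP, hM]
  have hmem : h * P'⁻¹ ∈ GU := by
    rw [mem_GU_iff' C, Units.val_mul, CfsgLib.Unitary.adj_mul, Matrix.mul_assoc,
      ← Matrix.mul_assoc (CfsgLib.Unitary.adj C.σ h.1), ← hG, ← hP', Matrix.mul_assoc,
      ← Units.val_mul P' P'⁻¹, mul_inv_cancel, Units.val_one, Matrix.mul_one,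
      ← CfsgLib.Unitary.adj_mul, ← Units.val_mul, mul_inv_cancel, Units.val_one, CfsgLib.Unitary.adj_one]
  refine ⟨⟨h * P'⁻¹, hmem⟩, Subtype.ext ?_⟩
  change g.1 = h * P'⁻¹ * (CfsgLib.AutPSL.fieldGL τ (h * P'⁻¹))⁻¹
  rw [hh, map_mul, map_inv, CfsgLib.AutPSL.fieldGL_mapGL S.fix, _root_.mul_inv_rev, inv_inv, mul_assoc,
    inv_mul_cancel_left]

/-! ### Norms on the units of norm one -/

theorem range_eq_ker_of_le {A : Type*} [CommGroup A] [Finite A] (N ψ : A →* A) (h1 : N.ker ≤ ψ.range)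
    (h2 : N.range ≤ ψ.ker) : N.range = ψ.ker := by
  refine Subgroup.eq_of_le_of_card_ge h2 ?_
  have e1 : Nat.card N.range * Nat.card N.ker = Nat.card A := by
    rw [← Subgroup.index_ker, Subgroup.index_mul_card]
  have e2 : Nat.card ψ.ker * Nat.card ψ.range = Nat.card A := by
    rw [← Subgroup.index_ker, Subgroup.card_mul_index]
  have h3 : Nat.card N.ker ≤ Nat.card ψ.range := Nat.le_of_dvd Nat.card_pos (Subgroup.card_dvd_of_le h1)
  by_contra hlt
  push Not at hlt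
  have := Nat.mul_lt_mul_of_lt_of_le hlt h3 Nat.card_pos
  omega

/-- Hilbert 90 inside the norm-one group. -/
theorem exists_twist (S : Sub C C₀ τ ι) {a : N1 F q}
    (ha : CfsgLib.AutPSL.normHom τ (orderOf τ) a.1 = 1) :
    ∃ b : N1 F q, (a.1 : F) * τ (b.1 : F) = (b.1 : F) := by
  obtain ⟨b, hb⟩ := CfsgLib.AutPSL.exists_div_of_norm_one τ ha
  set μ := (b : F) * C.σ b with hμ
  have hμ0 : μ ≠ 0 := mul_ne_zero b.ne_zero ((map_ne_zero C.σ).2 b.ne_zero)
  have ha1 : (a.1 : F) * C.σ (a.1 : F) = 1 := by rw [C.pow]; exact mem_N1.1 a.2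
  have hμτ : τ μ = μ := by
    have hb' : C.σ (a.1 : F) * C.σ (τ b) = C.σ b := by rw [← map_mul, hb]
    rw [hμ, map_mul, ringAut_conj C]
    calc τ b * C.σ (τ b) = ((a.1 : F) * C.σ (a.1 : F)) * (τ b * C.σ (τ b)) := by rw [ha1, one_mul]
      _ = ((a.1 : F) * τ b) * (C.σ (a.1 : F) * C.σ (τ b)) := by ring
      _ = _ := by rw [hb, hb']
  obtain ⟨m, hm⟩ := (S.fix μ).1 hμτ
  have hm0 : m ≠ 0 := by rintro rfl; rw [map_zero] at hm; exact hμ0 hm.symm
  have hmσ : C₀.σ m = m := ι.injective (by rw [← S.conj, hm, hμ, map_mul, C.invol, mul_comm])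
  obtain ⟨w, hw0, hw⟩ := CfsgLib.Hermitian.exists_norm C₀.ne_id C₀.invol hm0 hmσ
  have hιw : ι w ≠ 0 := (map_ne_zero ι).2 hw0
  have hb1 : ((b : F) / ι w) * C.σ ((b : F) / ι w) = 1 := by
    rw [map_div₀, S.conj, div_mul_div_comm, ← hμ, ← hm, ← map_mul, mul_comm w, hw, div_self]
    exact fun h => hm0 (ι.injective (h.trans (map_zero ι).symm))
  refine ⟨⟨Units.mk0 _ (div_ne_zero b.ne_zero hιw), mem_N1.2 (by rw [← C.pow]; exact hb1)⟩, ?_⟩
  change (a.1 : F) * τ ((b : F) / ι w) = (b : F) / ι w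
  rw [map_div₀, (S.fix _).2 ⟨w, rfl⟩, ← mul_div_assoc, hb]

/-- The norm is surjective onto the fixed elements of norm one. -/
theorem exists_norm_N1 (S : Sub C C₀ τ ι) {c : N1 F q} (hc : τ (c.1 : F) = (c.1 : F)) :
    ∃ b : N1 F q, CfsgLib.AutPSL.normHom τ (orderOf τ) b.1 = c.1 := by
  set r := orderOf τ with hr
  have hmem : ∀ (φ : Fˣ →* Fˣ) (x : N1 F q), φ x.1 ∈ N1 F q := fun φ x => by
    have h : x.1 ^ (q + 1) = 1 := x.2
    change (φ x.1) ^ (q + 1) = 1
    rw [← map_pow, h, map_one]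
  let s : N1 F q →* N1 F q :=
    ((Units.map (τ : F →* F)).comp (N1 F q).subtype).codRestrict _ fun x => hmem (Units.map (τ : F →* F)) x
  let N : N1 F q →* N1 F q :=
    ((CfsgLib.AutPSL.normHom τ r).comp (N1 F q).subtype).codRestrict _ fun x => hmem _ x
  let ψ : N1 F q →* N1 F q := MonoidHom.mk' (fun x => x / s x) fun x y => by rw [map_mul, mul_div_mul_comm]
  have h1 : N.ker ≤ ψ.range := by
    intro a ha
    obtain ⟨b, hb⟩ := exists_twist S (a := a) (congrArg Subtype.val (MonoidHom.mem_ker.1 ha))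
    refine ⟨b, ?_⟩
    simp only [ψ, MonoidHom.mk'_apply, div_eq_iff_eq_mul]
    exact Subtype.ext (Units.ext hb.symm)
  have h2 : N.range ≤ ψ.ker := by
    rintro _ ⟨a, rfl⟩
    simp only [ψ, MonoidHom.mem_ker, MonoidHom.mk'_apply, div_eq_one]
    refine Subtype.ext (Units.ext ?_)
    change (CfsgLib.AutPSL.normHom τ r a.1 : F) = τ (CfsgLib.AutPSL.normHom τ r a.1 : F)
    haveI : Finite (RingAut F) := Finite.of_injective (fun τ => ⇑τ) DFunLike.coe_injective
    have hr0 : 0 < r := hr ▸ (isOfFinOrder_of_finite τ).orderOf_pos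
    rw [CfsgLib.AutPSL.normHom_val, map_prod]
    have e : ∀ i, τ ((τ ^ i) (a.1 : F)) = (τ ^ (i + 1)) (a.1 : F) := fun i => by
      rw [pow_succ', RingAut.mul_apply]
    simp only [e]
    obtain ⟨m, hm⟩ : ∃ m, r = m + 1 := ⟨r - 1, by omega⟩
    have h2 : τ ^ (m + 1) = 1 := by rw [← hm, hr]; exact pow_orderOf_eq_one τ
    rw [hm]
    conv_rhs => rw [Finset.prod_range_succ]
    rw [Finset.prod_range_succ' (fun i => (τ ^ i) (a.1 : F)), h2, pow_zero]
  have hc' : c ∈ ψ.ker := by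
    simp only [ψ, MonoidHom.mem_ker, MonoidHom.mk'_apply, div_eq_one]
    exact Subtype.ext (Units.ext hc.symm)
  rw [← range_eq_ker_of_le N ψ h1 h2] at hc'
  obtain ⟨b, hb⟩ := hc'
  exact ⟨b, congrArg Subtype.val hb⟩

theorem normSeqU_fixed_scalar (C : Conj F q) (hn : 3 ≤ n) (g : GU) (τ : RingAut F)
    (h : conjPSU (normSeqU g τ (orderOf τ)) = 1) :
    ∃ u : N1 F q, τ (u.1 : F) = (u.1 : F) ∧ normSeqU g τ (orderOf τ) = scalarGU C n u := by
  obtain ⟨u, hu⟩ := (conjPSU_eq_iff C hn).1 (h.trans (map_one _).symm)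
  rw [mul_one] at hu
  refine ⟨u, ?_, hu⟩
  have h1 := congrArg Units.val
    (CfsgLib.AutPSL.fieldGL_normSeq g.1 τ (pow_orderOf_eq_one τ))
  rw [← normSeqU_coe, hu] at h1
  have hc : g.1⁻¹ * (scalarGU C n u).1 * g.1 = (scalarGU C n u).1 := by
    refine Units.ext ?_
    rw [Units.val_mul, Units.val_mul, scalarGU_val, Matrix.mul_smul, Matrix.mul_one, Matrix.smul_mul,
      ← Units.val_mul, inv_mul_cancel, Units.val_one]
  rw [hc] at h1
  let i₀ : Fin n := ⟨0, by omega⟩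
  have h2 := congrFun (congrFun h1 i₀) i₀
  change τ ((mg (scalarGU C n u)) i₀ i₀) = (mg (scalarGU C n u)) i₀ i₀ at h2
  rw [scalarGU_val] at h2
  simpa using h2

/-- Lang's theorem for a field automorphism of odd order. -/
theorem exists_conj_field (S : Sub C C₀ τ ι) (hn : 3 ≤ n) (g : GU)
    (h : (conjPSU g * fieldPSU τ) ^ orderOf τ = 1) :
    ∃ k : GU, conjPSU g * fieldPSU τ = conjPSU k * fieldPSU τ * (conjPSU k)⁻¹ := by
  rw [pow_conj_mul_field, pow_orderOf_eq_one, map_one, mul_one] at h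
  obtain ⟨u, hu, hN⟩ := normSeqU_fixed_scalar C hn g τ h
  obtain ⟨b, hb⟩ := exists_norm_N1 S hu
  set g' := scalarGU C n b⁻¹ * g with hg'
  have hN' : normSeqU g' τ (orderOf τ) = 1 := by
    refine Subtype.ext ?_
    rw [normSeqU_coe, hg', Subgroup.coe_mul, scalarGU_coe, CfsgLib.AutPSL.normSeq_mul_scalar, Subgroup.coe_inv,
      map_inv (CfsgLib.AutPSL.normHom τ _), hb, ← normSeqU_coe, hN, scalarGU_coe, ← map_mul, inv_mul_cancel,
      map_one]
    rfl
  obtain ⟨k, hk⟩ := exists_unitary_coboundary S g' hN'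
  refine ⟨k, ?_⟩
  have hgg : conjPSU g = conjPSU g' := by rw [hg', map_mul, conjPSU_scalarGU, one_mul]
  rw [hgg, hk, map_mul, map_inv, mul_assoc, mul_assoc, mul_right_inj, inv_mul_eq_iff_eq_mul, ← mul_assoc,
    eq_mul_inv_iff_mul_eq, fieldPSU_mul_conjPSU]

theorem commute_fieldPSU_iff (C : Conj F q) (hn : 3 ≤ n) (g : GU) (τ : RingAut F) :
    conjPSU g * fieldPSU τ = fieldPSU τ * conjPSU g ↔
      ∃ u : N1 F q, fieldGU τ g = scalarGU C n u * g := by
  rw [fieldPSU_mul_conjPSU, mul_left_inj, eq_comm, conjPSU_eq_iff C hn]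

/-- An element centralising the field automorphism comes from the fixed field. -/
theorem exists_descend_of_commute (S : Sub C C₀ τ ι) (hn : 3 ≤ n) {g : GU}
    (h : conjPSU g * fieldPSU τ = fieldPSU τ * conjPSU g) :
    ∃ g₀ : Cfsg.GU n F₀ q₀, conjPSU g = conjPSU (mapGU S n g₀) := by
  obtain ⟨u, hu⟩ := (commute_fieldPSU_iff C hn g τ).1 h
  have hpow : ∀ k : ℕ, CfsgLib.AutPSL.fieldGL (τ ^ k) g.1 =
      GeneralLinearGroup.scalar (Fin n) (CfsgLib.AutPSL.normHom τ k u.1) * g.1 := by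
    intro k
    induction k with
    | zero => rw [pow_zero, CfsgLib.AutPSL.fieldGL_one]; simp [CfsgLib.AutPSL.normHom]
    | succ k ih =>
      have h2 : CfsgLib.AutPSL.fieldGL τ (GeneralLinearGroup.scalar (Fin n) (CfsgLib.AutPSL.normHom τ k u.1)) *
          GeneralLinearGroup.scalar (Fin n) u.1 =
          GeneralLinearGroup.scalar (Fin n) (CfsgLib.AutPSL.normHom τ (k + 1) u.1) := by
        rw [← CfsgLib.AutPSL.normSeq_scalar τ u.1 (k + 1), CfsgLib.AutPSL.normSeq,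
          CfsgLib.AutPSL.normSeq_scalar]
        refine Units.ext (Matrix.ext fun i j => ?_)
        rcases eq_or_ne i j with rfl | hij
        · simp [GeneralLinearGroup.scalar, CfsgLib.AutPSL.fieldGL, Matrix.mul_diagonal, mul_comm]
        · simp [GeneralLinearGroup.scalar, CfsgLib.AutPSL.fieldGL, Matrix.mul_diagonal, hij]
      rw [pow_succ', CfsgLib.AutPSL.fieldGL_mul, ih, map_mul,
        show CfsgLib.AutPSL.fieldGL τ g.1 = GeneralLinearGroup.scalar (Fin n) u.1 * g.1 from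
          congrArg Subtype.val hu, ← mul_assoc, h2]
  have hNu : CfsgLib.AutPSL.normHom τ (orderOf τ) u.1 = 1 := by
    have h1 := hpow (orderOf τ)
    rw [pow_orderOf_eq_one, CfsgLib.AutPSL.fieldGL_one, right_eq_mul] at h1
    have h2 : (GeneralLinearGroup.scalar (Fin n) (CfsgLib.AutPSL.normHom τ (orderOf τ) u.1)).1
        ⟨0, by omega⟩ ⟨0, by omega⟩ = (1 : Matrix (Fin n) (Fin n) F) ⟨0, by omega⟩ ⟨0, by omega⟩ := by rw [h1]; rfl
    exact Units.ext (by simpa [GeneralLinearGroup.scalar] using h2)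
  obtain ⟨b, hb⟩ := exists_twist S hNu
  have hfix : fieldGU τ (scalarGU C n b * g) = scalarGU C n b * g := by
    refine Subtype.ext (Units.ext (Matrix.ext fun i j => ?_))
    have e : τ ((mg g) i j) = (u.1 : F) * (mg g) i j := by
      have := congrFun (congrFun (congrArg (fun x : GU => mg x) hu) i) j
      rw [fieldGU_val, GU_coe_mul, scalarGU_val, Matrix.smul_mul, Matrix.one_mul] at this
      simpa using this
    rw [fieldGU_val, GU_coe_mul, scalarGU_val, Matrix.smul_mul, Matrix.one_mul]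
    simp only [Matrix.map_apply, Matrix.smul_apply, smul_eq_mul, map_mul, e]
    linear_combination ((mg g) i j) * hb
  obtain ⟨g₀, hg₀⟩ := exists_mapGU_eq S hfix
  exact ⟨g₀, by rw [hg₀, map_mul, conjPSU_scalarGU, one_mul]⟩

/-- The centraliser of a standard field automorphism of odd order. -/
theorem centralizer_equiv (S : Sub C C₀ τ ι) (hn : 3 ≤ n) :
    Nonempty (↥((conjPSU (F := F) (n := n) (q := q)).range ⊓ Subgroup.centralizer {fieldPSU τ}) ≃*
      Cfsg.PGU n F₀ q₀) := by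
  let ψ : Cfsg.GU n F₀ q₀ →*
      ↥((conjPSU (F := F) (n := n) (q := q)).range ⊓ Subgroup.centralizer {fieldPSU τ}) :=
    (conjPSU.comp (mapGU S n)).codRestrict _ fun g => ⟨⟨_, rfl⟩, Subgroup.mem_centralizer_singleton_iff.mpr
      ((commute_fieldPSU_iff C hn _ τ).2 ⟨1, by rw [map_one, one_mul, fieldGU_mapGU]⟩)⟩
  have hs : Function.Surjective ψ := by
    rintro ⟨_, ⟨g, rfl⟩, hg⟩
    obtain ⟨g₀, e⟩ := exists_descend_of_commute S hn (Subgroup.mem_centralizer_singleton_iff.mp hg)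
    exact ⟨g₀, Subtype.ext e.symm⟩
  have hk : ψ.ker = (Cfsg.Geo.scalars (Fin n) F₀).subgroupOf (Cfsg.GU n F₀ q₀) := by
    ext g
    rw [MonoidHom.mem_ker, Subtype.ext_iff, Subgroup.mem_subgroupOf, Cfsg.Geo.mem_scalars_iff]
    change conjPSU (mapGU S n g) = 1 ↔ _
    rw [conjPSU_eq_one_iff C hn]
    constructor
    · rintro ⟨a, ha⟩
      have he : ∀ i k, ι (g.1.1 i k) = (a • (1 : Matrix (Fin n) (Fin n) F)) i k := fun i k =>
        congrFun (congrFun ha i) k
      let i₀ : Fin n := ⟨0, by omega⟩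
      have hg : g.1.1 = g.1.1 i₀ i₀ • (1 : Matrix (Fin n) (Fin n) F₀) := by
        ext i k
        apply ι.injective
        rw [he, Matrix.smul_apply, Matrix.smul_apply, smul_eq_mul, smul_eq_mul, map_mul, he]
        simp only [Matrix.one_apply, Matrix.smul_apply, smul_eq_mul]
        split_ifs <;> simp
      have h0 : g.1.1 i₀ i₀ ≠ 0 := by
        intro h0
        rw [h0, zero_smul] at hg
        haveI : Nonempty (Fin n) := ⟨i₀⟩
        exact g.1.det_ne_zero (by rw [hg, Matrix.det_zero])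
      exact ⟨Units.mk0 _ h0, hg⟩
    · rintro ⟨c, hc⟩
      refine ⟨ι (c : F₀), ?_⟩
      change ι.mapMatrix g.1.1 = _
      rw [hc]
      ext i k
      simp [Matrix.one_apply]
      try split_ifs <;> simp
  exact ⟨((QuotientGroup.quotientMulEquivOfEq hk.symm).trans
    (QuotientGroup.quotientKerEquivOfSurjective ψ hs)).symm⟩

/-- The determinant of `GU_n` onto the norm-one units. -/
def detU (C : Conj F q) (n : ℕ) : Cfsg.GU n F q →* N1 F q :=
  (GeneralLinearGroup.det.comp (Cfsg.GU n F q).subtype).codRestrict _ fun g => det_pow C g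

theorem detU_surjective (C : Conj F q) (hn : 1 ≤ n) : Function.Surjective (detU C n) := by
  intro u
  let i₀ : Fin n := ⟨0, hn⟩
  have hw : H (Pi.single i₀ 1 : Vn) (Pi.single i₀ 1) = 1 := by rw [form_single_right C]; simp
  have hu : (u.1 : F) * C.σ (u.1 : F) = 1 := by rw [C.pow]; exact mem_N1.1 u.2
  exact ⟨refl C hw hu, Subtype.ext (Units.ext (refl_det C hw hu))⟩

theorem detU_scalar (C : Conj F q) (u : N1 F q) : detU C n (scalarGU C n u) = u ^ n := by
  refine Subtype.ext (Units.ext ?_)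
  change (mg (scalarGU C n u)).det = _
  rw [scalarGU_val, Matrix.det_smul, Matrix.det_one, mul_one, Fintype.card_fin]
  simp

theorem conjPSU_mem_inn_iff (C : Conj F q) (hn : 3 ≤ n) (g : GU) :
    conjPSU g ∈ Cfsg.Inn PSU' ↔ detU C n g ∈ (powMonoidHom n : N1 F q →* N1 F q).range := by
  constructor
  · rintro ⟨x, hx⟩
    obtain ⟨s, rfl⟩ := proj_surjective x
    rw [← conjPSU_toGU] at hx
    obtain ⟨u, hu⟩ := (conjPSU_eq_iff C hn).1 hx.symm
    refine ⟨u, ?_⟩
    rw [hu, map_mul, detU_scalar, show detU C n (toGU n F q s) = 1 from Subtype.ext (Units.ext s.1.2),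
      mul_one]
    rfl
  · rintro ⟨u, hu⟩
    set g' := (scalarGU C n u)⁻¹ * g with hg'
    have hdet : (mg g').det = 1 := by
      have h : detU C n g' = 1 := by
        rw [hg', map_mul, map_inv, detU_scalar, ← hu]; exact inv_mul_cancel _
      exact congrArg Units.val (congrArg Subtype.val h)
    refine ⟨proj ⟨⟨mg g', hdet⟩, g'.2⟩, ?_⟩
    rw [← conjPSU_toGU, show toGU n F q ⟨⟨mg g', hdet⟩, g'.2⟩ = g' from Subtype.ext (Units.ext rfl),
      hg', map_mul, map_inv, conjPSU_scalarGU, inv_one, one_mul]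

theorem splitClassCount_field (S : Sub C C₀ τ ι) (hn : 3 ≤ n) [(Cfsg.Inn PSU').Normal] :
    Cfsg.splitClassCount (conjPSU (F := F) (n := n) (q := q)).range (Cfsg.Inn PSU') (fieldPSU τ) =
      Nat.gcd n ((q + 1) / (q₀ + 1)) := by
  classical
  have hn1 : 1 ≤ n := by omega
  let j : N1 F₀ q₀ →* N1 F q := ((Units.map (ι : F₀ →* F)).comp (N1 F₀ q₀).subtype).codRestrict _ fun x => by
    refine mem_N1.2 ?_
    change ι (x.1 : F₀) * ι (x.1 : F₀) ^ q = 1
    rw [← C.pow, S.conj, C₀.pow, ← map_mul, mem_N1.1 x.2, map_one]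
  have hj : Function.Injective j := fun a b e => Subtype.ext (Units.ext (ι.injective
    (congrArg Units.val (congrArg Subtype.val e))))
  have hB : Nat.card j.range = q₀ + 1 := by
    rw [← card_N1 C₀]
    exact (Nat.card_congr (MonoidHom.ofInjective hj).toEquiv).symm
  have hdvd : q₀ + 1 ∣ q + 1 := hB ▸ card_N1 C ▸ Subgroup.card_subgroup_dvd_card j.range
  have hjr : j.range = (powMonoidHom ((q + 1) / (q₀ + 1)) : N1 F q →* N1 F q).range := by
    rw [← card_N1 C, ← CfsgLib.AutPSL.ker_pow_eq_range (G := N1 F q) (card_N1 C ▸ hdvd)]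
    refine Subgroup.eq_of_le_of_card_ge ?_ ?_
    · rintro _ ⟨x, rfl⟩
      refine Subtype.ext (Units.ext ?_)
      have h := mem_N1.1 x.2
      rw [← pow_succ'] at h
      change (ι (x.1 : F₀)) ^ (q₀ + 1) = 1
      rw [← map_pow, h, map_one]
    · rw [IsCyclic.card_powMonoidHom_ker, card_N1 C, Nat.gcd_eq_right hdvd, hB]
  let P : Subgroup (N1 F q) := (powMonoidHom n : N1 F q →* N1 F q).range ⊔ j.range
  let π : GU →* N1 F q ⧸ P := (QuotientGroup.mk' P).comp (detU C n)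
  have hπ : (conjPSU (F := F) (n := n) (q := q)).rangeRestrict.ker ≤ π.ker := by
    intro g hg
    rw [MonoidHom.ker_rangeRestrict, MonoidHom.mem_ker] at hg
    obtain ⟨u, hu⟩ := (conjPSU_eq_iff C hn).1 (hg.trans (map_one _).symm)
    rw [mul_one] at hu
    exact (QuotientGroup.eq_one_iff _).mpr (Subgroup.mem_sup_left ⟨u, by rw [hu, detU_scalar]; rfl⟩)
  let θ := MonoidHom.liftOfSurjective (conjPSU (F := F) (n := n) (q := q)).rangeRestrict
    (MonoidHom.rangeRestrict_surjective _) ⟨π, hπ⟩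
  have hθ : ∀ g, θ ((conjPSU (F := F) (n := n) (q := q)).rangeRestrict g) = π g := fun g =>
    MonoidHom.liftOfRightInverse_comp_apply _ _ (Function.rightInverse_surjInv _) ⟨π, hπ⟩ g
  have hmap : ∀ g₀ : Cfsg.GU n F₀ q₀, detU C n (mapGU S n g₀) = j (detU C₀ n g₀) := fun g₀ =>
    Subtype.ext (Units.ext (RingHom.map_det ι g₀.1.1).symm)
  have hcomm : ∀ g₀ : Cfsg.GU n F₀ q₀,
      conjPSU (mapGU S n g₀) * fieldPSU τ = fieldPSU τ * conjPSU (mapGU S n g₀) := fun g₀ =>
    (commute_fieldPSU_iff C hn _ τ).2 ⟨1, by rw [map_one, one_mul, fieldGU_mapGU]⟩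
  rw [CfsgLib.AutPSL.splitClassCount_eq_card (A := N1 F q ⧸ P) _ _ _ inn_le_range θ ?_ ?_]
  · rw [← Subgroup.index_eq_card]
    change ((powMonoidHom n : N1 F q →* N1 F q).range ⊔ j.range).index = _
    rw [hjr, CfsgLib.AutPSL.cyclic_range_pow_sup, IsCyclic.index_powMonoidHom_range, card_N1 C]
    exact Nat.gcd_eq_right ((Nat.gcd_dvd_right _ _).trans (Nat.div_dvd_of_dvd hdvd))
  · intro a
    obtain ⟨a, rfl⟩ := QuotientGroup.mk_surjective a
    obtain ⟨g, rfl⟩ := detU_surjective (n := n) C hn1 a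
    exact ⟨_, hθ g⟩
  · intro h
    obtain ⟨g, rfl⟩ := MonoidHom.rangeRestrict_surjective _ h
    rw [hθ]
    constructor
    · intro hg
      obtain ⟨u, hu, v, ⟨b, rfl⟩, huv⟩ := Subgroup.mem_sup.mp ((QuotientGroup.eq_one_iff _).mp hg)
      obtain ⟨g₀, rfl⟩ := detU_surjective (n := n) C₀ hn1 b
      have hk : conjPSU (g * (mapGU S n g₀)⁻¹) ∈ Cfsg.Inn PSU' := by
        rw [conjPSU_mem_inn_iff C hn, map_mul, map_inv, hmap, ← huv, mul_inv_cancel_right]
        exact hu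
      refine ⟨_, hk, conjPSU (mapGU S n g₀), ⟨⟨_, rfl⟩,
        Subgroup.mem_centralizer_singleton_iff.mpr (hcomm g₀)⟩, ?_⟩
      rw [← map_mul, inv_mul_cancel_right]
      rfl
    · rintro ⟨_, ⟨y, rfl⟩, _, ⟨⟨g₁, rfl⟩, hc⟩, e⟩
      obtain ⟨s, rfl⟩ := proj_surjective y
      obtain ⟨g₀, hg₁⟩ := exists_descend_of_commute S hn (Subgroup.mem_centralizer_singleton_iff.mp hc)
      rw [hg₁, ← conjPSU_toGU, ← map_mul] at e
      rw [← hθ, show (conjPSU (F := F) (n := n) (q := q)).rangeRestrict g =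
        (conjPSU (F := F) (n := n) (q := q)).rangeRestrict (toGU n F q s * mapGU S n g₀) from Subtype.ext e,
        hθ]
      refine (QuotientGroup.eq_one_iff _).mpr ?_
      rw [map_mul, hmap, show detU C n (toGU n F q s) = 1 from Subtype.ext (Units.ext s.1.2), one_mul]
      exact Subgroup.mem_sup_right ⟨_, rfl⟩

theorem orderOf_of_isFieldAutClass (C : Conj F q) (hn : 3 ≤ n) {x : MulAut PSU'} {α : MulAut PSU'}
    {τ : RingAut F} (h : α * x * α⁻¹ = fieldPSU τ) : orderOf τ = orderOf x := by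
  rw [← orderOf_injective _ (fieldPSU_injective (n := n) C hn) τ, ← h]
  exact orderOf_injective (MulAut.conj α).toMonoidHom (MulAut.conj α).injective x

end CfsgLib.AutPSU
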