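import Cfsg.Agent.AutPSU.Points
set_option autoImplicit false

/-!
A hyperbolic pair, its orthogonal complement, Eichler coordinates and torus elements.
-/

namespace CfsgLib.AutPSU

open Matrix
open CfsgLib.UGeom

variable {F : Type*} [Field F] [Fintype F] {q n : ℕ}

local notation "H" => Cfsg.hermForm n F q
local notation "Vn" => (Fin n → F)
local notation "SU" => Cfsg.SU n F q
local notation "GU" => Cfsg.GU n F q
local notation "PSU'" => Cfsg.PSU n F q
local notation "mg" A:max => (((A : GU) : GL (Fin n) F) : Matrix (Fin n) (Fin n) F)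
local notation "mat" A:max => (((A : SU) : Matrix.SpecialLinearGroup (Fin n) F) : Matrix (Fin n) (Fin n) F)

/-- A hyperbolic pair. -/
structure Frame (C : Conj F q) (n : ℕ) where
  /-- first vector -/
  e : Fin n → F
  /-- second vector -/
  f : Fin n → F
  ee : Cfsg.hermForm n F q e e = 0
  ff : Cfsg.hermForm n F q f f = 0
  fe : Cfsg.hermForm n F q f e = 1

variable {C : Conj F q}

theorem exists_frame (C : Conj F q) (hn : 3 ≤ n) : Nonempty (Frame C n) := by
  obtain ⟨u, r, hu, hr, hru⟩ := exists_iso_pair C hn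
  exact ⟨⟨u, r, hu, hr, hru⟩⟩

namespace Frame

theorem ef (X : Frame C n) : H X.e X.f = 1 := form_swap_one C X.fe

theorem e_ne (X : Frame C n) : X.e ≠ 0 := fun h => by
  have := X.fe; rw [h, form_zero_right C] at this; exact zero_ne_one this

theorem f_ne (X : Frame C n) : X.f ≠ 0 := fun h => by
  have := X.fe; rw [h, form_zero_left] at this; exact zero_ne_one this

/-- The orthogonal complement of the pair. -/
def W (X : Frame C n) : Submodule F Vn where
  carrier := {x | H x X.e = 0 ∧ H x X.f = 0}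
  zero_mem' := ⟨form_zero_left _, form_zero_left _⟩
  add_mem' ha hb := ⟨by rw [form_add_left, ha.1, hb.1, add_zero], by rw [form_add_left, ha.2, hb.2, add_zero]⟩
  smul_mem' c _ hx := ⟨by rw [form_smul_left, hx.1, mul_zero], by rw [form_smul_left, hx.2, mul_zero]⟩

theorem mem_W (X : Frame C n) {x : Vn} : x ∈ X.W ↔ H x X.e = 0 ∧ H x X.f = 0 := Iff.rfl

theorem e_left (X : Frame C n) {x : Vn} (hx : x ∈ X.W) : H X.e x = 0 := form_swap_zero C hx.1

theorem f_left (X : Frame C n) {x : Vn} (hx : x ∈ X.W) : H X.f x = 0 := form_swap_zero C hx.2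

/-- The projection to the complement. -/
def prj (X : Frame C n) : Vn →ₗ[F] Vn where
  toFun x := x - H x X.f • X.e - H x X.e • X.f
  map_add' a b := by rw [form_add_left, form_add_left, add_smul, add_smul]; abel
  map_smul' c a := by
    rw [form_smul_left, form_smul_left, RingHom.id_apply, smul_sub, smul_sub, smul_smul, smul_smul]

theorem prj_apply (X : Frame C n) (x : Vn) : X.prj x = x - H x X.f • X.e - H x X.e • X.f := rfl

theorem prj_mem (X : Frame C n) (x : Vn) : X.prj x ∈ X.W := by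
  refine ⟨?_, ?_⟩ <;>
  · rw [prj_apply, form_sub_left, form_sub_left, form_smul_left, form_smul_left]
    first
      | rw [X.ee, X.fe]; ring
      | rw [X.ef, X.ff]; ring

theorem decomp (X : Frame C n) (x : Vn) : x = H x X.f • X.e + H x X.e • X.f + X.prj x := by
  rw [prj_apply]; abel

theorem prj_of_mem (X : Frame C n) {x : Vn} (hx : x ∈ X.W) : X.prj x = x := by
  rw [prj_apply, hx.1, hx.2, zero_smul, zero_smul, sub_zero, sub_zero]

theorem prj_e (X : Frame C n) : X.prj X.e = 0 := by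
  rw [prj_apply, X.ee, X.ef, one_smul, zero_smul, sub_self, sub_zero]

theorem prj_f (X : Frame C n) : X.prj X.f = 0 := by
  rw [prj_apply, X.ff, X.fe, one_smul, zero_smul, sub_zero, sub_self]

theorem form_prj_left (X : Frame C n) (x : Vn) {w : Vn} (hw : w ∈ X.W) :
    H (X.prj x) w = H x w := by
  rw [prj_apply, form_sub_left, form_sub_left, form_smul_left, form_smul_left, X.e_left hw,
    X.f_left hw]; ring

theorem form_prj_right (X : Frame C n) (x : Vn) {w : Vn} (hw : w ∈ X.W) :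
    H w (X.prj x) = H w x := by
  rw [← form_conj C, form_prj_left X x hw, form_conj C]

theorem ext_frame (X : Frame C n) {A B : Matrix (Fin n) (Fin n) F} (he : A *ᵥ X.e = B *ᵥ X.e)
    (hf : A *ᵥ X.f = B *ᵥ X.f) (hW : ∀ x ∈ X.W, A *ᵥ x = B *ᵥ x) : A = B := by
  refine Matrix.ext_iff_mulVec.2 fun x => ?_
  rw [X.decomp x]
  simp only [Matrix.mulVec_add, Matrix.mulVec_smul, he, hf, hW _ (X.prj_mem x)]

theorem ext_SU (X : Frame C n) {A B : SU} (he : mat A *ᵥ X.e = mat B *ᵥ X.e)
    (hf : mat A *ᵥ X.f = mat B *ᵥ X.f) (hW : ∀ x ∈ X.W, mat A *ᵥ x = mat B *ᵥ x) : A = B :=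
  Subtype.ext (Subtype.ext (X.ext_frame he hf hW))

/-- Eichler elements at `e` with parameters in the complement. -/
def E (X : Frame C n) (z : Vn) (hz : z ∈ X.W) (a : F) (ha : a + C.σ a + H z z = 0) : SU :=
  eich C X.e z a X.ee hz.1 ha

theorem E_e (X : Frame C n) {z : Vn} (hz : z ∈ X.W) {a : F} (ha : a + C.σ a + H z z = 0) :
    mat (X.E z hz a ha) *ᵥ X.e = X.e := by
  rw [E, eich_mulVec, X.ee, X.e_left hz]; module

theorem E_f (X : Frame C n) {z : Vn} (hz : z ∈ X.W) {a : F} (ha : a + C.σ a + H z z = 0) :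
    mat (X.E z hz a ha) *ᵥ X.f = X.f + z + a • X.e := by
  rw [E, eich_mulVec, X.fe, X.f_left hz]; module

theorem E_W (X : Frame C n) {z : Vn} (hz : z ∈ X.W) {a : F} (ha : a + C.σ a + H z z = 0)
    {x : Vn} (hx : x ∈ X.W) : mat (X.E z hz a ha) *ᵥ x = x - H x z • X.e := by
  rw [E, eich_mulVec, hx.1]; module

theorem E_mem_Qsub (X : Frame C n) {z : Vn} (hz : z ∈ X.W) {a : F} (ha : a + C.σ a + H z z = 0) :
    X.E z hz a ha ∈ Qsub q X.e := eich_mem_Qsub C _ _ _ _ _ _

theorem exists_eich_coord (C : Conj F q) (z : Vn) : ∃ a : F, a + C.σ a + H z z = 0 := by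
  obtain ⟨t, ht⟩ := exists_trace_one C
  exact ⟨-(t * H z z), by rw [map_neg, map_mul, form_conj C]; linear_combination -(H z z) * ht⟩

theorem coord_add (C : Conj F q) {z z' : Vn} {a a' : F} (ha : a + C.σ a + H z z = 0)
    (ha' : a' + C.σ a' + H z' z' = 0) :
    (a + a' - H z' z) + C.σ (a + a' - H z' z) + H (z + z') (z + z') = 0 := by
  rw [map_sub, map_add, form_conj C, form_add_left, form_add_right C, form_add_right C]
  linear_combination ha + ha'

theorem E_mul (X : Frame C n) {z z' : Vn} (hz : z ∈ X.W) (hz' : z' ∈ X.W) {a a' : F}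
    (ha : a + C.σ a + H z z = 0) (ha' : a' + C.σ a' + H z' z' = 0) :
    X.E z hz a ha * X.E z' hz' a' ha' =
      X.E (z + z') (add_mem hz hz') (a + a' - H z' z) (coord_add C ha ha') := by
  refine X.ext_SU ?_ ?_ fun x hx => ?_
  · rw [mul_mulVec', E_e, E_e, E_e]
  · rw [mul_mulVec', E_f, E_f, Matrix.mulVec_add, Matrix.mulVec_add, Matrix.mulVec_smul, E_f,
      E_W _ hz _ hz', E_e]
    module
  · rw [mul_mulVec', E_W _ hz' _ hx, Matrix.mulVec_sub, Matrix.mulVec_smul, E_W _ hz _ hx, E_e,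
      E_W _ _ _ hx, form_add_right C]
    module

theorem E_inj (X : Frame C n) {z z' : Vn} {hz : z ∈ X.W} {hz' : z' ∈ X.W} {a a' : F}
    {ha : a + C.σ a + H z z = 0} {ha' : a' + C.σ a' + H z' z' = 0}
    (h : X.E z hz a ha = X.E z' hz' a' ha') : z = z' ∧ a = a' := by
  have h1 := congrArg (fun A : SU => mat A *ᵥ X.f) h
  simp only [E_f] at h1
  have h2 : z = z' := by
    have := congrArg X.prj h1
    simpa [map_add, map_smul, X.prj_f, X.prj_e, X.prj_of_mem hz, X.prj_of_mem hz'] using this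
  subst h2
  exact ⟨rfl, smul_left_injective F X.e_ne (add_left_cancel h1)⟩

theorem E_congr (X : Frame C n) {z z' : Vn} {hz : z ∈ X.W} {hz' : z' ∈ X.W} {a a' : F}
    {ha : a + C.σ a + H z z = 0} {ha' : a' + C.σ a' + H z' z' = 0} (e1 : z = z') (e2 : a = a') :
    X.E z hz a ha = X.E z' hz' a' ha' := by subst e1; subst e2; rfl

theorem utv_coord {c : F} (hc : c + C.σ c = 0) : c + C.σ c + H (0 : Vn) 0 = 0 := by
  rw [form_zero_left, add_zero]; exact hc

theorem E_zero (X : Frame C n) {c : F} (hc : c + C.σ c = 0) :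
    X.E 0 X.W.zero_mem c (utv_coord hc) = utv C X.e c X.ee hc := by
  refine SU_ext fun x => ?_
  rw [E, eich_mulVec, utv_mulVec, form_zero_right C]
  module

theorem exists_E_of_mem (X : Frame C n) {A : SU} (hA : A ∈ Qsub q X.e) :
    ∃ (z : Vn) (hz : z ∈ X.W) (a : F) (ha : a + C.σ a + H z z = 0), A = X.E z hz a ha := by
  obtain ⟨hA1, hA2⟩ := hA
  set z := X.prj (mat A *ᵥ X.f) with hzd
  set a := H (mat A *ᵥ X.f) X.f with had
  have hz : z ∈ X.W := X.prj_mem _
  have hAe : H (mat A *ᵥ X.f) X.e = 1 := by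
    conv_lhs => rw [← hA1]
    rw [SU_form A, X.fe]
  have hAf : mat A *ᵥ X.f = X.f + z + a • X.e := by
    conv_lhs => rw [X.decomp (mat A *ᵥ X.f)]
    rw [hAe, one_smul]; abel
  have ha : a + C.σ a + H z z = 0 := by
    have h := SU_form A X.f X.f
    rw [hAf] at h
    simp only [form_add_left, form_add_right C, form_smul_left, form_smul_right C, X.ff, X.fe,
      X.ef, X.ee, hz.1, hz.2, X.e_left hz, X.f_left hz] at h
    linear_combination h
  refine ⟨z, hz, a, ha, X.ext_SU ?_ ?_ fun x hx => ?_⟩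
  · rw [E_e, hA1]
  · rw [E_f, hAf]
  · obtain ⟨k, hk⟩ := hA2 x hx.1
    have h := SU_form A x X.f
    rw [hk, hAf] at h
    simp only [form_add_left, form_add_right C, form_smul_left, form_smul_right C, X.ef, X.ee,
      hx.1, hx.2, X.e_left hz] at h
    rw [E_W _ hz ha hx, hk, show k = -H x z by linear_combination h]
    module

/-! ### Torus elements -/

/-- `e ↦ l e`, `f ↦ f / σ l`. -/
def dilMat (X : Frame C n) (l : F) : Matrix (Fin n) (Fin n) F :=
  rankOne ((l - 1) • X.e) X.f q * rankOne (((C.σ l)⁻¹ - 1) • X.f) X.e q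

theorem dilMat_mulVec (X : Frame C n) (l : F) (x : Vn) :
    dilMat X l *ᵥ x = x + (((C.σ l)⁻¹ - 1) * H x X.e) • X.f + ((l - 1) * H x X.f) • X.e := by
  rw [dilMat, ← Matrix.mulVec_mulVec]
  simp only [rankOne_mulVec, form_add_left, form_smul_left, X.ff]
  module

theorem dilMat_det (X : Frame C n) (l : F) : (dilMat X l).det = l * (C.σ l)⁻¹ := by
  rw [dilMat, Matrix.det_mul, rankOne_det, rankOne_det, form_smul_left, form_smul_left, X.ef, X.fe]
  ring

/-- The dilation as an element of `GU`. -/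
noncomputable def dil (X : Frame C n) {l : F} (hl : l ≠ 0) : GU :=
  ⟨GeneralLinearGroup.mkOfDetNeZero (dilMat X l) (by
      rw [dilMat_det]; exact mul_ne_zero hl (inv_ne_zero ((map_ne_zero C.σ).2 hl))),
    fun x y => by
      change H (dilMat X l *ᵥ x) (dilMat X l *ᵥ y) = H x y
      have hs : C.σ l ≠ 0 := (map_ne_zero C.σ).2 hl
      simp only [dilMat_mulVec, form_add_left, form_add_right C, form_smul_left, form_smul_right C,
        X.ee, X.ff, X.ef, X.fe, map_mul, map_sub, map_inv₀, map_one, C.invol, form_conj C]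
      field_simp
      ring⟩

theorem dil_mulVec (X : Frame C n) {l : F} (hl : l ≠ 0) (x : Vn) :
    mg (X.dil hl) *ᵥ x = x + (((C.σ l)⁻¹ - 1) * H x X.e) • X.f + ((l - 1) * H x X.f) • X.e :=
  dilMat_mulVec X l x

theorem dil_det (X : Frame C n) {l : F} (hl : l ≠ 0) : (mg (X.dil hl)).det = l * (C.σ l)⁻¹ :=
  dilMat_det X l

theorem dil_e (X : Frame C n) {l : F} (hl : l ≠ 0) : mg (X.dil hl) *ᵥ X.e = l • X.e := by
  rw [dil_mulVec, X.ee, X.ef]; module

theorem dil_f (X : Frame C n) {l : F} (hl : l ≠ 0) : mg (X.dil hl) *ᵥ X.f = (C.σ l)⁻¹ • X.f := by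
  rw [dil_mulVec, X.fe, X.ff]; module

theorem dil_W (X : Frame C n) {l : F} (hl : l ≠ 0) {x : Vn} (hx : x ∈ X.W) :
    mg (X.dil hl) *ᵥ x = x := by
  rw [dil_mulVec, hx.1, hx.2]; module

/-- An element of `GU` of determinant one, in `SU`. -/
def ofDetOne (g : GU) (h : (mg g).det = 1) : SU := ⟨⟨mg g, h⟩, g.2⟩

omit [Fintype F] in
theorem ofDetOne_val (g : GU) (h : (mg g).det = 1) : mat (ofDetOne g h) = mg g := rfl

/-- `A` has eigenvectors `e` and `f`. -/
def IsTor (X : Frame C n) (A : SU) (l : F) : Prop :=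
  l ≠ 0 ∧ mat A *ᵥ X.e = l • X.e ∧ mat A *ᵥ X.f = (C.σ l)⁻¹ • X.f

theorem IsTor.inv {X : Frame C n} {A : SU} {l : F} (h : X.IsTor A l) : X.IsTor A⁻¹ l⁻¹ := by
  obtain ⟨hl, he, hf⟩ := h
  refine ⟨inv_ne_zero hl, inv_mulVec_eigen hl he, ?_⟩
  rw [inv_mulVec_eigen (inv_ne_zero ((map_ne_zero C.σ).2 hl)) hf, map_inv₀]

theorem IsTor.mapsTo {X : Frame C n} {A : SU} {l : F} (h : X.IsTor A l) {x : Vn} (hx : x ∈ X.W) :
    mat A *ᵥ x ∈ X.W := by
  obtain ⟨hl, he, hf⟩ := h
  have h1 := SU_form A x X.e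
  have h2 := SU_form A x X.f
  rw [he, form_smul_right C, hx.1] at h1
  rw [hf, form_smul_right C, hx.2] at h2
  exact ⟨(mul_eq_zero.1 h1).resolve_left ((map_ne_zero C.σ).2 hl),
    (mul_eq_zero.1 h2).resolve_left ((map_ne_zero C.σ).2 (inv_ne_zero ((map_ne_zero C.σ).2 hl)))⟩

theorem IsTor.coord {X : Frame C n} {A : SU} {l : F} (h : X.IsTor A l) {z : Vn}
    {a : F} (ha : a + C.σ a + H z z = 0) :
    (C.σ l * l * a) + C.σ (C.σ l * l * a) + H (C.σ l • (mat A *ᵥ z)) (C.σ l • (mat A *ᵥ z)) = 0 := by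
  rw [form_smul_left, form_smul_right C, SU_form A, map_mul, map_mul, C.invol]
  linear_combination (C.σ l * l) * ha

/-- Torus elements act on the Eichler coordinates. -/
theorem IsTor.conj_E {X : Frame C n} {A : SU} {l : F} (h : X.IsTor A l) {z : Vn} (hz : z ∈ X.W)
    {a : F} (ha : a + C.σ a + H z z = 0) :
    A * X.E z hz a ha * A⁻¹ =
      X.E (C.σ l • (mat A *ᵥ z)) (X.W.smul_mem _ (h.mapsTo hz)) (C.σ l * l * a) (h.coord ha) := by
  generalize_proofs pz pa pz' pa'
  have hi := h.inv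
  obtain ⟨hl, he, hf⟩ := h
  have hs : C.σ l ≠ 0 := (map_ne_zero C.σ).2 hl
  refine X.ext_SU ?_ ?_ fun x hx => ?_
  · rw [mul_mulVec', mul_mulVec', hi.2.1, Matrix.mulVec_smul, E_e, Matrix.mulVec_smul, he,
      smul_smul, inv_mul_cancel₀ hl, one_smul, E_e]
  · rw [mul_mulVec', mul_mulVec', hi.2.2, map_inv₀, inv_inv, Matrix.mulVec_smul, E_f,
      Matrix.mulVec_smul, Matrix.mulVec_add, Matrix.mulVec_add, Matrix.mulVec_smul, he, hf, E_f,
      smul_add, smul_add, smul_smul, smul_smul, smul_smul, mul_inv_cancel₀ hs, one_smul]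
    module
  · rw [mul_mulVec', mul_mulVec', E_W _ _ _ (hi.mapsTo hx), Matrix.mulVec_sub, SU_mulVec_inv,
      Matrix.mulVec_smul, he, E_W _ _ _ hx, form_smul_right C, C.invol, smul_smul, mul_comm l]
    congr 3
    rw [← SU_form A, SU_mulVec_inv]

/-- The action of a torus element on the Eichler coordinates, as a map of the complement. -/
def rho (X : Frame C n) (A : SU) (l : F) : X.W →ₗ[F] X.W :=
  C.σ l • LinearMap.codRestrict X.W
    (X.prj ∘ₗ (Matrix.mulVecLin (mat A)) ∘ₗ X.W.subtype) (fun _ => X.prj_mem _)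

theorem rho_val {X : Frame C n} {A : SU} {l : F} (h : X.IsTor A l) (z : X.W) :
    (X.rho A l z : Vn) = C.σ l • (mat A *ᵥ (z : Vn)) := by
  simp [rho, X.prj_of_mem (h.mapsTo z.2)]

theorem isTor_utv (X : Frame C n) {z : Vn} (hz : z ∈ X.W) {c : F} (hzz : H z z = 0)
    (hc : c + C.σ c = 0) : X.IsTor (utv C z c hzz hc) 1 := by
  refine ⟨one_ne_zero, ?_, ?_⟩
  · rw [utv_mulVec, X.e_left hz, one_smul]; simp
  · rw [utv_mulVec, X.f_left hz, map_one, inv_one, one_smul]; simp

/-! ### The complement -/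

theorem exists_W_ne (C : Conj F q) (hn : 3 ≤ n) (X : Frame C n) : ∃ x ∈ X.W, x ≠ 0 := by
  obtain ⟨x, hx0, he, hf⟩ := exists_perp_two C hn X.e X.f
  exact ⟨x, ⟨he, hf⟩, hx0⟩

theorem exists_partner (X : Frame C n) {z : Vn} (hz : z ∈ X.W) (hz0 : z ≠ 0) (hzz : H z z = 0) :
    ∃ y ∈ X.W, H y y = 0 ∧ H y z = 1 := by
  obtain ⟨y, hy⟩ := exists_dual C hz0
  obtain ⟨t, ht⟩ := exists_trace_one C
  have h1 : H (X.prj y) z = 1 := by rw [X.form_prj_left _ hz, hy]
  refine ⟨X.prj y + (-(t * H (X.prj y) (X.prj y))) • z,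
    add_mem (X.prj_mem y) (X.W.smul_mem _ hz), ?_, ?_⟩
  · simp only [form_add_left, form_add_right C, form_smul_left, form_smul_right C, map_neg,
      map_mul, form_conj C, hzz, h1, form_swap_one C h1]
    linear_combination -(H (X.prj y) (X.prj y)) * ht
  · rw [form_add_left, form_smul_left, hzz, h1, mul_zero, add_zero]

theorem exists_anisotropic (C : Conj F q) (hn : 3 ≤ n) (X : Frame C n) :
    ∃ u ∈ X.W, H u u ≠ 0 := by
  obtain ⟨x, hx, hx0⟩ := exists_W_ne C hn X
  by_cases hxx : H x x = 0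
  · obtain ⟨y, hy, hyy, hyx⟩ := X.exists_partner hx hx0 hxx
    obtain ⟨t, ht⟩ := exists_trace_one C
    refine ⟨x + t • y, add_mem hx (X.W.smul_mem _ hy), ?_⟩
    simp only [form_add_left, form_add_right C, form_smul_left, form_smul_right C, hxx, hyy, hyx,
      form_swap_one C hyx]
    intro h
    exact one_ne_zero (by linear_combination h - ht : (1 : F) = 0)
  · exact ⟨x, hx, hxx⟩

theorem exists_iso_of_orth (C : Conj F q) {x w : Vn} (hxw : H x w = 0) (hxx : H x x ≠ 0)
    (hww : H w w ≠ 0) : ∃ l : F, H (x + l • w) (x + l • w) = 0 := by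
  obtain ⟨l, -, hl⟩ := CfsgLib.Hermitian.exists_norm C.ne_id C.invol (a := -H x x / H w w)
    (div_ne_zero (neg_ne_zero.2 hxx) hww) (by rw [map_div₀, map_neg, form_conj C, form_conj C])
  refine ⟨l, ?_⟩
  rw [eq_div_iff hww] at hl
  simp only [form_add_left, form_add_right C, form_smul_left, form_smul_right C, hxw,
    form_swap_zero C hxw]
  linear_combination hl

theorem exists_iso_W (hn : 4 ≤ n) (X : Frame C n) : ∃ z ∈ X.W, z ≠ 0 ∧ H z z = 0 := by
  obtain ⟨x, hx, hx0⟩ := exists_W_ne C (by omega) X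
  by_cases hxx : H x x = 0
  · exact ⟨x, hx, hx0, hxx⟩
  obtain ⟨w, hw0, hw⟩ := exists_perp C ![X.e, X.f, x] (by omega)
  have hwW : w ∈ X.W := ⟨hw 0, hw 1⟩
  have hwx : H w x = 0 := hw 2
  by_cases hww : H w w = 0
  · exact ⟨w, hwW, hw0, hww⟩
  obtain ⟨l, hl⟩ := exists_iso_of_orth C (form_swap_zero C hwx) hxx hww
  refine ⟨x + l • w, add_mem hx (X.W.smul_mem _ hwW), fun h => hxx ?_, hl⟩
  have h1 := congrArg (fun v => H v x) h
  simpa [form_add_left, form_smul_left, hwx, form_zero_left] using h1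

/-- Either the complement contains a hyperbolic pair, or it is an anisotropic line and `q ≠ 2`. -/
theorem W_cases (hn : 3 ≤ n) (h32 : ¬ (n = 3 ∧ q = 2)) (X : Frame C n) :
    (∃ z ∈ X.W, ∃ y ∈ X.W, H z z = 0 ∧ H y y = 0 ∧ H y z = 1) ∨
      (q ≠ 2 ∧ ∃ u ∈ X.W, H u u ≠ 0 ∧ ∀ x ∈ X.W, ∃ c : F, x = c • u) := by
  by_cases h : ∃ z ∈ X.W, z ≠ 0 ∧ H z z = 0
  · obtain ⟨z, hz, hz0, hzz⟩ := h
    obtain ⟨y, hy, hyy, hyz⟩ := X.exists_partner hz hz0 hzz
    exact Or.inl ⟨z, hz, y, hy, hzz, hyy, hyz⟩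
  · right
    refine ⟨fun hq => h (exists_iso_W (by omega) X), ?_⟩
    push Not at h
    obtain ⟨u, hu, huu⟩ := exists_anisotropic C hn X
    refine ⟨u, hu, huu, fun x hx => ⟨H x u / H u u, ?_⟩⟩
    set w := x - (H x u / H u u) • u with hw
    have hwW : w ∈ X.W := sub_mem hx (X.W.smul_mem _ hu)
    have hwu : H w u = 0 := by rw [hw, form_sub_left, form_smul_left, div_mul_cancel₀ _ huu, sub_self]
    by_contra hne
    have hw0 : w ≠ 0 := fun e => hne (sub_eq_zero.1 e)
    obtain ⟨l, hl⟩ := exists_iso_of_orth C (form_swap_zero C hwu) huu (h w hwW hw0)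
    refine h _ (add_mem hu (X.W.smul_mem l hwW)) (fun e => huu ?_) hl
    have h1 := congrArg (fun v => H v u) e
    simpa [form_add_left, form_smul_left, hwu, form_zero_left] using h1

theorem pair_W_span (X : Frame C n) {U : Submodule F Vn} {z y : Vn} (hz : z ∈ X.W) (hy : y ∈ X.W)
    (hzz : H z z = 0) (hyy : H y y = 0) (hyz : H y z = 1)
    (hU : ∀ w ∈ X.W, H w w = 0 → w ∈ U) : X.W ≤ U := by
  intro x hx
  set x' := x - H x y • z - H x z • y with hx'
  have hx'W : x' ∈ X.W := sub_mem (sub_mem hx (X.W.smul_mem _ hz)) (X.W.smul_mem _ hy)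
  obtain ⟨a, ha⟩ := exists_eich_coord C x'
  have hzy := form_swap_one C hyz
  have h1 : H x' z = 0 := by
    rw [hx', form_sub_left, form_sub_left, form_smul_left, form_smul_left, hzz, hyz]; ring
  have h2 : H x' y = 0 := by
    rw [hx', form_sub_left, form_sub_left, form_smul_left, form_smul_left, hzy, hyy]; ring
  have hw : H (x' + y + a • z) (x' + y + a • z) = 0 := by
    simp only [form_add_left, form_add_right C, form_smul_left, form_smul_right C, hzz, hyy, hyz,
      hzy, h1, h2, form_swap_zero C h1, form_swap_zero C h2]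
    linear_combination ha
  have hwU := hU _ (add_mem (add_mem hx'W hy) (X.W.smul_mem a hz)) hw
  have hzU := hU z hz hzz
  have hyU := hU y hy hyy
  have : x = (x' + y + a • z) + ((H x y - a) • z + (H x z - 1) • y) := by rw [hx']; module
  rw [this]
  exact add_mem hwU (add_mem (U.smul_mem _ hzU) (U.smul_mem _ hyU))

/-- A nonzero subspace of the complement invariant under its transvections is everything. -/
theorem eq_W_of_invariant (hn : 3 ≤ n) (h32 : ¬ (n = 3 ∧ q = 2)) (X : Frame C n)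
    {U : Submodule F Vn} (hUW : U ≤ X.W) (hU0 : U ≠ ⊥)
    (hinv : ∀ (w : Vn) (c : F), w ∈ X.W → ∀ (hw : H w w = 0) (hc : c + C.σ c = 0),
      ∀ x ∈ U, mat (utv C w c hw hc) *ᵥ x ∈ U) : U = X.W := by
  refine le_antisymm hUW ?_
  obtain ⟨x, hx, hx0⟩ := U.exists_mem_ne_zero_of_ne_bot hU0
  rcases X.W_cases hn h32 with ⟨z, hz, y, hy, hzz, hyy, hyz⟩ | ⟨-, u, -, -, hline⟩
  · have step : ∀ w ∈ X.W, H w w = 0 → ∀ v ∈ U, H v w ≠ 0 → w ∈ U := by
      intro w hw hww v hv hne
      obtain ⟨c, hc0, hc⟩ := exists_trace_zero C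
      have h1 := hinv w c hw hww hc v hv
      rw [utv_mulVec] at h1
      have h2 := sub_mem h1 hv
      rw [add_sub_cancel_left] at h2
      exact (U.smul_mem_iff (mul_ne_zero hc0 hne)).1 h2
    -- an isotropic vector of `U`
    obtain ⟨w, hw, hwU, hw0, hww⟩ : ∃ w, w ∈ X.W ∧ w ∈ U ∧ w ≠ 0 ∧ H w w = 0 := by
      by_contra hno
      push Not at hno
      have hall : ∀ w ∈ X.W, H w w = 0 → H w x = 0 := by
        intro w hw hww
        by_contra hne
        rcases eq_or_ne w 0 with rfl | hw0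
        · exact hne (form_zero_left x)
        exact hno w hw (step w hw hww x hx (form_swap_ne C hne)) hw0 hww
      let K : Submodule F Vn :=
        { carrier := {v | H v x = 0}
          zero_mem' := form_zero_left x
          add_mem' := fun {a b} ha hb => by
            change H (a + b) x = 0
            rw [form_add_left, show H a x = 0 from ha, show H b x = 0 from hb, add_zero]
          smul_mem' := fun c a ha => by
            change H (c • a) x = 0
            rw [form_smul_left, show H a x = 0 from ha, mul_zero] }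
      have hK := X.pair_W_span (U := K) hz hy hzz hyy hyz hall
      refine hx0 (ext_form C fun v => ?_)
      rw [form_zero_left, ← X.form_prj_right v (hUW hx)]
      exact form_swap_zero C (hK (X.prj_mem v))
    obtain ⟨w', hw', hw'w', hw'w⟩ := X.exists_partner hw hw0 hww
    have hw'U := step w' hw' hw'w' w hwU (form_swap_ne C (by rw [hw'w]; exact one_ne_zero))
    refine X.pair_W_span hz hy hzz hyy hyz fun v hv hvv => ?_
    by_cases h1 : H w v = 0
    · by_cases h2 : H w' v = 0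
      · have h3 : v + w' ∈ U := by
          refine step _ (add_mem hv hw') ?_ w hwU ?_
          · rw [form_add_left, form_add_right C, form_add_right C, hvv, hw'w', h2,
              form_swap_zero C h2]; ring
          · rw [form_add_right C, h1, form_swap_one C hw'w, zero_add]; exact one_ne_zero
        have := sub_mem h3 hw'U
        rwa [add_sub_cancel_right] at this
      · exact step v hv hvv w' hw'U h2
    · exact step v hv hvv w hwU h1
  · intro v hv
    obtain ⟨a, rfl⟩ := hline x (hUW hx)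
    obtain ⟨b, rfl⟩ := hline v hv
    have ha : a ≠ 0 := fun e => hx0 (by rw [e, zero_smul])
    exact U.smul_mem b ((U.smul_mem_iff ha).1 hx)

end Frame

end CfsgLib.AutPSU
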