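import Cfsg.Agent.AutPSU.Frame
set_option autoImplicit false

/-!
The radical of a point stabiliser is preserved, and automorphisms fixing it are trivial.
-/

namespace CfsgLib.AutPSU

open Matrix MulAction
open CfsgLib.UGeom
open scoped Pointwise

variable {F : Type*} [Field F] [Fintype F] {q n : ℕ} {C : Conj F q}

local notation "H" => Cfsg.hermForm n F q
local notation "Vn" => (Fin n → F)
local notation "SU" => Cfsg.SU n F q
local notation "GU" => Cfsg.GU n F q
local notation "PSU'" => Cfsg.PSU n F q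
local notation "mg" A:max => (((A : GU) : GL (Fin n) F) : Matrix (Fin n) (Fin n) F)
local notation "mat" A:max => (((A : SU) : Matrix.SpecialLinearGroup (Fin n) F) : Matrix (Fin n) (Fin n) F)

/-- An automorphism fixes the transvection group of `v`. -/
def Fixes (C : Conj F q) (β : MulAut PSU') (v : Vn) : Prop :=
  (tbar C v).map β.toMonoidHom = tbar C v

theorem map_conj_smul {G : Type*} [Group G] (β : MulAut G) (x : G) (K : Subgroup G) :
    (MulAut.conj x • K).map β.toMonoidHom = MulAut.conj (β x) • K.map β.toMonoidHom := by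
  ext y
  simp only [Subgroup.mem_map, Subgroup.mem_pointwise_smul_iff_inv_smul_mem,
    MulAut.smul_def, MulAut.inv_apply, MulAut.conj_symm_apply, MulEquiv.coe_toMonoidHom]
  constructor
  · rintro ⟨b, hb, rfl⟩
    exact ⟨x⁻¹ * b * x, hb, by simp⟩
  · rintro ⟨b, hb, hy⟩
    exact ⟨x * b * x⁻¹, by simpa [mul_assoc] using hb, by simp [hy, mul_assoc]⟩

theorem fixes_one (C : Conj F q) (v : Vn) : Fixes C (1 : MulAut PSU') v := Subgroup.map_id _

theorem Fixes.mul {β γ : MulAut PSU'} {v : Vn} (h : Fixes C β v) (h' : Fixes C γ v) :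
    Fixes C (β * γ) v := by
  unfold Fixes at *
  rw [show (β * γ).toMonoidHom = β.toMonoidHom.comp γ.toMonoidHom from rfl, ← Subgroup.map_map, h', h]

theorem Fixes.inv {β : MulAut PSU'} {v : Vn} (h : Fixes C β v) : Fixes C β⁻¹ v := by
  unfold Fixes at *
  conv_lhs => rw [← h, Subgroup.map_map]
  rw [show β⁻¹.toMonoidHom.comp β.toMonoidHom = MonoidHom.id PSU' from
    MonoidHom.ext fun x => β.symm_apply_apply x, Subgroup.map_id]

theorem comm_map {β : MulAut PSU'} {v w v' w' : Vn} (hv : (tbar C v).map β.toMonoidHom = tbar C v')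
    (hw : (tbar C w).map β.toMonoidHom = tbar C w') : Comm C v w ↔ Comm C v' w' := by
  unfold Comm
  rw [← hv, ← hw]
  constructor
  · rintro h _ ⟨a, ha, rfl⟩ _ ⟨b, hb, rfl⟩
    rw [← map_mul, ← map_mul, h a ha b hb]
  · intro h a ha b hb
    exact β.injective (by simpa using h _ ⟨a, ha, rfl⟩ _ ⟨b, hb, rfl⟩)

/-- An automorphism fixing every transvection group is trivial. -/
theorem eq_one_of_fixes_all (C : Conj F q) (hn : 3 ≤ n) {β : MulAut PSU'}
    (h : ∀ v : Vn, v ≠ 0 → H v v = 0 → Fixes C β v) : β = 1 := by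
  have : Fact (Nonempty (Conj F q)) := ⟨⟨C⟩⟩
  refine MulEquiv.ext fun x => ?_
  obtain ⟨A, rfl⟩ := proj_surjective x
  obtain ⟨B, hB⟩ := proj_surjective (β (proj A))
  rw [MulAut.one_apply, ← hB]
  refine QuotientGroup.eq.2 (mem_center_of_fix C hn _ fun p => ?_)
  obtain ⟨v, hv0, hv, rfl⟩ := iso_cases C p
  have h1 := h (mat A *ᵥ v) (SU_mulVec_ne_zero A hv0) (by rw [SU_form A, hv])
  rw [Fixes, tbar_conj, map_conj_smul, h v hv0 hv, ← hB, ← tbar_conj, ← tbar_conj] at h1
  obtain ⟨a, ha, h2⟩ := tbar_eq_imp C hn (SU_mulVec_ne_zero B hv0) (by rw [SU_form B, hv])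
    (by rw [SU_form A, hv]) h1
  rw [smul_isoPt, isoPt_eq_iff]
  refine ⟨a⁻¹, ?_⟩
  have h3 : mat A *ᵥ v = a⁻¹ • (mat B *ᵥ v) := by rw [h2, smul_smul, inv_mul_cancel₀ ha, one_smul]
  rw [mul_mulVec', h3, Matrix.mulVec_smul, SU_inv_mulVec]

namespace Frame

/-- The image of the radical of the stabiliser of `e`. -/
def qbar (X : Frame C n) : Subgroup PSU' := (Qsub q X.e).map proj

theorem E_mem_qbar (X : Frame C n) {z : Vn} (hz : z ∈ X.W) {a : F} (ha : a + C.σ a + H z z = 0) :
    proj (X.E z hz a ha) ∈ X.qbar :=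
  Subgroup.mem_map_of_mem _ (X.E_mem_Qsub hz ha)

theorem mem_qbar_iff (hn : 3 ≤ n) (h32 : ¬ (n = 3 ∧ q = 2)) {p : ℕ} [Fact p.Prime] [CharP F p]
    (X : Frame C n) {x : PSU'} :
    x ∈ X.qbar ↔ ∀ P : Sylow p PSU', cent (P : Subgroup PSU') = tbar C X.e → x ∈ P := by
  classical
  have hsyl : ∀ S : Sylow p SU, (∀ s ∈ S, mat s *ᵥ X.e = X.e) →
      cent ((S.mapSurjective (proj_surjective (F := F) (n := n) (q := q)) : Sylow p PSU') :
        Subgroup PSU') = tbar C X.e := fun S hS => cent_sylow C hn S X.e_ne X.ee hS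
  constructor
  · rintro ⟨A, hA, rfl⟩ P hP
    obtain ⟨S, hS⟩ := exists_lift_sylow P
    obtain ⟨w, hw0, hw, hfix⟩ := exists_fixed_iso C (by omega : 2 ≤ n) S.2
    have h1 := cent_sylow C hn S hw0 hw hfix
    rw [hS, hP] at h1
    obtain ⟨a, -, he⟩ := tbar_eq_imp C hn X.e_ne X.ee hw h1
    have hfe : ∀ s ∈ S, mat s *ᵥ X.e = X.e := fun s hs => by rw [he, Matrix.mulVec_smul, hfix s hs]
    have h2 := Subgroup.mem_map_of_mem proj (Qsub_le_sylow C hn S hfe hA)
    rw [hS] at h2
    exact h2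
  · intro hx
    obtain ⟨S₀, hS₀⟩ := exists_sylow_fix (p := p) C hn X.e_ne X.ee
    obtain ⟨A, hA, rfl⟩ := hx _ (hsyl S₀ hS₀)
    let I : Subgroup SU := ⨅ S : {S : Sylow p SU // ∀ s ∈ S, mat s *ᵥ X.e = X.e}, (S.1 : Subgroup SU)
    have hAI : A ∈ I := by
      refine Subgroup.mem_iInf.2 fun S => ?_
      obtain ⟨A', hA', hAA'⟩ := hx _ (hsyl S.1 S.2)
      obtain ⟨c, -, hc⟩ := exists_smul_of_proj_eq C.card hn hAA'
      have h1 := hc X.e
      rw [S.2 A' hA', hS₀ A hA] at h1
      have hc1 : c = 1 := smul_left_injective F X.e_ne (by simpa using h1.symm)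
      have h2 : A = A' := SU_ext fun v => by rw [hc, hc1, one_smul]
      rw [h2]; exact hA'
    have hI : IsPGroup p I := S₀.2.to_le (iInf_le_of_le ⟨S₀, hS₀⟩ le_rfl)
    have hIe : ∀ B ∈ I, mat B *ᵥ X.e = X.e := fun B hB =>
      hS₀ B (Subgroup.mem_iInf.1 hB ⟨S₀, hS₀⟩)
    have hperp : ∀ B ∈ I, ∀ y : Vn, H y X.e = 0 → H (mat B *ᵥ y) X.e = 0 := fun B hB y hy => by
      conv_lhs => rw [← hIe B hB]
      rw [SU_form B, hy]
    have hIinv : ∀ m : SU, mat m *ᵥ X.e = X.e → ∀ B ∈ I, m⁻¹ * B * m ∈ I := by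
      intro m hm B hB
      refine Subgroup.mem_iInf.2 fun S => ?_
      have hmi : mat m⁻¹ *ᵥ X.e = X.e := by
        have := inv_mulVec_eigen (v := X.e) one_ne_zero (by rw [one_smul]; exact hm)
        rwa [inv_one, one_smul] at this
      have hS' : ∀ s ∈ (m • S.1 : Sylow p SU), mat s *ᵥ X.e = X.e := by
        intro s hs
        have h : s ∈ ((m • S.1 : Sylow p SU) : Subgroup SU) := hs
        rw [Sylow.smul_def, Sylow.pointwise_smul_def, Subgroup.mem_pointwise_smul_iff_inv_smul_mem] at h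
        simp only [MulAut.smul_def, MulAut.inv_apply, MulAut.conj_symm_apply] at h
        have h1 := S.2 _ h
        rw [mul_mulVec', mul_mulVec', hm] at h1
        have h2 := congrArg (mat m *ᵥ ·) h1
        simp only [SU_mulVec_inv, hm] at h2
        exact h2
      have h := Subgroup.mem_iInf.1 hB ⟨_, hS'⟩
      change B ∈ ((m • S.1 : Sylow p SU) : Subgroup SU) at h
      rw [Sylow.smul_def, Sylow.pointwise_smul_def, Subgroup.mem_pointwise_smul_iff_inv_smul_mem] at h
      simpa only [MulAut.smul_def, MulAut.inv_apply, MulAut.conj_symm_apply] using h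
    -- fixed vectors of `I` on the complement
    let U : Submodule F Vn :=
      { carrier := {y | y ∈ X.W ∧ ∀ B ∈ I, ∃ k : F, mat B *ᵥ y = y + k • X.e}
        zero_mem' := ⟨X.W.zero_mem, fun B _ => ⟨0, by simp⟩⟩
        add_mem' := fun {a b} ha hb => ⟨add_mem ha.1 hb.1, fun B hB => by
          obtain ⟨k, hk⟩ := ha.2 B hB
          obtain ⟨k', hk'⟩ := hb.2 B hB
          exact ⟨k + k', by rw [Matrix.mulVec_add, hk, hk']; module⟩⟩
        smul_mem' := fun c a ha => ⟨X.W.smul_mem c ha.1, fun B hB => by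
          obtain ⟨k, hk⟩ := ha.2 B hB
          exact ⟨c * k, by rw [Matrix.mulVec_smul, hk]; module⟩⟩ }
    have hUne : U ≠ ⊥ := by
      let act : MulAction I X.W :=
        { smul := fun B y => ⟨X.prj (mat B.1 *ᵥ (y : Vn)), X.prj_mem _⟩
          one_smul := fun y => Subtype.ext (by
            change X.prj (mat (1 : SU) *ᵥ (y : Vn)) = y
            rw [one_mulVec', X.prj_of_mem y.2])
          mul_smul := fun B B' y => Subtype.ext (by
            change X.prj (mat (B.1 * B'.1) *ᵥ (y : Vn)) = X.prj (mat B.1 *ᵥ X.prj (mat B'.1 *ᵥ (y : Vn)))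
            rw [mul_mulVec', X.prj_apply (mat B'.1 *ᵥ (y : Vn)), hperp _ B'.2 _ y.2.1, zero_smul, sub_zero,
              Matrix.mulVec_sub, Matrix.mulVec_smul, hIe _ B.2, map_sub, map_smul, X.prj_e, smul_zero,
              sub_zero]) }
      have hcard : p ∣ Nat.card X.W := by
        obtain ⟨x, hxW, hx0⟩ := exists_W_ne C hn X
        rw [Module.natCard_eq_pow_finrank (K := F), Nat.card_eq_fintype_card]
        refine dvd_pow ?_ ?_
        · obtain ⟨k, -, hk⟩ := FiniteField.card F p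
          rw [hk]; exact dvd_pow_self p k.ne_zero
        · intro h0
          have : X.W = ⊥ := Submodule.finrank_eq_zero.1 h0
          rw [this] at hxW
          exact hx0 hxW
      have hzero : (0 : X.W) ∈ fixedPoints I X.W := fun B => Subtype.ext (by
        change X.prj (mat B.1 *ᵥ (0 : Vn)) = 0
        rw [Matrix.mulVec_zero, map_zero])
      obtain ⟨y, hy, hy0⟩ := hI.exists_fixed_point_of_prime_dvd_card_of_fixed_point X.W hcard hzero
      refine (Submodule.ne_bot_iff U).2 ⟨y.1, ⟨y.2, fun B hB => ?_⟩, fun h => hy0 (Subtype.ext h.symm)⟩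
      have h1 : X.prj (mat B *ᵥ (y : Vn)) = y := congrArg Subtype.val (hy ⟨B, hB⟩)
      refine ⟨H (mat B *ᵥ (y : Vn)) X.f, ?_⟩
      conv_lhs => rw [X.decomp (mat B *ᵥ (y : Vn)), h1, hperp B hB _ y.2.1, zero_smul]
      abel
    have hUW : U = X.W := by
      refine X.eq_W_of_invariant hn h32 (fun y hy => hy.1) hUne fun w c hw hww hc y hy => ?_
      have hT := X.isTor_utv hw hww hc
      refine ⟨hT.mapsTo hy.1, fun B hB => ?_⟩
      have hme : mat (utv C w c hww hc) *ᵥ X.e = X.e := by rw [hT.2.1, one_smul]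
      obtain ⟨k, hk⟩ := hy.2 _ (hIinv _ hme B hB)
      refine ⟨k, ?_⟩
      have h := congrArg (mat (utv C w c hww hc) *ᵥ ·) hk
      simp only [mul_mulVec', SU_mulVec_inv, Matrix.mulVec_add, Matrix.mulVec_smul, hme] at h
      exact h
    refine Subgroup.mem_map_of_mem _ ⟨hIe A hAI, fun y hy => ?_⟩
    obtain ⟨k, hk⟩ := (show X.prj y ∈ U from hUW ▸ X.prj_mem y).2 A hAI
    refine ⟨k, ?_⟩
    conv_lhs => rw [X.decomp y, hy, zero_smul, add_zero, Matrix.mulVec_add, Matrix.mulVec_smul,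
      hIe A hAI, hk]
    conv_rhs => rw [X.decomp y, hy, zero_smul, add_zero]
    abel

/-- An automorphism fixing the transvection group of `e` preserves the radical. -/
theorem map_qbar (hn : 3 ≤ n) (h32 : ¬ (n = 3 ∧ q = 2)) (X : Frame C n) {β : MulAut PSU'}
    (hβ : Fixes C β X.e) : ∀ x ∈ X.qbar, β x ∈ X.qbar := by
  obtain ⟨p, hp⟩ := CharP.exists F
  have : Fact p.Prime := ⟨CharP.char_is_prime F p⟩
  intro x hx
  rw [X.mem_qbar_iff (p := p) hn h32] at hx ⊢
  intro P hP
  let P' : Sylow p PSU' := P.mapSurjective (f := (β⁻¹ : MulAut PSU').toMonoidHom) (β⁻¹ : MulAut PSU').surjective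
  have h : cent (P' : Subgroup PSU') = tbar C X.e := by
    change cent ((P : Subgroup PSU').map (β⁻¹ : MulAut PSU').toMonoidHom) = _
    rw [← map_cent, hP, hβ.inv]
  obtain ⟨y, hy, hyx⟩ := hx P' h
  have : β x = y := by rw [← hyx]; exact β.apply_symm_apply y
  rw [this]; exact hy

/-- Separation of points orthogonal to `e`. -/
theorem exists_separating (X : Frame C n) {z w : Vn} (hz0 : z ≠ 0) (hzz : H z z = 0)
    (hze : H z X.e = 0) (hwe : H w X.e = 0) (hne : ∀ a : F, a • X.e ≠ z) (hzw : ∀ a : F, a • z ≠ w) :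
    ∃ y : Vn, H y y = 0 ∧ H y X.e = 1 ∧ H y z = 0 ∧ H y w ≠ 0 := by
  obtain ⟨y, hy, hye, hyz⟩ := exists_iso_partner C X.e_ne X.ee hne (form_swap_zero C hze) 0
  by_cases hyw : H y w ≠ 0
  · exact ⟨y, hy, hye, hyz, hyw⟩
  push Not at hyw
  let X' : Frame C n := ⟨X.e, y, X.ee, hy, hye⟩
  have hzW : z ∈ X'.W := ⟨hze, form_swap_zero C hyz⟩
  have hwW : w ∈ X'.W := ⟨hwe, form_swap_zero C hyw⟩
  have hw0 : w ≠ 0 := fun h => hzw 0 (by rw [h, zero_smul])
  have hwz : ∀ a : F, a • w ≠ z := by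
    intro a ha
    have ha0 : a ≠ 0 := by rintro rfl; rw [zero_smul] at ha; exact hz0 ha.symm
    exact hzw a⁻¹ (by rw [← ha, smul_smul, inv_mul_cancel₀ ha0, one_smul])
  obtain ⟨x, hxw, hxz⟩ := exists_dual_pair C hw0 hwz 0
  have h1 : H (X'.prj x) w = 1 := by rw [X'.form_prj_left _ hwW, hxw]
  have h2 : H (X'.prj x) z = 0 := by rw [X'.form_prj_left _ hzW, hxz]
  obtain ⟨a, ha⟩ := exists_eich_coord C (X'.prj x)
  have hx' := X'.prj_mem x
  have hae : H X.e z = 0 := form_swap_zero C hze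
  refine ⟨y + X'.prj x + a • X.e, ?_, ?_, ?_, ?_⟩
  · simp only [form_add_left, form_add_right C, form_smul_left, form_smul_right C, X.ee, hy, hye,
      show H X.e y = 1 from X'.ef, show H (X'.prj x) X.e = 0 from hx'.1,
      show H (X'.prj x) y = 0 from hx'.2, show H X.e (X'.prj x) = 0 from X'.e_left hx',
      show H y (X'.prj x) = 0 from X'.f_left hx']
    linear_combination ha
  · rw [form_add_left, form_add_left, form_smul_left, hye, show H (X'.prj x) X.e = 0 from hx'.1, X.ee]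
    ring
  · rw [form_add_left, form_add_left, form_smul_left, hyz, h2, hae]; ring
  · rw [form_add_left, form_add_left, form_smul_left, hyw, h1, form_swap_zero C hwe]
    simp

/-- An automorphism fixing the radical pointwise and the opposite point is trivial. -/
theorem eq_one_of_fixes_radical (hn : 3 ≤ n) (X : Frame C n) {β : MulAut PSU'}
    (he : Fixes C β X.e) (hf : Fixes C β X.f) (hQ : ∀ x ∈ X.qbar, β x = x) : β = 1 := by
  have hopp : ∀ y : Vn, H y y = 0 → H y X.e = 1 → Fixes C β y := by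
    intro y hy hye
    have hz := X.prj_mem y
    have hdy : y = X.f + X.prj y + H y X.f • X.e := by
      conv_lhs => rw [X.decomp y, hye, one_smul]
      abel
    have ha : H y X.f + C.σ (H y X.f) + H (X.prj y) (X.prj y) = 0 := by
      have h := hy
      rw [hdy] at h
      simp only [form_add_left, form_add_right C, form_smul_left, form_smul_right C, X.ff, X.fe,
        X.ef, X.ee, hz.1, hz.2, X.e_left hz, X.f_left hz] at h
      linear_combination h
    rw [hdy, ← X.E_f hz ha, Fixes, tbar_conj, map_conj_smul, hf, hQ _ (X.E_mem_qbar hz ha)]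
  have hopp' : ∀ y : Vn, H y y = 0 → H y X.e ≠ 0 → Fixes C β y := by
    intro y hy hye
    have h := hopp ((H y X.e)⁻¹ • y) (by rw [form_smul_left, form_smul_right C, hy, mul_zero, mul_zero])
      (by rw [form_smul_left, inv_mul_cancel₀ hye])
    rwa [Fixes, tbar_smul C (inv_ne_zero hye)] at h
  refine eq_one_of_fixes_all C hn fun z hz0 hzz => ?_
  by_cases hze : H z X.e ≠ 0
  · exact hopp' z hzz hze
  push Not at hze
  by_cases hpar : ∃ a : F, a • X.e = z
  · obtain ⟨a, rfl⟩ := hpar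
    rw [Fixes, tbar_smul C (show a ≠ 0 by rintro rfl; simp at hz0)]
    exact he
  push Not at hpar
  obtain ⟨w, hw0, hww, hwimg⟩ := exists_image C hn β hz0 hzz
  rw [Fixes, hwimg]
  by_contra hne
  have hzw : ∀ a : F, a • z ≠ w := fun a ha => by
    have ha0 : a ≠ 0 := by rintro rfl; rw [zero_smul] at ha; exact hw0 ha.symm
    exact hne (by rw [← ha, tbar_smul C ha0])
  have hwe : H w X.e = 0 := by
    rw [← comm_iff C hn hw0 hww X.ee, ← comm_map hwimg he, comm_iff C hn hz0 hzz X.ee]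
    exact hze
  obtain ⟨y, hy, hye, hyz, hyw⟩ := X.exists_separating hz0 hzz hze hwe hpar hzw
  have hy0 : y ≠ 0 := fun h => hyw (by rw [h, form_zero_left])
  apply hyw
  rw [← comm_iff C hn hy0 hy hww, ← comm_map (hopp y hy hye) hwimg, comm_iff C hn hy0 hy hzz]
  exact hyz

end Frame

end CfsgLib.AutPSU
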