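import Cfsg.Agent.AutPSU.Rigid
import Mathlib.GroupTheory.SpecificGroups.Cyclic
set_option autoImplicit false

/-!
The torus acting on the Eichler coordinates generates the scalars and has only scalars commuting with it.
-/

namespace CfsgLib.AutPSU

open Matrix
open CfsgLib.UGeom

variable {F : Type*} [Field F] [Fintype F] {q n : ℕ} {C : Conj F q}

local notation "H" => Cfsg.hermForm n F q
local notation "Vn" => (Fin n → F)
local notation "SU" => Cfsg.SU n F q
local notation "GU" => Cfsg.GU n F q
local notation "mg" A:max => (((A : GU) : GL (Fin n) F) : Matrix (Fin n) (Fin n) F)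
local notation "mat" A:max => (((A : SU) : Matrix.SpecialLinearGroup (Fin n) F) : Matrix (Fin n) (Fin n) F)

/-- A subring containing many powers is everything. -/
theorem subring_eq_top_of_pow (C : Conj F q) (m : ℕ) (hm : q * Nat.gcd (q ^ 2 - 1) m < q ^ 2 - 1)
    (K : Subring F) (hK : ∀ x : F, x ≠ 0 → x ^ m ∈ K) : K = ⊤ := by
  classical
  have hinv : ∀ x ∈ K, x⁻¹ ∈ K := by
    intro x hx
    rcases eq_or_ne x 0 with rfl | hx0
    · rw [_root_.inv_zero]; exact zero_mem K
    · have h1 := FiniteField.pow_card_sub_one_eq_one x hx0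
      have h2 : 2 ≤ Fintype.card F := Fintype.one_lt_card
      rw [show Fintype.card F - 1 = (Fintype.card F - 2) + 1 by omega, pow_succ] at h1
      rw [← eq_inv_of_mul_eq_one_left h1]
      exact pow_mem hx _
  let K' : Subfield F := { K with inv_mem' := hinv }
  let φ : Fˣ →* Fˣ := powMonoidHom m
  have hr : Nat.card φ.range * Nat.gcd (q ^ 2 - 1) m = q ^ 2 - 1 := by
    have hc : Nat.card Fˣ = q ^ 2 - 1 := by rw [Nat.card_units, Nat.card_eq_fintype_card, C.card]
    rw [show Nat.card φ.range = Nat.card Fˣ / Nat.gcd (Nat.card Fˣ) m from IsCyclic.card_powMonoidHom_range (G := Fˣ) m,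
      hc, Nat.div_mul_cancel (Nat.gcd_dvd_left _ _)]
  have hle : Nat.card φ.range + 1 ≤ Nat.card K' := by
    rw [← Finite.card_option]
    refine Nat.card_le_card_of_injective (fun o : Option φ.range => o.elim (0 : K') fun u =>
      ⟨((u : Fˣ) : F), by
        obtain ⟨v, hv⟩ := u.2
        rw [← hv]
        exact hK v v.ne_zero⟩) ?_
    rintro (_ | a) (_ | b) h
    · rfl
    · exact absurd (congrArg Subtype.val h).symm (b.1.ne_zero)
    · exact absurd (congrArg Subtype.val h) (a.1.ne_zero)
    · exact congrArg some (Subtype.ext (Units.ext (congrArg Subtype.val h :)))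
  have hgt : q < Nat.card K' := by
    by_contra hle'
    have : Nat.card φ.range * Nat.gcd (q ^ 2 - 1) m ≤ q * Nat.gcd (q ^ 2 - 1) m :=
      Nat.mul_le_mul_right _ (by omega)
    omega
  have hdim := Module.natCard_eq_pow_finrank (K := K') (V := F)
  rw [Nat.card_eq_fintype_card (α := F), C.card] at hdim
  have hd : Module.finrank K' F = 1 := by
    have hd0 : 0 < Module.finrank K' F := Module.finrank_pos
    by_contra hne
    have h2 : (Nat.card K') ^ 2 ≤ (Nat.card K') ^ Module.finrank K' F :=
      Nat.pow_le_pow_right (by omega) (by omega)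
    rw [← hdim] at h2
    exact absurd (Nat.pow_lt_pow_left hgt two_ne_zero) (not_lt.2 h2)
  rw [hd, pow_one] at hdim
  refine eq_top_iff.2 fun x _ => ?_
  have hu : (K' : Set F) = Set.univ := by
    refine Set.eq_of_subset_of_ncard_le (Set.subset_univ _) ?_
    rw [Set.ncard_univ, ← Nat.card_coe_set_eq, Nat.card_eq_fintype_card (α := F), C.card, hdim]
    rfl
  exact (show x ∈ (K' : Set F) from hu ▸ Set.mem_univ x)

namespace Frame

/-- `x ↦ h(x,y) z`. -/
def pr (X : Frame C n) (z y : Vn) (hz : z ∈ X.W) : Module.End F X.W where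
  toFun x := H (x : Vn) y • (⟨z, hz⟩ : X.W)
  map_add' a b := by rw [Submodule.coe_add, form_add_left, add_smul]
  map_smul' c a := by rw [Submodule.coe_smul, form_smul_left, RingHom.id_apply, smul_smul]

theorem pr_apply (X : Frame C n) {z y : Vn} (hz : z ∈ X.W) (x : X.W) :
    ((X.pr z y hz x : X.W) : Vn) = H (x : Vn) y • z := rfl

theorem pr_mul (X : Frame C n) {z y z' y' : Vn} (hz : z ∈ X.W) (hz' : z' ∈ X.W) :
    X.pr z y hz * X.pr z' y' hz' = H z' y • X.pr z y' hz := by
  refine LinearMap.ext fun x => Subtype.ext ?_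
  rw [Module.End.mul_apply, pr_apply, pr_apply, form_smul_left, LinearMap.smul_apply,
    Submodule.coe_smul, pr_apply, smul_smul, mul_comm]

theorem rho_utv (X : Frame C n) {z : Vn} (hz : z ∈ X.W) {c : F} (hzz : H z z = 0)
    (hc : c + C.σ c = 0) : X.rho (utv C z c hzz hc) 1 = 1 + c • X.pr z z hz := by
  refine LinearMap.ext fun x => Subtype.ext ?_
  rw [rho_val (X.isTor_utv hz hzz hc), map_one, one_smul, utv_mulVec, LinearMap.add_apply,
    Module.End.one_apply, Submodule.coe_add, LinearMap.smul_apply, Submodule.coe_smul, pr_apply,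
    smul_smul]

/-- A torus element attached to two hyperbolic pairs. -/
theorem exists_pair_torus (X : Frame C n) {z y : Vn} (hz : z ∈ X.W) (hy : y ∈ X.W) (hzz : H z z = 0)
    (hyy : H y y = 0) (hyz : H y z = 1) {a : F} (ha : a ≠ 0) :
    ∃ A : SU, X.IsTor A (C.σ a) ∧ X.rho A (C.σ a) =
      a • 1 + (a * ((C.σ a)⁻¹ - 1)) • X.pr y z hy + (a * (a - 1)) • X.pr z y hz := by
  let X' : Frame C n := ⟨z, y, hzz, hyy, hyz⟩
  have hs : C.σ a ≠ 0 := (map_ne_zero C.σ).2 ha
  have hdet : (mg (X.dil hs * X'.dil ha)).det = 1 := by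
    rw [GU_coe_mul, Matrix.det_mul, dil_det, dil_det, C.invol]
    field_simp
  have hfixe : mg (X'.dil ha) *ᵥ X.e = X.e := X'.dil_W ha ⟨X.e_left hz, X.e_left hy⟩
  have hfixf : mg (X'.dil ha) *ᵥ X.f = X.f := X'.dil_W ha ⟨X.f_left hz, X.f_left hy⟩
  have htor : X.IsTor (ofDetOne _ hdet) (C.σ a) := by
    refine ⟨hs, ?_, ?_⟩
    · rw [ofDetOne_val, GU_coe_mul, ← Matrix.mulVec_mulVec, hfixe, dil_e]
    · rw [ofDetOne_val, GU_coe_mul, ← Matrix.mulVec_mulVec, hfixf, dil_f]
  refine ⟨_, htor, LinearMap.ext fun x => Subtype.ext ?_⟩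
  rw [rho_val htor, C.invol, ofDetOne_val, GU_coe_mul, ← Matrix.mulVec_mulVec, X'.dil_mulVec]
  rw [X.dil_W hs (add_mem (add_mem x.2 (X.W.smul_mem _ hy)) (X.W.smul_mem _ hz))]
  simp only [LinearMap.add_apply, LinearMap.smul_apply, Module.End.one_apply, Submodule.coe_add,
    Submodule.coe_smul, pr_apply, smul_add, smul_smul]
  show a • (x : Vn) + (a * (((C.σ a)⁻¹ - 1) * H (x : Vn) z)) • y + (a * ((a - 1) * H (x : Vn) y)) • z = _
  rw [mul_assoc, mul_assoc]

/-- A torus element attached to an anisotropic line. -/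
theorem exists_line_torus (X : Frame C n) {u : Vn} (hu : u ∈ X.W) (huu : H u u ≠ 0)
    (hline : ∀ x ∈ X.W, ∃ c : F, x = c • u) {l : F} (hl : l ≠ 0) :
    ∃ A : SU, X.IsTor A l ∧ X.rho A l = (l ^ (2 * q - 1)) • 1 := by
  obtain ⟨c, hc0, hc⟩ := CfsgLib.Hermitian.exists_norm C.ne_id C.invol huu (form_conj C u u)
  set w := c⁻¹ • u with hwd
  have hsc : C.σ c ≠ 0 := (map_ne_zero C.σ).2 hc0
  have hw1 : H w w = 1 := by
    rw [hwd, form_smul_left, form_smul_right C, map_inv₀, ← hc]
    field_simp
  have hwW : w ∈ X.W := X.W.smul_mem _ hu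
  have hs : C.σ l ≠ 0 := (map_ne_zero C.σ).2 hl
  have hμ : (C.σ l / l) * C.σ (C.σ l / l) = 1 := by
    rw [map_div₀, C.invol]; field_simp
  have hdet : (mg (X.dil hl * refl C hw1 hμ)).det = 1 := by
    rw [GU_coe_mul, Matrix.det_mul, dil_det, refl_det]
    field_simp
  have hrefl : ∀ x : Vn, mg (refl C hw1 hμ) *ᵥ x = x + ((C.σ l / l - 1) * H x w) • w := fun x =>
    qreflGU_mulVec C w _ (refl_cond C hw1 hμ) x
  have htor : X.IsTor (ofDetOne _ hdet) l := by
    refine ⟨hl, ?_, ?_⟩
    · rw [ofDetOne_val, GU_coe_mul, ← Matrix.mulVec_mulVec, hrefl, X.e_left hwW]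
      simp [dil_e]
    · rw [ofDetOne_val, GU_coe_mul, ← Matrix.mulVec_mulVec, hrefl, X.f_left hwW]
      simp [dil_f]
  refine ⟨_, htor, LinearMap.ext fun x => Subtype.ext ?_⟩
  obtain ⟨b, hb⟩ := hline x x.2
  have hbw : (x : Vn) = (b * c) • w := by rw [hb, hwd, smul_smul, mul_assoc, mul_inv_cancel₀ hc0, mul_one]
  rw [rho_val htor, ofDetOne_val, GU_coe_mul, ← Matrix.mulVec_mulVec, hrefl,
    X.dil_W hl (add_mem x.2 (X.W.smul_mem _ hwW)), LinearMap.smul_apply, Module.End.one_apply,
    Submodule.coe_smul, hbw, form_smul_left, hw1]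
  have hpow : l ^ (2 * q - 1) = C.σ l * (C.σ l / l) := by
    rw [C.pow, ← mul_div_assoc, ← pow_add, eq_div_iff hl, ← pow_succ]
    congr 1
    have := C.two_le; omega
  rw [hpow]
  module

/-- The subring generated by the torus contains the scalars. -/
theorem scalar_mem (hn : 3 ≤ n) (h32 : ¬ (n = 3 ∧ q = 2)) (X : Frame C n)
    (R : Subring (Module.End F X.W)) (hR : ∀ A l, X.IsTor A l → X.rho A l ∈ R) (c : F) :
    c • (1 : Module.End F X.W) ∈ R := by
  have hq := C.two_le
  rcases X.W_cases hn h32 with ⟨z, hz, y, hy, hzz, hyy, hyz⟩ | ⟨hq2, u, hu, huu, hline⟩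
  · have hzy := form_swap_one C hyz
    have ht : ∀ (v : Vn) (hv : v ∈ X.W) (d : F), H v v = 0 → d + C.σ d = 0 → d • X.pr v v hv ∈ R := by
      intro v hv d hvv hd
      have h := sub_mem (hR _ _ (X.isTor_utv hv hvv hd)) (one_mem R)
      rw [rho_utv X hv hvv hd] at h
      convert h using 1
      abel
    obtain ⟨d, hd0, hd⟩ := exists_trace_zero C
    have hd' : d⁻¹ + C.σ d⁻¹ = 0 := by
      rw [map_inv₀, show C.σ d = -d by linear_combination hd, inv_neg, add_neg_cancel]
    have key : ∀ (z y : Vn) (hz : z ∈ X.W) (hy : y ∈ X.W), H z z = 0 → H y y = 0 → H y z = 1 →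
        ∀ k : F, k • X.pr z y hz ∈ R := by
      intro z y hz hy hzz hyy hyz
      have hzy := form_swap_one C hyz
      have hP : X.pr z y hz ∈ R := by
        have h := mul_mem (ht z hz d hzz hd) (ht y hy d⁻¹ hyy hd')
        rwa [smul_mul_smul_comm, pr_mul, hyz, one_smul, mul_inv_cancel₀ hd0, one_smul] at h
      let K : Subring F :=
        { carrier := {k | k • X.pr z y hz ∈ R}
          mul_mem' := fun {a b} ha hb => by
            have h := mul_mem (show a • X.pr z y hz ∈ R from ha) (show b • X.pr z y hz ∈ R from hb)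
            rw [smul_mul_smul_comm, pr_mul, hzy, one_smul] at h
            exact h
          one_mem' := by change (1 : F) • _ ∈ R; rw [one_smul]; exact hP
          add_mem' := fun {a b} ha hb => by
            change (a + b) • _ ∈ R; rw [add_smul]; exact add_mem ha hb
          zero_mem' := by change (0 : F) • _ ∈ R; rw [zero_smul]; exact zero_mem R
          neg_mem' := fun {a} ha => by
            change (-a) • X.pr z y hz ∈ R
            rw [show (-a) • X.pr z y hz = -(a • X.pr z y hz) from LinearMap.ext fun x => neg_smul a (X.pr z y hz x)]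
            exact neg_mem ha }
      have hK : K = ⊤ := by
        refine subring_eq_top_of_pow C 2 ?_ K fun a ha => ?_
        · rcases eq_or_ne q 2 with rfl | hne
          · decide
          · have hq3 : 3 ≤ q := by omega
            have hg : Nat.gcd (q ^ 2 - 1) 2 ≤ 2 := Nat.le_of_dvd (by omega) (Nat.gcd_dvd_right _ _)
            have h9 : 3 * q ≤ q ^ 2 := by rw [sq]; exact Nat.mul_le_mul_right q hq3
            have : q * Nat.gcd (q ^ 2 - 1) 2 ≤ q * 2 := Nat.mul_le_mul_left q hg
            omega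
        · obtain ⟨A, hA, hρ⟩ := X.exists_pair_torus hz hy hzz hyy hyz ha
          have h := mul_mem (hR _ _ hA) hP
          rw [hρ, add_mul, add_mul, smul_mul_assoc, one_mul, smul_mul_assoc, smul_mul_assoc, pr_mul,
            pr_mul, hzz, hzy, zero_smul, smul_zero, add_zero, one_smul, ← add_smul] at h
          change a ^ 2 • _ ∈ R
          rwa [show a ^ 2 = a + a * (a - 1) by ring]
      intro k
      exact (show k ∈ K from hK ▸ Subring.mem_top k)
    rcases eq_or_ne c 0 with rfl | hc
    · rw [zero_smul]; exact zero_mem R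
    obtain ⟨A, hA, hρ⟩ := X.exists_pair_torus hz hy hzz hyy hyz hc
    have h := sub_mem (sub_mem (hR _ _ hA) (key z y hz hy hzz hyy hyz (c * (c - 1))))
      (key y z hy hz hyy hzz hzy (c * ((C.σ c)⁻¹ - 1)))
    rw [hρ] at h
    convert h using 1
    abel
  · have hn3 : q * Nat.gcd (q ^ 2 - 1) (2 * q - 1) < q ^ 2 - 1 := by
      rcases eq_or_ne q 3 with rfl | hne
      · decide
      · have hq4 : 4 ≤ q := by omega
        have h16 : 4 * q ≤ q ^ 2 := by rw [sq]; exact Nat.mul_le_mul_right q hq4
        have hdvd : Nat.gcd (q ^ 2 - 1) (2 * q - 1) ∣ 3 := by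
          have e : (2 * q - 1) * (2 * q + 1) = 4 * (q ^ 2 - 1) + 3 := by
            zify [show 1 ≤ 2 * q by omega, show 1 ≤ q ^ 2 from Nat.one_le_pow _ _ (by omega)]
            ring
          exact (Nat.dvd_add_right (Dvd.dvd.mul_left (Nat.gcd_dvd_left _ _) 4)).1
            (e ▸ Dvd.dvd.mul_right (Nat.gcd_dvd_right _ _) _)
        have : q * Nat.gcd (q ^ 2 - 1) (2 * q - 1) ≤ q * 3 :=
          Nat.mul_le_mul_left q (Nat.le_of_dvd (by omega) hdvd)
        omega
    let K : Subring F := R.comap (algebraMap F (Module.End F X.W))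
    have hK : K = ⊤ := by
      refine subring_eq_top_of_pow C _ hn3 K fun l hl => ?_
      obtain ⟨A, hA, hρ⟩ := X.exists_line_torus hu huu hline hl
      change algebraMap F (Module.End F X.W) _ ∈ R
      rw [Algebra.algebraMap_eq_smul_one, ← hρ]
      exact hR _ _ hA
    have h : c ∈ K := hK ▸ Subring.mem_top c
    rw [← Algebra.algebraMap_eq_smul_one]
    exact h

/-- Only scalars commute with the torus. -/
theorem scalar_of_commute_rho (hn : 3 ≤ n) (h32 : ¬ (n = 3 ∧ q = 2)) (X : Frame C n)
    (r : Module.End F X.W) (hr : ∀ A l, X.IsTor A l → Commute r (X.rho A l)) :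
    ∃ k : F, r = k • 1 := by
  rcases X.W_cases hn h32 with ⟨z, hz, y, hy, hzz, hyy, hyz⟩ | ⟨-, u, hu, huu, hline⟩
  · have heig : ∀ (v : X.W), v ≠ 0 → H (v : Vn) v = 0 → ∃ k : F, r v = k • v := by
      intro v hv0 hvv
      obtain ⟨x, hx, -, hxv⟩ := X.exists_partner v.2 (fun e => hv0 (Subtype.ext e)) hvv
      obtain ⟨d, hd0, hd⟩ := exists_trace_zero C
      have h := hr _ _ (X.isTor_utv v.2 hvv hd)
      rw [rho_utv X v.2 hvv hd] at h
      have h' : r (d • X.pr v v v.2 ⟨x, hx⟩) = d • X.pr v v v.2 (r ⟨x, hx⟩) := by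
        have h1 := LinearMap.congr_fun h.eq ⟨x, hx⟩
        simp only [Module.End.mul_apply, LinearMap.add_apply, Module.End.one_apply,
          LinearMap.smul_apply, map_add] at h1
        exact add_left_cancel h1
      have e1 : X.pr v v v.2 ⟨x, hx⟩ = v := Subtype.ext (by rw [pr_apply, hxv, one_smul])
      rw [e1, map_smul] at h'
      exact ⟨H (r ⟨x, hx⟩ : Vn) v, (smul_right_injective X.W hd0 h').trans (Subtype.ext rfl)⟩
    have hpair : ∀ (v w : X.W), H (v : Vn) v = 0 → H (w : Vn) w = 0 → H (w : Vn) v = 1 →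
        ∀ k : F, r v = k • v → r w = k • w := by
      intro v w hvv hww hwv k hk
      have hvw := form_swap_one C hwv
      have hw0 : w ≠ 0 := by rintro rfl; rw [Submodule.coe_zero, form_zero_left] at hwv; exact zero_ne_one hwv
      obtain ⟨k', hk'⟩ := heig w hw0 hww
      obtain ⟨d, hd0, hd⟩ := exists_trace_zero C
      have hiso : H ((v + d • w : X.W) : Vn) (v + d • w : X.W) = 0 := by
        simp only [Submodule.coe_add, Submodule.coe_smul, form_add_left, form_add_right C,
          form_smul_left, form_smul_right C, hvv, hww, hvw, hwv]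
        linear_combination hd
      have hne : v + d • w ≠ 0 := fun e => by
        have := congrArg (fun x : X.W => H (x : Vn) w) e
        simp [form_add_left, form_smul_left, hww, hvw, form_zero_left] at this
      obtain ⟨m, hm⟩ := heig _ hne hiso
      rw [map_add, map_smul, hk, hk'] at hm
      have h1 := congrArg (fun x : X.W => H (x : Vn) w) hm
      have h2 := congrArg (fun x : X.W => H (x : Vn) v) hm
      simp only [Submodule.coe_add, Submodule.coe_smul, form_add_left, form_smul_left, hvv, hww,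
        hvw, hwv] at h1 h2
      have hkm : k = m := by linear_combination h1
      have : k' = k := mul_left_cancel₀ hd0 (by linear_combination h2 - d * hkm)
      rw [hk', this]
    have hz0 : (⟨z, hz⟩ : X.W) ≠ 0 := fun e => by
      have : z = 0 := congrArg Subtype.val e
      rw [this, form_zero_right C] at hyz
      exact zero_ne_one hyz
    obtain ⟨k, hk⟩ := heig ⟨z, hz⟩ hz0 hzz
    have hky := hpair ⟨z, hz⟩ ⟨y, hy⟩ hzz hyy hyz k hk
    have hiso : ∀ w : X.W, H (w : Vn) w = 0 → r w = k • w := by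
      intro w hww
      have scale : ∀ v : X.W, H (v : Vn) v = 0 → r v = k • v → H (w : Vn) v ≠ 0 → r w = k • w := by
        intro v hvv hv hne
        have h := hpair v ((H (w : Vn) v)⁻¹ • w) hvv
          (by rw [Submodule.coe_smul, form_smul_left, form_smul_right C, hww, mul_zero, mul_zero])
          (by rw [Submodule.coe_smul, form_smul_left, inv_mul_cancel₀ hne]) k hv
        rw [map_smul, smul_comm] at h
        exact smul_right_injective X.W (inv_ne_zero hne) h
      by_cases h1 : H (w : Vn) z = 0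
      · by_cases h2 : H (w : Vn) y = 0
        · have h3 := hpair ⟨z, hz⟩ (w + ⟨y, hy⟩) hzz (by
            simp only [Submodule.coe_add, form_add_left, form_add_right C, hww, hyy, h2,
              form_swap_zero C h2, add_zero])
            (by simp only [Submodule.coe_add, form_add_left, h1, hyz, zero_add]) k hk
          rw [map_add, hky, smul_add] at h3
          exact add_right_cancel h3
        · exact scale ⟨y, hy⟩ hyy hky h2
      · exact scale ⟨z, hz⟩ hzz hk h1
    refine ⟨k, LinearMap.ext fun x => ?_⟩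
    let U : Submodule F Vn := (LinearMap.ker (r - k • 1)).map X.W.subtype
    obtain ⟨x', hx', e⟩ := (X.pair_W_span (U := U) hz hy hzz hyy hyz fun w hw hww =>
      ⟨⟨w, hw⟩, by simp [LinearMap.mem_ker, hiso ⟨w, hw⟩ hww], rfl⟩) x.2
    have : x' = x := Subtype.ext e
    subst this
    exact sub_eq_zero.1 (LinearMap.mem_ker.1 hx')
  · obtain ⟨k, hk⟩ := hline (r ⟨u, hu⟩ : Vn) (r ⟨u, hu⟩).2
    refine ⟨k, LinearMap.ext fun x => ?_⟩
    obtain ⟨c, hc⟩ := hline x x.2
    have hx : x = c • (⟨u, hu⟩ : X.W) := Subtype.ext hc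
    rw [hx, map_smul, map_smul, LinearMap.smul_apply, Module.End.one_apply]
    exact congrArg (c • ·) (Subtype.ext hk)

end Frame

end CfsgLib.AutPSU
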