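import Cfsg.Agent.AutPSU.Classify
import Cfsg.Agent.UGeom.Center
import Cfsg.Agent.AutPSL.Card
import Cfsg.Prelude.Def_KGroupFacts
set_option autoImplicit false

/-!
Uniqueness of the decomposition, the field part as a homomorphism, and the order of `Aut PSU_n(q)`.
-/

namespace CfsgLib.AutPSU

open Matrix
open CfsgLib.UGeom

variable {F : Type*} [Field F] [Fintype F] {q n : ℕ}

local notation "H" => Cfsg.hermForm n F q
local notation "Vn" => (Fin n → F)
local notation "SU" => Cfsg.SU n F q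
local notation "GU" => Cfsg.GU n F q
local notation "PSU'" => Cfsg.PSU n F q
local notation "mg" A:max => (((A : GU) : GL (Fin n) F) : Matrix (Fin n) (Fin n) F)
local notation "mat" A:max => (((A : SU) : Matrix.SpecialLinearGroup (Fin n) F) : Matrix (Fin n) (Fin n) F)

/-- A semilinear isometry fixing every isotropic point is a scalar. -/
theorem semilinear_fix_all (C : Conj F q) (hn : 3 ≤ n) (g : GU) (τ : RingAut F)
    (h : ∀ v : Vn, v ≠ 0 → H v v = 0 → ∃ a : F, mg g *ᵥ (τ ∘ v) = a • v) :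
    τ = 1 ∧ ∃ α : F, ∀ x : Vn, mg g *ᵥ x = α • x := by
  obtain ⟨X⟩ := exists_frame C hn
  set G : Vn → Vn := fun x => mg g *ᵥ (τ ∘ x) with hG
  have hGform : ∀ x y, H (G x) (G y) = τ (H x y) := fun x y => by
    simp only [hG]; rw [GU_form g, form_map]
  have hGadd : ∀ x y, G (x + y) = G x + G y := fun x y => by
    simp only [hG]
    rw [show τ ∘ (x + y) = τ ∘ x + τ ∘ y from funext fun i => map_add τ _ _, Matrix.mulVec_add]
  have hGsmul : ∀ (c : F) x, G (c • x) = τ c • G x := fun c x => by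
    simp only [hG]
    rw [show τ ∘ (c • x) = τ c • (τ ∘ x) from funext fun i => map_mul τ _ _, Matrix.mulVec_smul]
  obtain ⟨α, hα⟩ := h X.e X.e_ne X.ee
  obtain ⟨β, hβ⟩ := h X.f X.f_ne X.ff
  change G X.e = α • X.e at hα
  change G X.f = β • X.f at hβ
  have hβα : β * C.σ α = 1 := by
    have h1 := hGform X.f X.e
    rw [hα, hβ, form_smul_left, form_smul_right C, X.fe, map_one, mul_one] at h1
    exact h1
  have hα0 : α ≠ 0 := fun e => by rw [e, map_zero, mul_zero] at hβα; exact zero_ne_one hβα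
  have step : ∀ (z : Vn) (a : F), z ∈ X.W → a + C.σ a + H z z = 0 →
      τ a * α = β * a ∧ G z = β • z := by
    intro z a hz ha
    set y := X.f + z + a • X.e with hy
    have hye : H y X.e = 1 := by
      rw [hy, form_add_left, form_add_left, form_smul_left, X.fe, hz.1, X.ee]; ring
    have hyy : H y y = 0 := by
      rw [hy]
      simp only [form_add_left, form_add_right C, form_smul_left, form_smul_right C, X.ff, X.fe,
        X.ef, X.ee, hz.1, hz.2, X.e_left hz, X.f_left hz]
      linear_combination ha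
    obtain ⟨l, hl⟩ := h y (fun e => by rw [e, form_zero_left] at hye; exact zero_ne_one hye) hyy
    change G y = l • y at hl
    rw [hy, hGadd, hGadd, hGsmul, hα, hβ, smul_smul] at hl
    have hGzW : G z ∈ X.W := by
      have h1 := hGform z X.e
      have h2 := hGform z X.f
      rw [hα, form_smul_right C, hz.1, map_zero] at h1
      rw [hβ, form_smul_right C, hz.2, map_zero] at h2
      have hβ0 : β ≠ 0 := fun e => by rw [e, zero_mul] at hβα; exact zero_ne_one hβα
      exact ⟨(mul_eq_zero.1 h1).resolve_left ((map_ne_zero C.σ).2 hα0),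
        (mul_eq_zero.1 h2).resolve_left ((map_ne_zero C.σ).2 hβ0)⟩
    have e1 := congrArg (fun v => H v X.e) hl
    have e2 := congrArg (fun v => H v X.f) hl
    have e3 := congrArg X.prj hl
    simp only [form_add_left, form_smul_left, X.ff, X.fe, X.ef, X.ee, hz.1, hz.2, hGzW.1, hGzW.2] at e1 e2
    simp only [map_add, map_smul, X.prj_f, X.prj_e, X.prj_of_mem hz, X.prj_of_mem hGzW, smul_zero,
      add_zero, zero_add] at e3
    have hlb : l = β := by linear_combination -e1
    subst hlb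
    exact ⟨by linear_combination e2, e3⟩
  have hcov : ∀ a : F, ∃ z ∈ X.W, a + C.σ a + H z z = 0 := by
    intro a
    by_cases ha : a + C.σ a = 0
    · exact ⟨0, X.W.zero_mem, by rw [form_zero_left, add_zero]; exact ha⟩
    obtain ⟨w, hw, hww⟩ := Frame.exists_anisotropic C hn X
    obtain ⟨c, -, hc⟩ := CfsgLib.Hermitian.exists_norm C.ne_id C.invol
      (a := -(a + C.σ a) / H w w) (div_ne_zero (neg_ne_zero.2 ha) hww)
      (by rw [map_div₀, map_neg, map_add, C.invol, form_conj C, add_comm])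
    refine ⟨c • w, X.W.smul_mem _ hw, ?_⟩
    rw [form_smul_left, form_smul_right C]
    rw [eq_div_iff hww] at hc
    linear_combination hc
  have hτa : ∀ a : F, τ a * α = β * a := fun a => by
    obtain ⟨z, hz, ha⟩ := hcov a
    exact (step z a hz ha).1
  have hαβ : α = β := by have := hτa 1; rwa [map_one, one_mul, mul_one] at this
  have hτ : τ = 1 := by
    refine RingEquiv.ext fun a => mul_right_cancel₀ hα0 ?_
    rw [hτa a, hαβ, mul_comm]
    rfl
  refine ⟨hτ, α, fun x => ?_⟩
  obtain ⟨a, ha⟩ := Frame.exists_eich_coord C (X.prj x)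
  have hGW := (step _ a (X.prj_mem x) ha).2
  have hGid : ∀ v : Vn, G v = mg g *ᵥ v := fun v => by simp only [hG, hτ]; rfl
  rw [← hGid]
  conv_lhs => rw [X.decomp x, hGadd, hGadd, hGsmul, hGsmul, hα, hβ, hGW, hτ]
  conv_rhs => rw [X.decomp x]
  rw [hαβ]
  simp only [RingAut.one_apply, smul_add, smul_smul]
  module

theorem eq_one_of_conjPSU_eq_fieldPSU (C : Conj F q) (hn : 3 ≤ n) {g : GU} {τ : RingAut F}
    (h : conjPSU g = fieldPSU τ) : τ = 1 ∧ ∃ α : F, mg g = α • (1 : Matrix (Fin n) (Fin n) F) := by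
  have hfix : ∀ v : Vn, v ≠ 0 → H v v = 0 → ∃ a : F, mg g⁻¹ *ᵥ (τ ∘ v) = a • v := by
    intro v hv0 hv
    have h1 := tbar_map_semilinear C g 1 hv
    have h2 := tbar_map_semilinear C (1 : GU) τ hv
    rw [map_one, mul_one, h] at h1
    rw [map_one, one_mul, h1] at h2
    have hτv : mg (1 : GU) *ᵥ (τ ∘ v) = τ ∘ v := Matrix.one_mulVec _
    have h1v : (1 : RingAut F) ∘ v = v := rfl
    rw [hτv, h1v] at h2
    have hτ0 : τ ∘ v ≠ 0 := fun e => hv0 (funext fun i => τ.injective (by
      rw [show τ (v i) = 0 from congrFun e i, Pi.zero_apply, map_zero]))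
    obtain ⟨a, -, ha⟩ := tbar_eq_imp C hn hτ0 (by rw [form_map, hv, map_zero])
      (by rw [GU_form g, hv]) h2.symm
    refine ⟨a, ?_⟩
    rw [ha, Matrix.mulVec_smul, Matrix.mulVec_mulVec, ← GU_coe_mul, inv_mul_cancel]
    exact congrArg (a • ·) (Matrix.one_mulVec v)
  obtain ⟨hτ, α, hα⟩ := semilinear_fix_all C hn g⁻¹ τ hfix
  refine ⟨hτ, α⁻¹, Matrix.ext_iff_mulVec.2 fun v => ?_⟩
  rw [Matrix.smul_mulVec, Matrix.one_mulVec]
  have h1 := hα (mg g *ᵥ v)
  rw [Matrix.mulVec_mulVec, ← GU_coe_mul, inv_mul_cancel, show mg (1 : GU) *ᵥ v = v from Matrix.one_mulVec v] at h1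
  rcases eq_or_ne α 0 with rfl | hα0
  · rw [zero_smul] at h1; rw [h1, Matrix.mulVec_zero, smul_zero]
  · conv_rhs => rw [h1, smul_smul, inv_mul_cancel₀ hα0, one_smul]

theorem conjPSU_eq_one_of_scalar {g : GU} {a : F} (h : mg g = a • (1 : Matrix (Fin n) (Fin n) F)) :
    conjPSU g = 1 := by
  refine MulEquiv.ext fun x => ?_
  obtain ⟨s, rfl⟩ := proj_surjective x
  rw [conjPSU_proj, MulAut.one_apply]
  refine congrArg proj (mat_injective ?_)
  have h1 : mg g * mg g⁻¹ = 1 := by rw [← GU_coe_mul, mul_inv_cancel]; rfl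
  rw [conjSU_val, h, Matrix.smul_mul, Matrix.one_mul, ← Matrix.mul_one (mat s), ← Matrix.mul_smul,
    ← h, Matrix.mul_assoc, h1]

theorem conjPSU_eq_one_iff (C : Conj F q) (hn : 3 ≤ n) {g : GU} :
    conjPSU g = 1 ↔ ∃ a : F, mg g = a • (1 : Matrix (Fin n) (Fin n) F) :=
  ⟨fun h => (eq_one_of_conjPSU_eq_fieldPSU C hn (τ := 1) (h.trans (map_one _).symm)).2,
    fun ⟨_, h⟩ => conjPSU_eq_one_of_scalar h⟩

theorem decomposition_unique (C : Conj F q) (hn : 3 ≤ n) {g g' : GU} {τ τ' : RingAut F}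
    (h : conjPSU g * fieldPSU τ = conjPSU g' * fieldPSU τ') : τ = τ' ∧ conjPSU g = conjPSU g' := by
  have h1 : conjPSU (g'⁻¹ * g) = fieldPSU (τ' * τ⁻¹) := by
    rw [map_mul, map_inv, map_mul, map_inv, inv_mul_eq_iff_eq_mul, ← mul_assoc, eq_mul_inv_iff_mul_eq]
    exact h
  have h2 := (eq_one_of_conjPSU_eq_fieldPSU C hn h1).1
  rw [mul_inv_eq_one] at h2
  subst h2
  exact ⟨rfl, mul_right_cancel h⟩

/-- The field part of an automorphism. -/
theorem exists_partHom (C : Conj F q) (hn : 3 ≤ n) (h32 : ¬ (n = 3 ∧ q = 2)) :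
    ∃ χ : MulAut PSU' →* RingAut F, Function.Surjective χ ∧
      χ.ker = (conjPSU (F := F) (n := n) (q := q)).range ∧
      ∀ (g : GU) (τ : RingAut F), χ (conjPSU g * fieldPSU τ) = τ := by
  choose gf τf hdec using exists_decomposition (n := n) C hn h32
  have huniq : ∀ α (g : GU) τ, α = conjPSU g * fieldPSU τ → τf α = τ := fun α g τ h =>
    (decomposition_unique C hn ((hdec α).symm.trans h)).1
  let χ : MulAut PSU' →* RingAut F := MonoidHom.mk' τf fun α β => by
    refine huniq _ (gf α * fieldGU (τf α) (gf β)) _ ?_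
    conv_lhs => rw [hdec α, hdec β]
    rw [map_mul, map_mul, mul_assoc, ← mul_assoc (fieldPSU (τf α)), fieldPSU_mul_conjPSU]
    group
  have hχ : ∀ (g : GU) (τ : RingAut F), χ (conjPSU g * fieldPSU τ) = τ := fun g τ => huniq _ g τ rfl
  refine ⟨χ, fun τ => ⟨_, hχ 1 τ⟩, ?_, hχ⟩
  ext α
  constructor
  · intro hα
    refine ⟨gf α, ?_⟩
    conv_rhs => rw [hdec α, show τf α = 1 from hα, map_one, mul_one]
  · rintro ⟨g, rfl⟩
    have := hχ g 1
    rwa [map_one, mul_one] at this

theorem range_conjPSU_normal (C : Conj F q) (hn : 3 ≤ n) (h32 : ¬ (n = 3 ∧ q = 2)) :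
    ((conjPSU (F := F) (n := n) (q := q)).range).Normal := by
  obtain ⟨χ, -, hker, -⟩ := exists_partHom (n := n) C hn h32
  rw [← hker]
  infer_instance

theorem card_range_conjPSU (C : Conj F q) (hn : 3 ≤ n) :
    Nat.card (conjPSU (F := F) (n := n) (q := q)).range = Nat.card SU := by
  have hn1 : 1 ≤ n := by omega
  have hnm : ∀ u : Fˣ, u ^ (q + 1) = 1 → (u : F) * C.σ u = 1 := fun u hu => by
    rw [C.pow, ← pow_succ', ← Units.val_pow_eq_pow_val, hu, Units.val_one]
  have hk : Nat.card (conjPSU (F := F) (n := n) (q := q)).ker = q + 1 := by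
    refine Eq.trans ?_ (card_norm_one C)
    let s : {u : Fˣ // u ^ (q + 1) = 1} → (conjPSU (F := F) (n := n) (q := q)).ker := fun u =>
      ⟨⟨GeneralLinearGroup.mkOfDetNeZero ((u.1 : F) • (1 : Matrix (Fin n) (Fin n) F)) (by
          simp [Matrix.det_smul]), fun x y => by
          change H (((u.1 : F) • (1 : Matrix (Fin n) (Fin n) F)) *ᵥ x) (((u.1 : F) • (1 : Matrix (Fin n) (Fin n) F)) *ᵥ y) = H x y
          rw [Matrix.smul_mulVec, Matrix.smul_mulVec, Matrix.one_mulVec, Matrix.one_mulVec,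
            form_smul_left, form_smul_right C, ← mul_assoc, hnm u.1 u.2, one_mul]⟩,
        conjPSU_eq_one_of_scalar (a := (u.1 : F)) rfl⟩
    let i₀ : Fin n := ⟨0, by omega⟩
    refine (Nat.card_congr (Equiv.ofBijective s ⟨fun u v e => ?_, fun g => ?_⟩)).symm
    · have h1 := congrArg (fun g : (conjPSU (F := F) (n := n) (q := q)).ker => (mg g.1) i₀ i₀) e
      have h2 : (u.1 : F) * 1 = (v.1 : F) * 1 := by simpa [s] using h1
      exact Subtype.ext (Units.ext (by simpa using h2))
    · obtain ⟨a, ha⟩ := (conjPSU_eq_one_iff C hn).1 g.2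
      have h1 := GU_form g.1 (Pi.single i₀ 1 : Vn) (Pi.single i₀ 1)
      rw [ha, Matrix.smul_mulVec, Matrix.one_mulVec, form_smul_left, form_smul_right C,
        form_single_right C, Pi.single_eq_same, mul_one] at h1
      have ha0 : a ≠ 0 := fun e => by rw [e, zero_mul] at h1; exact zero_ne_one h1
      refine ⟨⟨Units.mk0 a ha0, Units.ext ?_⟩, Subtype.ext (Subtype.ext (Units.ext ha.symm))⟩
      rw [Units.val_pow_eq_pow_val, Units.val_mk0, Units.val_one, pow_succ', ← C.pow]
      exact h1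
  have h := Subgroup.card_eq_card_quotient_mul_card_subgroup (conjPSU (F := F) (n := n) (q := q)).ker
  rw [hk, Nat.card_congr (QuotientGroup.quotientKerEquivRange (conjPSU (F := F) (n := n) (q := q))).toEquiv,
    ← card_SU_mul C hn1, mul_comm] at h
  exact (Nat.eq_of_mul_eq_mul_right (by omega) h).symm

theorem card_SU_eq (C : Conj F q) (hn : 3 ≤ n) :
    Nat.card SU = Nat.gcd n (q + 1) * Nat.card PSU' := by
  rw [← card_center_SU C (by omega : 2 ≤ n), mul_comm]
  exact Subgroup.card_eq_card_quotient_mul_card_subgroup _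

theorem card_ringAut_sq {p f : ℕ} [Fact p.Prime] (hq : q = p ^ f) (hF : Fintype.card F = q ^ 2) :
    Nat.card (RingAut F) = 2 * f :=
  CfsgLib.AutPSL.card_ringAut F (p := p) (by rw [hF, hq, ← pow_mul, mul_comm])

theorem card_mulAut (C : Conj F q) (hn : 3 ≤ n) (h32 : ¬ (n = 3 ∧ q = 2)) :
    Nat.card (MulAut PSU') = Nat.gcd n (q + 1) * Nat.card (RingAut F) * Nat.card PSU' := by
  obtain ⟨χ, hsurj, hker, -⟩ := exists_partHom (n := n) C hn h32
  have h := Subgroup.card_eq_card_quotient_mul_card_subgroup χ.ker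
  rw [Nat.card_congr (QuotientGroup.quotientKerEquivOfSurjective χ hsurj).toEquiv, hker,
    card_range_conjPSU C hn, card_SU_eq C hn] at h
  rw [h]; ring

theorem conj_injective (C : Conj F q) (hn : 3 ≤ n) :
    Function.Injective (MulAut.conj : PSU' →* MulAut PSU') := by
  rw [injective_iff_map_eq_one]
  intro x hx
  obtain ⟨h, rfl⟩ := proj_surjective x
  rw [← conjPSU_toGU] at hx
  obtain ⟨a, ha⟩ := (conjPSU_eq_one_iff C hn).1 hx
  exact proj_eq_one_iff.2 (mem_center_of_scalar (c := a) ha)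

/-- The diagonal outer automorphisms. -/
theorem diag_image (C : Conj F q) (hn : 3 ≤ n) (h32 : ¬ (n = 3 ∧ q = 2))
    (N : Subgroup (MulAut PSU')) [N.Normal] (hN : N = Cfsg.Inn PSU') :
    IsCyclic ((conjPSU (F := F) (n := n) (q := q)).range.map (QuotientGroup.mk' N)) ∧
      Nat.card ((conjPSU (F := F) (n := n) (q := q)).range.map (QuotientGroup.mk' N)) =
        Nat.gcd n (q + 1) := by
  subst hN
  rw [← MonoidHom.range_comp]
  set ψ := (QuotientGroup.mk' (Cfsg.Inn PSU')).comp (conjPSU (F := F) (n := n) (q := q)) with hψ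
  constructor
  · let d : GU →* Fˣ := GeneralLinearGroup.det.comp (Cfsg.GU n F q).subtype
    have hd : ∀ g : GU, d g = 1 → ψ g = 1 := by
      intro g hg
      have hdet : (mg g).det = 1 := congrArg Units.val hg
      rw [hψ, MonoidHom.comp_apply, QuotientGroup.mk'_apply, QuotientGroup.eq_one_iff]
      refine ⟨proj ⟨⟨mg g, hdet⟩, g.2⟩, ?_⟩
      rw [← conjPSU_toGU]
      exact congrArg conjPSU (Subtype.ext (Units.ext rfl))
    have hle : d.ker ≤ ψ.rangeRestrict.ker := fun g hg => by
      rw [MonoidHom.ker_rangeRestrict]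
      exact MonoidHom.mem_ker.2 (hd g (MonoidHom.mem_ker.1 hg))
    let e : GU ⧸ d.ker ≃* d.range := QuotientGroup.quotientKerEquivRange d
    haveI : IsCyclic (GU ⧸ d.ker) := isCyclic_of_surjective e.symm.toMonoidHom e.symm.surjective
    refine isCyclic_of_surjective (QuotientGroup.lift d.ker ψ.rangeRestrict hle) ?_
    exact QuotientGroup.lift_surjective_of_surjective _ _ ψ.rangeRestrict_surjective _
  · have hker : ψ.ker = (Cfsg.Inn PSU').comap (conjPSU (F := F) (n := n) (q := q)) := by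
      rw [hψ, ← MonoidHom.comap_ker, QuotientGroup.ker_mk']
    have hInn : Nat.card (Cfsg.Inn PSU') = Nat.card PSU' :=
      (Nat.card_congr (MonoidHom.ofInjective (conj_injective C hn)).toEquiv).symm
    have h := Subgroup.card_eq_card_quotient_mul_card_subgroup
      ((Cfsg.Inn PSU').subgroupOf (conjPSU (F := F) (n := n) (q := q)).range)
    rw [card_range_conjPSU C hn, card_SU_eq C hn,
      Nat.card_congr (Subgroup.subgroupOfEquivOfLe inn_le_range).toEquiv, hInn] at h
    rw [← Subgroup.index_ker, hker, Subgroup.index_comap]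
    exact (Nat.eq_of_mul_eq_mul_right Nat.card_pos h).symm

end CfsgLib.AutPSU
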